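import Cfsg.Agent.H67.T3T
import Cfsg.Agent.H4.J2Syl
import Cfsg.Prelude.Def_Solvable
import Cfsg.Prelude.Def_CaseTheorems
import Cfsg.Prelude.Def_Transfer
import Cfsg.Prelude.Def_Spor_HN
import Cfsg.Prelude.Def_Spor_Conway
import Cfsg.Prelude.Def_SporadicB

/-! Interfaces for the `3`-local recognition of `HN`; proofs in `stubs/notes/h99_hn.md`. -/

set_option autoImplicit false

universe u

namespace Cfsg.Agent.H99.HN

open Cfsg Subgroup Equiv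
open Cfsg.Agent.H91 (SL25 slX slY)
open Cfsg.Agent.H67.T3 (slF)
open Cfsg.Agent.H4.J2S (F4)
open scoped Pointwise

/-! ### Models -/

/-- coordinates -/
abbrev W4 : Type := Fin 4 → ZMod 3
/-- a monomial matrix of determinant one -/
def Det1 (ε : W4) (σ : Perm (Fin 4)) : Prop :=
  (∀ i, ε i * ε i = 1) ∧ ε 0 * ε 1 * ε 2 * ε 3 = (((Perm.sign σ : ℤˣ) : ℤ) : ZMod 3)

instance (ε : W4) (σ : Perm (Fin 4)) : Decidable (Det1 ε σ) := inferInstanceAs (Decidable (_ ∧ _))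

/-- degree nine -/
abbrev A9 : Type := alternatingGroup (Fin 9)
/-- degree twelve -/
abbrev A12 : Type := alternatingGroup (Fin 12)

/-- the product of two transpositions; `dd a b b c` is the cycle `a ↦ b ↦ c ↦ a` -/
def dd {n : ℕ} (a b c e : Fin n) (h1 : a ≠ b := by decide) (h2 : c ≠ e := by decide) :
    alternatingGroup (Fin n) :=
  ⟨swap a b * swap c e, by simp [Perm.mem_alternatingGroup, Perm.sign_swap h1, Perm.sign_swap h2]⟩

/-- `(0 2 4)` -/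
def c1 : A12 := dd 0 2 2 4
/-- `(1 3 5)` -/
def c2 : A12 := dd 1 3 3 5
/-- `(6 7 11)` -/
def c3 : A12 := dd 6 7 7 11
/-- `(8 9 10)` -/
def c4 : A12 := dd 8 9 9 10
/-- `(0 1)(2 3)(4 5)(6 7)` -/
def u0 : A12 := dd 0 1 2 3 * dd 4 5 6 7
/-- `(8 9)(10 11)` -/
def t0 : A12 := dd 8 9 10 11
/-- `(8 10)(9 11)` -/
def s0 : A12 := dd 8 10 9 11
/-- `(0 2)(1 3)` -/
def σ0 : A12 := dd 0 2 1 3
/-- `(0 2)(1 3)(6 7)(8 9)` -/
def w0 : A12 := dd 0 2 1 3 * dd 6 7 8 9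
/-- `(0 2)(1 3)(4 6)(5 7)` -/
def x2 : A12 := dd 0 2 1 3 * dd 4 6 5 7
/-- `(0 4)(1 5)(2 6)(3 7)` -/
def x4 : A12 := dd 0 4 1 5 * dd 2 6 3 7
/-- extraspecial of order `32` -/
def Ep0 : Subgroup A12 := closure {dd 0 1 2 3, dd 2 3 4 5, dd 4 5 6 7, x2, x4}
/-- a four-group inside -/
def Vp0 : Subgroup A12 := closure {dd 0 1 2 3, dd 2 3 4 5}
/-- the four-group on the last four points -/
def V30 : Subgroup A12 := closure {t0, s0}
/-- a regular elementary group of order eight on the first eight points -/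
def Af0 : Subgroup A12 := closure {u0, x2, x4}

/-- two by two matrices over the field with four elements -/
@[ext] structure M4 : Type where
  /-- entry -/
  a : F4
  /-- entry -/
  b : F4
  /-- entry -/
  c : F4
  /-- entry -/
  d : F4
  deriving DecidableEq

namespace M4

instance : Zero M4 := ⟨⟨0, 0, 0, 0⟩⟩
instance : One M4 := ⟨⟨1, 0, 0, 1⟩⟩
instance : Add M4 := ⟨fun X Y => ⟨X.a + Y.a, X.b + Y.b, X.c + Y.c, X.d + Y.d⟩⟩
instance : Mul M4 := ⟨fun X Y => ⟨X.a * Y.a + X.b * Y.c, X.a * Y.b + X.b * Y.d,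
  X.c * Y.a + X.d * Y.c, X.c * Y.b + X.d * Y.d⟩⟩

/-- determinant -/
def det (X : M4) : F4 := X.a * X.d + X.b * X.c
/-- trace -/
def tr (X : M4) : F4 := X.a + X.d
/-- the adjugate -/
def adj (X : M4) : M4 := ⟨X.d, X.b, X.c, X.a⟩
/-- the semilinear antiautomorphism, or the identity -/
def tw : Bool → M4 → M4
  | false, X => X
  | true, X => ⟨X.d.bar, X.b.bar, X.c.bar, X.a.bar⟩
/-- the quadratic form with values `0, 1` -/
def q (X : M4) : F4 := X.det + X.det.bar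

/-- all matrices -/
def all : List M4 :=
  F4.all.flatMap fun a => F4.all.flatMap fun b => F4.all.flatMap fun c =>
    F4.all.map fun d => ⟨a, b, c, d⟩

theorem mem_all (X : M4) : X ∈ all := by
  obtain ⟨a, b, c, d⟩ := X
  simp only [all, List.mem_flatMap, List.mem_map]
  exact ⟨a, F4.mem_all a, b, F4.mem_all b, c, F4.mem_all c, d, F4.mem_all d, rfl⟩

instance (priority := high) decAll (p : M4 → Prop) [DecidablePred p] : Decidable (∀ x, p x) :=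
  decidable_of_iff (∀ x ∈ all, p x) ⟨fun h x => h x (mem_all x), fun h x _ => h x⟩

instance (priority := high) decEx (p : M4 → Prop) [DecidablePred p] : Decidable (∃ x, p x) :=
  decidable_of_iff (∃ x ∈ all, p x) ⟨fun ⟨x, _, h⟩ => ⟨x, h⟩, fun ⟨x, h⟩ => ⟨x, mem_all x, h⟩⟩

end M4

/-! ### The `3`-local data -/

variable {G : Type u} [Group G]

/-- `n` normalizes the range of `j` -/
def NJ (j : W4 → G) (n : G) : Prop := ∀ v, ∃ w, n * j v * n⁻¹ = j w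

/-- The output of SET. -/
structure HS3 (j : W4 → G) (ι : SL25 →* G) : Prop where
  add : ∀ v w, j (v + w) = j v * j w
  inj : ∀ v, j v = 1 → v = 0
  cJ : ∀ g, (∀ v, g * j v = j v * g) → ∃ v, g = j v
  exM : ∀ ε σ, Det1 ε σ → ∃ n, ∀ v, n * j v * n⁻¹ = j (ε * v ∘ σ)
  stab : ∀ n, NJ j n → n * j ![0, 0, 0, 1] = j ![0, 0, 0, 1] * n →
    ∃ ε σ, Det1 ε σ ∧ ∀ v, n * j v * n⁻¹ = j (ε * v ∘ σ)
  sig : ∀ X : Subgroup G, (∀ v, j v ∈ normalizer (X : Set G)) → (Nat.card X).Coprime 3 → X = ⊥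
  out : ∃ y, y ^ 3 = 1 ∧ NJ j y ∧ (∀ v, y ≠ j v) ∧ y * j ![0, 0, 0, 1] = j ![0, 0, 0, 1] * y ∧
    Nat.card (centralizer {j ![0, 0, 0, 1]} ⊓ centralizer {y} : Subgroup G) = 243
  ιinj : Function.Injective ι
  ιX : ι slX = j ![1, 1, 0, -1]
  ιu : ∀ v, ι (-1) * j v * (ι (-1))⁻¹ = j ![v 1, v 0, -v 2, v 3]
  ιz : ∀ k, ι k * j ![1, 1, 0, 1] = j ![1, 1, 0, 1] * ι k
  dec : ∀ r, r * j ![1, 1, 0, 1] = j ![1, 1, 0, 1] * r → r * ι (-1) = ι (-1) * r →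
    ∃ (i : ℕ) (k : SL25), r = j ![1, 1, 0, 1] ^ i * ι k
  nc : ¬ IsConj (j ![0, 0, 0, 1]) (j ![1, 1, 0, 1])
  simple : IsSimpleGroup G

/-- The centralizer `3 × A₉`. -/
structure HA9 (j : W4 → G) (φ : A9 →* G) : Prop where
  inj : Function.Injective φ
  e0 : φ (dd 0 1 1 2) = j ![1, 0, 0, 0]
  e1 : φ (dd 3 4 4 5) = j ![0, 1, 0, 0]
  e2 : φ (dd 6 7 7 8) = j ![0, 0, 1, 0]
  com : ∀ γ, φ γ * j ![0, 0, 0, 1] = j ![0, 0, 0, 1] * φ γ
  cen : ∀ g, g * j ![0, 0, 0, 1] = j ![0, 0, 0, 1] * g →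
    ∃ (i : ℕ) (γ : A9), g = j ![0, 0, 0, 1] ^ i * φ γ

/-- The subgroups `A₁₂` and `SL₂(5)`. -/
structure HB (G : Type u) [Group G] where
  /-- the alternating group -/
  ψ : A12 →* G
  /-- the complement in `C(z)` -/
  ι : SL25 →* G
  inj : Function.Injective ψ
  cA : ∀ g, g * ψ c4 = ψ c4 * g → g ∈ ψ.range
  ιinj : Function.Injective ι
  ιX : ι slX = ψ (c1 * c2 * c4⁻¹)
  ιu : ι (-1) = ψ u0
  ιz : ∀ k, ι k * ψ (c1 * c2 * c4) = ψ (c1 * c2 * c4) * ι k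
  dec : ∀ r, r * ψ (c1 * c2 * c4) = ψ (c1 * c2 * c4) * r → r * ψ u0 = ψ u0 * r →
    ∃ (i : ℕ) (k : SL25), r = ψ (c1 * c2 * c4) ^ i * ι k
  nc : ¬ IsConj (ψ c4) (ψ (c1 * c2 * c4))
  simple : IsSimpleGroup G

namespace HB

variable (U : HB G)

/-- the 2-central involution -/
def u : G := U.ψ u0
/-- the involution with centralizer `2.HS.2` -/
def t : G := U.ψ t0
/-- the second generator of the four-group -/
def s : G := U.ψ s0
/-- the involution interchanging the factors -/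
def σ : G := U.ψ σ0
/-- the involution inverting the Sylow 3-subgroup of `C(u)` -/
def w : G := U.ψ w0
/-- the 3-central element -/
def z : G := U.ψ (c1 * c2 * c4)
/-- `a₊` -/
def ap : G := U.ψ c4
/-- `a₋` -/
def am : G := U.ψ (c1 * c2)
/-- the element of order four -/
def d : G := U.ι slF
/-- `E₊` -/
def Ep : Subgroup G := Ep0.map U.ψ
/-- `E₋` -/
def Em : Subgroup G := MulAut.conj U.d • U.Ep
/-- `E = 2 ^ (1 + 8)` -/
def E : Subgroup G := U.Ep ⊔ U.Em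
/-- `L = N(E) ∩ C(u)` -/
def L : Subgroup G := centralizer {U.u} ⊓ normalizer (U.E : Set G)

/-- the centralizer of the four-group -/
def CV : Prop := ∀ g, g * U.t = U.t * g → g * U.s = U.s * g → g ∈ U.ψ.range

/-- the two classes of involutions, and the Sylow 3-subgroups of `C(u)` -/
structure CL : Prop where
  nc : ¬ IsConj U.t U.u
  syl : ¬ 27 ∣ Nat.card (centralizer {U.u} : Subgroup G)

/-- the extraspecial group -/
structure EF : Prop where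
  cm : ∀ a ∈ U.Ep, ∀ b ∈ U.Em, a * b = b * a
  inf : ∀ a ∈ U.Ep, a ∈ U.Em → a ∈ zpowers U.u
  dV : MulAut.conj U.d • Vp0.map U.ψ = V30.map U.ψ
  nA : ∀ γ, γ * u0 = u0 * γ → U.ψ γ ∈ U.L
  nd : U.d ∈ U.L
  card : Nat.card U.E = 512
  dec : ∀ e ∈ U.E, ∃ a ∈ U.Ep, ∃ b ∈ U.Em, e = a * b
  cE : ∀ g, (∀ e ∈ U.E, g * e = e * g) → g ∈ zpowers U.u
  uE : U.u ∈ U.E
  EL : U.E ≤ U.L
  sq : ∀ e ∈ U.E, e * e ∈ zpowers U.u
  com : ∀ a ∈ U.E, ∀ b ∈ U.E, a * b * a⁻¹ * b⁻¹ ∈ zpowers U.u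

/-- an element of order five -/
def F5 : Prop := ∃ f ∈ U.L, f ^ 5 = 1 ∧ f ≠ 1 ∧ f * U.σ * f⁻¹ * U.σ⁻¹ ∈ U.E

/-- `SL₂(5)` normalizes `E` -/
def L1 : Prop := ∀ k, U.ι k ∈ U.L

/-- the action on `E / ⟨u⟩` -/
def Act (π : G → M4) (g : G) (A B : M4) (b : Bool) : Prop :=
  ∀ e ∈ U.E, π (g * e * g⁻¹) = A * M4.tw b (π e) * B

/-- coordinates on `E / ⟨u⟩` -/
structure MD (π : G → M4) : Prop where
  add : ∀ a ∈ U.E, ∀ b ∈ U.E, π (a * b) = π a + π b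
  ker : ∀ a ∈ U.E, (π a = 0 ↔ a ∈ zpowers U.u)
  sur : ∀ X, ∃ a ∈ U.E, π a = X
  sq : ∀ a ∈ U.E, (a * a = 1 ↔ (π a).q = 0)
  πt : π U.t = 1
  πs : π U.s = ⟨.w, 0, 0, .v⟩
  πp : ∀ a ∈ U.Ep, (π a).a = 0 ∧ (π a).d = 0
  πA : ∀ a ∈ Af0.map U.ψ, (π a).a = 0 ∧ (π a).c = 0 ∧ (π a).d = 0
  ex : ∀ A B : M4, A.det = 1 → B.det = 1 → ∃ g ∈ U.L, U.Act π g A B false
  aσ : U.Act π U.σ 1 1 true
  aι : ∀ k, ∃ A : M4, A.det = 1 ∧ U.Act π (U.ι k) A 1 false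
  ad : ∃ A : M4, A.det = 1 ∧ A * A = 1 ∧ A ≠ 1 ∧ U.Act π U.d A 1 false

/-- the structure of `L` -/
structure LS (π : G → M4) : Prop where
  all : ∀ g ∈ U.L, ∃ A B b, M4.det A = 1 ∧ M4.det B = 1 ∧ U.Act π g A B b
  ker : ∀ g ∈ U.L, U.Act π g 1 1 false → g ∈ U.E
  cls0 : ∀ a ∈ U.E, π a ≠ 0 → (π a).det = 0 → IsConj U.u a
  cls1 : ∀ a ∈ U.E, (π a).det = 1 → IsConj U.t a

/-- the elements of `L - E` with square in `⟨u⟩` -/
structure TY (π : G → M4) : Prop where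
  ty : ∀ g ∈ U.L, g ∉ U.E → g * g ∈ zpowers U.u → ∃ m ∈ U.L, ∃ c ∈ zpowers U.u,
    g = m * U.d * m⁻¹ * c ∨ g = m * U.σ * m⁻¹ * c ∨ g = m * U.w * m⁻¹ * c
  aw : ∃ A B : M4, A.det = 1 ∧ B.det = 1 ∧ A * A = 1 ∧ B * B = 1 ∧ A ≠ 1 ∧ B ≠ 1 ∧
    U.Act π U.w A B false

/-- `C(u) = L` -/
def KL : Prop := ∀ g, g * U.u = U.u * g → g ∈ U.L

/-- the subgroup of index two in `C(t)` -/
structure K0 (π : G → M4) (M : Subgroup G) : Prop where
  le : M ≤ centralizer {U.t}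
  idx : M.relIndex (centralizer {U.t}) = 2
  tM : U.t ∈ M
  sM : U.s ∉ M
  RM : ∀ e ∈ U.E, e * U.t = U.t * e → (e ∈ M ↔ (π e).tr = 0)

/-- `p` is a projection with kernel `⟨t⟩` -/
def Pj {M : Subgroup G} {X : Type u} [Group X] (p : M →* X) : Prop :=
  Function.Surjective p ∧ ∀ m, p m = 1 ↔ (m : G) ∈ zpowers U.t

/-- the image of a subgroup -/
def im {M : Subgroup G} {X : Type u} [Group X] (p : M →* X) (H : Subgroup G) : Subgroup X :=
  (H.subgroupOf M).map p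

/-- all the facts before the last steps -/
structure All (π : G → M4) (M : Subgroup G) : Prop where
  cv : U.CV
  cl : U.CL
  ef : U.EF
  md : U.MD π
  ls : U.LS π
  kl : U.KL
  k0 : U.K0 π M

end HB

/-- the involution centralizer of `HS` -/
def HSa {X : Type u} [Group X] (x : X) (V : Subgroup X) : Prop :=
  orderOf x = 2 ∧ ∃ R Cy E : Subgroup X,
    R = (pCore 2 (centralizer ({x} : Set X))).map (centralizer ({x} : Set X)).subtype ∧
    IsCyclic Cy ∧ Nat.card Cy = 4 ∧ Cy ≤ R ⊓ centralizer (R : Set X) ∧ E ≤ R ∧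
    IsExtraspecial 2 E ∧ Nat.card E = 32 ∧ Cy ⊔ E = R ∧ Cy ⊓ E = E ⊓ centralizer (E : Set X) ∧
    Nonempty (centralizer ({x} : Set X) ⧸ pCore 2 (centralizer ({x} : Set X)) ≃* Perm (Fin 5)) ∧
    V ≤ R

/-- the subgroup `4³ : L₃(2)` -/
def HSb {X : Type u} [Group X] (V : Subgroup X) : Prop :=
  IsMulCommutative V ∧ (∀ v ∈ V, v ^ 2 = 1) ∧ Nat.card V = 8 ∧
    Nonempty (pCore 2 (normalizer (V : Set X)) ≃* Multiplicative (ZMod 4 × ZMod 4 × ZMod 4)) ∧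
    Nonempty (normalizer (V : Set X) ⧸ pCore 2 (normalizer (V : Set X)) ≃* GL (Fin 3) (ZMod 2))

/-! ### The pieces -/

/-- The hypotheses of the row imply `P`. -/
def RowImp (P : ∀ (G : Type u) [Group G], Prop) : Prop := ∀ (G : Type u) [Group G] [Finite G]
    (S : Sylow 3 G) (Z : Subgroup G)
    (_ : Z = (S : Subgroup G) ⊓ centralizer ((S : Subgroup G) : Set G))
    (C : Subgroup G) (_ : C = centralizer (Z : Set G))
    (Q : Subgroup G) (_ : Q = (pCore 3 C).map C.subtype)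
    (_ : IsExtraspecial 3 Q) (_ : Nat.card Q = 3 ^ 5) (_ : ∀ a ∈ Q, a ^ 3 = 1)
    (_ : centralizer (Q : Set G) ≤ Q)
    (_ : ∃ x : G, Z.map (MulAut.conj x).toMonoidHom ≤ Q ∧ Z.map (MulAut.conj x).toMonoidHom ≠ Z)
    (_ : C ⧸ pCore 3 C ≃* SL25), P G

/-- Piece SET. -/
def SetStmt : Prop := RowImp.{u} fun G _ => ∃ (j : W4 → G) (ι : SL25 →* G), HS3 j ι
/-- Piece A9. -/
def A9Stmt : Prop := ∀ (G : Type u) [Group G] [Finite G] (j : W4 → G) (ι : SL25 →* G),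
  HS3 j ι → ∃ φ, HA9 j φ
/-- Piece A12. -/
def A12Stmt : Prop := ∀ (G : Type u) [Group G] [Finite G] (j : W4 → G) (ι : SL25 →* G)
  (φ : A9 →* G), HS3 j ι → HA9 j φ → Nonempty (HB G)
/-- Piece A8. -/
def A8Stmt : Prop := ∀ (G : Type u) [Group G] [Finite G] (U : HB G), U.CV
/-- Piece CL. -/
def CLStmt : Prop := ∀ (G : Type u) [Group G] [Finite G] (U : HB G), U.CL
/-- Piece E. -/
def EStmt : Prop := ∀ (G : Type u) [Group G] [Finite G] (U : HB G), U.CV → U.EF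
/-- Piece F5. -/
def F5Stmt : Prop := ∀ (G : Type u) [Group G] [Finite G] (U : HB G), U.CV → U.CL → U.EF → U.F5
/-- Piece L1. -/
def L1Stmt : Prop := ∀ (G : Type u) [Group G] [Finite G] (U : HB G), U.CL → U.EF → U.F5 → U.L1
/-- Piece MOD. -/
def ModStmt : Prop := ∀ (G : Type u) [Group G] [Finite G] (U : HB G), U.EF → U.L1 →
  ∃ π, U.MD π
/-- Piece LS. -/
def LSStmt : Prop := ∀ (G : Type u) [Group G] [Finite G] (U : HB G) (π : G → M4),
  U.CV → U.CL → U.EF → U.MD π → U.LS π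
/-- Piece TY. -/
def TYStmt : Prop := ∀ (G : Type u) [Group G] [Finite G] (U : HB G) (π : G → M4),
  U.CL → U.EF → U.MD π → U.LS π → U.TY π
/-- Piece SC. -/
def SCStmt : Prop := ∀ (G : Type u) [Group G] [Finite G] (U : HB G) (π : G → M4),
  U.CL → U.EF → U.L1 → U.MD π → U.LS π → U.TY π → U.KL
/-- Piece K0. -/
def K0Stmt : Prop := ∀ (G : Type u) [Group G] [Finite G] (U : HB G) (π : G → M4),
  U.CL → U.EF → U.MD π → U.LS π → U.TY π → U.KL → ∃ M, U.K0 π M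
/-- Piece HSA. -/
def HSaStmt : Prop := ∀ (G : Type u) [Group G] [Finite G] (U : HB G) (π : G → M4)
  (M : Subgroup G), U.All π M → ∀ (X : Type u) [Group X] (p : M →* X), U.Pj p →
  ∀ hu : U.u ∈ M, HSa (p ⟨U.u, hu⟩) (HB.im p (Af0.map U.ψ))
/-- Piece HSB. -/
def HSbStmt : Prop := ∀ (G : Type u) [Group G] [Finite G] (U : HB G) (π : G → M4)
  (M : Subgroup G), U.All π M → ∀ (X : Type u) [Group X] (p : M →* X), U.Pj p →
  HSb (HB.im p (Af0.map U.ψ))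
/-- Piece END. -/
def EndStmt : Prop := HSaStmt.{u} → HSbStmt.{u} → ∀ (G : Type u) [Group G] [Finite G] (U : HB G)
  (π : G → M4) (M : Subgroup G), U.All π M → Spor.IsoHN G

/-- The assembly. -/
theorem hn_of (h1 : SetStmt.{u}) (h2 : A9Stmt.{u}) (h3 : A12Stmt.{u}) (h4 : A8Stmt.{u})
    (h5 : CLStmt.{u}) (h6 : EStmt.{u}) (h7 : F5Stmt.{u}) (h8 : L1Stmt.{u}) (h9 : ModStmt.{u})
    (h10 : LSStmt.{u}) (h11 : TYStmt.{u}) (h12 : SCStmt.{u}) (h13 : K0Stmt.{u})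
    (h14 : HSaStmt.{u}) (h15 : HSbStmt.{u}) (h16 : EndStmt.{u}) :
    RowImp.{u} fun G _ => Spor.IsoHN G := by
  intro G _ _ S Z a1 C a2 Q a3 a4 a5 a6 a7 a8 a9
  obtain ⟨j, ι, h⟩ := h1 G S Z a1 C a2 Q a3 a4 a5 a6 a7 a8 a9
  obtain ⟨φ, hφ⟩ := h2 G j ι h
  obtain ⟨U⟩ := h3 G j ι φ h hφ
  have cv := h4 G U
  have cl := h5 G U
  have ef := h6 G U cv
  have l1 := h8 G U cl ef (h7 G U cv cl ef)
  obtain ⟨π, md⟩ := h9 G U ef l1
  have ls := h10 G U π cv cl ef md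
  have ty := h11 G U π cl ef md ls
  have kl := h12 G U π cl ef l1 md ls ty
  obtain ⟨M, k0⟩ := h13 G U π cl ef md ls ty kl
  exact h16 h14 h15 G U π M ⟨cv, cl, ef, md, ls, kl, k0⟩

end Cfsg.Agent.H99.HN
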