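import Cfsg.Agent.H99.C1G
import Cfsg.Prelude.Def_Spor_Conway

/-!
Saturated fusion systems over the Sylow `3`-subgroup `G` of `Co₁`: the interfaces between the parts of
the proof.
-/

set_option autoImplicit false

namespace Cfsg.Agent.H99.C1

open Cfsg.Agent.H97 Cfsg.Agent.H96.VB Cfsg.Agent.H96.CP Subgroup Matrix
open scoped commutatorElement

/-! ### Part A: the essential subgroups -/

/-- the conjugate `s Q s⁻¹` -/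
abbrev cjs (s : G) (Q : Subgroup G) : Subgroup G := Q.map (MulAut.conj s).toMonoidHom

theorem mem_cjs {s g : G} {Q : Subgroup G} : g ∈ cjs s Q ↔ s⁻¹ * g * s ∈ Q := by
  constructor
  · rintro ⟨x, hx, rfl⟩
    simpa [mul_assoc] using hx
  · exact fun h => ⟨_, h, by simp [mul_assoc]⟩

/-- `J` is the only abelian subgroup of order at least `3⁶`. -/
def JUStmt : Prop := ∀ Q : Subgroup G, (∀ x ∈ Q, ∀ y ∈ Q, x * y = y * x) → 3 ^ 6 ≤ Nat.card Q → Q = J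

/-- `Q` is the image of `P ⊓ J` under an automorphism of the essential subgroup `P` outside the strongly
embedded subgroup, chosen such that `Q ⊓ J` is as large as possible. -/
structure Kd (P Q : Subgroup G) : Prop where
  nj : ¬ J ≤ P
  cen : ∀ g, (∀ x ∈ P, g * x = x * g) → g ∈ P
  le : Q ≤ P
  nm : ∀ g ∈ P, ∀ x ∈ Q, g * x * g⁻¹ ∈ Q
  ab : ∀ x ∈ Q, ∀ y ∈ Q, x * y = y * x
  ex : ∀ x ∈ Q, x ^ 3 = 1
  card : Nat.card Q = Nat.card (P ⊓ J : Subgroup G)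
  nle : ¬ Q ≤ J
  k4 : ∀ s ∈ normalizer (P : Set G), s ∉ P →
    Nat.card (Q ⊓ cjs s Q : Subgroup G) ≤ Nat.card (Q ⊓ J : Subgroup G)

def KAStmt : Prop := ∀ (P : Subgroup G) A B, Cp 3 P A B → ¬ J ≤ P → ∃ Q, Kd P Q

/-- The formal consequences of `Kd`. -/
structure Kd2 (P Q : Subgroup G) : Prop extends Kd P Q where
  /-- the key fact -/
  k3 : ∀ j ∈ J, j ∉ P → (∀ g ∈ P, ⁅j, g⁆ ∈ P) → ∀ d ∈ Q, d ∉ J → ⁅j, d⁆ ∉ Q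
  /-- `[P ⊓ J, Q] ≤ Q ⊓ J` -/
  bq : ∀ j ∈ J, j ∈ P → ∀ d ∈ Q, ⁅j, d⁆ ∈ Q
  /-- `|W : P ⊓ J| ≤ |P ⊓ J : Q ⊓ J|` -/
  wl : ∀ W : Subgroup G, W ≤ J → (∀ j ∈ W, ∀ g ∈ P, ⁅j, g⁆ ∈ P) →
    Nat.card W * Nat.card (Q ⊓ J : Subgroup G) ≤
      Nat.card (W ⊓ P : Subgroup G) * Nat.card (P ⊓ J : Subgroup G)
  /-- `|P ⊓ J : Q ⊓ J| = |Q J : J|` -/
  ix : Nat.card (P ⊓ J : Subgroup G) = Nat.card (Q.map ug) * Nat.card (Q ⊓ J : Subgroup G)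

def K2Stmt : Prop := ∀ P Q : Subgroup G, Kd P Q → Kd2 P Q

/-- The counting lemma for `27` conjugates of a subgroup of order `27` in a group of order `3⁵`. -/
def LEStmt : Prop := ∀ (M L Q W W0 : Subgroup G) (s : G), (∀ x ∈ M, ∀ y ∈ M, x * y = y * x) →
  Nat.card M = 243 → L ≤ M → Nat.card L = 27 → Q ≤ M → Nat.card Q = 27 → Q ≠ L → W0 ≤ W →
  Nat.card W = 9 * Nat.card W0 → (∀ w ∈ W, ∀ x ∈ M, ⁅w, x⁆ ∈ L) → (∀ w ∈ W, ∀ x ∈ L, ⁅w, x⁆ = 1) →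
  (∀ w ∈ W0, ∀ x ∈ M, ⁅w, x⁆ = 1) → cjs s M = M → cjs s L = L →
  (∀ w ∈ W, w ∉ W0 → Nat.card (Q ⊓ cjs w Q : Subgroup G) ≤ Nat.card (Q ⊓ L : Subgroup G)) →
  (∀ w ∈ W, Nat.card (Q ⊓ cjs (s⁻¹ * w) Q : Subgroup G) ≤ Nat.card (Q ⊓ L : Subgroup G)) → False

/-- `Q` contains an element over the centre of `U`. -/
def Cc (Q : Subgroup G) : Prop := ∃ d ∈ Q, d ∈ Jc ∧ d ∉ J

def KB1Stmt : Prop := ∀ P Q, Kd2 P Q → Cc Q → J4 ≤ P → P = E3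

def KB2Stmt : Prop := ∀ P Q, Kd2 P Q → Cc Q → ¬ J4 ≤ P → False

def KB3Stmt : Prop := ∀ P Q, Kd2 P Q → ¬ Cc Q → (∃ d ∈ Q, d ∉ J ∧ (d.a = 0 ∨ d.b = 0)) → False

def KB4Stmt : Prop := ∀ P Q, Kd2 P Q → ¬ Cc Q → (∃ d ∈ Q, d.a ≠ 0 ∧ d.b ≠ 0) → False

def PJStmt : Prop := ∀ (P : Subgroup G) A B, Cp 3 P A B → J ≤ P → P = J ∨ P = E1 ∨ P = E2 ∨
  ∃ s, P = cjs s E4 ∨ P = cjs s (E4.map (tor τ3).toMonoidHom)

def RZStmt : Prop := ∀ A B, Cp 3 J A B → ∀ α ∈ A, (∀ g ∈ Z, ext α g ∈ Z) → α ∈ B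

def R5Stmt : Prop := ∀ A B, Cp 3 J A B → ∀ α ∈ A, (∀ g ∈ J5, ext α g ∈ J5) → α ∈ B

def TZStmt : Prop := ∀ A B, Cp 3 J A B → Iv B Z → Iv A Z

def T5Stmt : Prop := ∀ A B, Cp 3 J A B → Iv B J5 → Iv A J5

/-- `f` acts on `J` as the matrix `m`. -/
def Ac (f : G → G) (m : GL6) : Prop := ∀ v, f (jv v) = jv (m.1 *ᵥ v)

/-- the matrices of the members of `A` -/
def XX (A : Subgroup (MulAut J)) : Subgroup GL6 where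
  carrier := {m | ∃ α ∈ A, Ac (ext α) m}
  one_mem' := ⟨1, one_mem _, fun v => by simp [ext_one]⟩
  mul_mem' := by
    rintro m n ⟨α, hα, e⟩ ⟨β, hβ, k⟩
    exact ⟨α * β, mul_mem hα hβ, fun v => by rw [ext_mul, k, e, mulVec_mulVec, Units.val_mul]⟩
  inv_mem' := by
    rintro m ⟨α, hα, e⟩
    refine ⟨α⁻¹, inv_mem hα, fun v => ?_⟩
    have := e (m⁻¹.1 *ᵥ v)
    rw [mulVec_mulVec, ← Units.val_mul, mul_inv_cancel, Units.val_one, one_mulVec] at this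
    rw [← this, ext_inv_ext]

theorem mem_XX {A : Subgroup (MulAut J)} {m : GL6} : m ∈ XX A ↔ ∃ α ∈ A, Ac (ext α) m := Iff.rfl

/-- Every vector is conjugate to a vector fixed by a nontrivial element of `U`. -/
def OrbStmt : Prop := ∀ (k d : K), d ≠ 2 → ∀ Y : Subgroup GL6, (∀ g, ug g ∈ Y) → w1m (k + d) ∈ Y →
  w2m k ∈ Y → ∀ v : V, ∃ m ∈ Y, ∃ g, g ∉ J ∧ (ug g).1 *ᵥ (m.1 *ᵥ v) = m.1 *ᵥ v

def JOStmt : Prop := ∀ A B, Cp 3 J A B → ∀ k d : K, d ≠ 2 → w1m (k + d) ∈ XX B → w2m k ∈ XX B → False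

/-! ### Part B: automorphisms of `G` -/

structure ChS : Prop where
  j : ∀ β : MulAut G, ∀ g ∈ J, β g ∈ J
  e1 : ∀ β : MulAut G, ∀ g ∈ E1, β g ∈ E1
  e2 : ∀ β : MulAut G, ∀ g ∈ E2, β g ∈ E2
  e3 : ∀ β : MulAut G, ∀ g ∈ E3, β g ∈ E3
  z : ∀ β : MulAut G, ∀ g ∈ Z, β g ∈ Z
  dz : ∀ β : MulAut G, ∀ g ∈ Dz, β g ∈ Dz
  cj : centralizer (J : Set G) ≤ J

structure Ch3 : Prop where
  r : Ch E3 R
  n : Ch E3 N3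
  d : Ch E3 Dz
  z2 : Ch E3 Z2
  z : Ch E3 Z

/-- The shape of the automizer of `G`. -/
def TopS (C : Subgroup (MulAut G)) : Prop :=
  ∀ γ ∈ C, ∃ s e, γ = MulAut.conj s * tor e ∧ tor e ∈ C

/-- `C` contains the inner automorphisms with index prime to `3`. -/
def Inn3 (C : Subgroup (MulAut G)) : Prop :=
  (∀ s, MulAut.conj s ∈ C) ∧ ¬ 3 ∣ (MulAut.conj : G →* MulAut G).range.relIndex C

/-- the automorphisms acting trivially on `G / Φ(G)` -/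
def KS : Subgroup (MulAut G) where
  carrier := {β | ∀ g, (β g).a = g.a ∧ (β g).b = g.b ∧ (β g).t = g.t}
  one_mem' := fun _ => ⟨rfl, rfl, rfl⟩
  mul_mem' := fun {β γ} h k g =>
    ⟨(h _).1.trans (k g).1, (h _).2.1.trans (k g).2.1, (h _).2.2.trans (k g).2.2⟩
  inv_mem' := fun {β} h g => by
    have := h (β⁻¹ g)
    rw [MulAut.apply_inv_self] at this
    exact ⟨this.1.symm, this.2.1.symm, this.2.2.symm⟩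

/-- `Aut G = KS ⋊ tor` with a `3`-group `KS`. -/
def AU1Stmt : Prop := IsPGroup 3 KS ∧ ∀ β : MulAut G, ∃ e, β * (tor e)⁻¹ ∈ KS

def ASStmt : Prop := ∀ C, Inn3 C → ∃ β : MulAut G, ∀ γ, β * γ * β⁻¹ ∈ C →
  ∃ s e, γ = MulAut.conj s * tor e ∧ β * tor e * β⁻¹ ∈ C

def AKStmt : Prop := ∀ C, Inn3 C → tor τ2 ∈ C → tor τ3 ∈ C →
  (tor σ ∈ C ∨ ∀ γ ∈ C, γ (xz 1) ≠ xz (-1)) → TopS C

/-! ### The automizer of `E3` -/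

/-- The members of `A` acting trivially on `E3 / R` and `R / N3` are inner. -/
def Ker3 (A : Subgroup (MulAut E3)) : Prop := ∀ α ∈ A, (∀ g ∈ E3, (ext α g).a = g.a) →
  (∀ g ∈ R, (ext α g).b = g.b ∧ (ext α g).v = g.v) → ∃ e ∈ E3, Cj α e

/-- `n` acts on `E3 / R` and `R / N3` as `w3`. -/
def Sw3 (n : MulAut E3) : Prop :=
  (∀ g ∈ E3, (ext n g).a = g.a) ∧ ∀ g ∈ R, (ext n g).b = -g.v ∧ (ext n g).v = g.b

def A3aStmt : Prop := ∀ A : Subgroup (MulAut E3), LA 3 E3 A → Ker3 A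

def A3bStmt : Prop := ∀ C (A : Subgroup (MulAut E3)), TopS C → LB 3 C E3 A → Ker3 A →
  (∀ n ∈ A, Sw3 n → Bru A n) ∧ ((∃ α ∈ A, ¬ Nm α) → tor τ3 ∈ C ∧ ∃ n ∈ A, Sw3 n)

def Rig3Stmt : Prop := ∀ C (A : Subgroup (MulAut E3)), LB 3 C E3 A → Ker3 A → tor τ3 ∈ C →
  (∃ n ∈ A, Sw3 n) → ∃ n ∈ A, ∀ g ∈ E3, ext n g = w3 g

/-! ### The automizer of `J` -/

/-- Injective homomorphisms defined on overgroups of `J` are linear on `J`. -/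
def LinStmt : Prop := ∀ (N : Subgroup G) (f : G → G), J ≤ N → HomOn N f → Set.InjOn f N →
  ∃ m, Ac f m ∧ ∀ g ∈ N, m * ug g * m⁻¹ = ug (f g)

/-- `m` lies in the normalizer of `U` in `X`. -/
def Bor (X : Subgroup GL6) (m : GL6) : Prop := ∃ g e, m = ug g * tm e ∧ tm e ∈ X

/-- `U` is a Sylow subgroup of `X` with normalizer in standard form. -/
structure LX (X : Subgroup GL6) : Prop where
  u : ∀ g, ug g ∈ X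
  syl : ∀ M ≤ X, IsPGroup 3 M → ∃ γ ∈ X, ∀ m ∈ M, ∃ g, γ * m * γ⁻¹ = ug g
  nor : ∀ m ∈ X, (∀ g, ∃ g', m * ug g * m⁻¹ = ug g') → Bor X m

def TrxStmt : Prop := ∀ C (A : Subgroup (MulAut J)), TopS C → LB 3 C J A →
  LX (XX A) ∧ ∀ e, tm e ∈ XX A ↔ tor e ∈ C

/-- `m` normalizes the image of `N`. -/
def Nr (N : Subgroup G) (m : GL6) : Prop := ∀ g ∈ N, ∃ g' ∈ N, m * ug g * m⁻¹ = ug g'

/-- the stabilizer of `N ⊓ J` -/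
def Stb (N : Subgroup G) : Subgroup GL6 where
  carrier := {m | ∀ v, jv (m.1 *ᵥ v) ∈ N ↔ jv v ∈ N}
  one_mem' := fun v => by simp
  mul_mem' := fun {m n} h k v => by rw [Units.val_mul, ← mulVec_mulVec, h, k]
  inv_mem' := fun {m} h v => by
    rw [← h, mulVec_mulVec, ← Units.val_mul, mul_inv_cancel, Units.val_one, one_mulVec]

theorem mem_Stb {N : Subgroup G} {m : GL6} : m ∈ Stb N ↔ ∀ v, jv (m.1 *ᵥ v) ∈ N ↔ jv v ∈ N := Iff.rfl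

def StStmt : Prop := (∀ g e, ug g * tm e ∈ Stb Z ⊓ Stb Dz ⊓ Stb J5) ∧ (∀ m, Nr E2 m → m ∈ Stb Z) ∧
  ∀ m, Nr E1 m → m ∈ Stb Dz ⊓ Stb J5

/-- Elements that cannot lie in a group with Sylow subgroup `U`. -/
def BadStmt : Prop := ∀ X, LX X → ∀ m ∈ X, (m ^ 27 = 1 → m ^ 3 = 1) ∧
  ((m.1 - 1) * (m.1 - 1) = 0 → m = 1)

def FLStmt : Prop := ∀ X, LX X → ∀ m ∈ X, Nr Jc m → Bor X m

def X1Stmt : Prop := ∀ X, LX X → ∀ m ∈ X, Nr E1 m → ¬ Bor X m → ∃ k, w1m k ∈ X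

def X2Stmt : Prop := ∀ X, LX X → ∀ m ∈ X, Nr E2 m → ¬ Bor X m → ∃ k, w2m k ∈ X

def Br1Stmt : Prop := ∀ X, LX X → ∀ k, w1m k ∈ X → ∀ m ∈ X, Nr E1 m →
  Bor X m ∨ ∃ g, Bor X (w1m k * ug g * m)

def Br2Stmt : Prop := ∀ X, LX X → ∀ k, w2m k ∈ X → ∀ m ∈ X, Nr E2 m →
  Bor X m ∨ ∃ g, Bor X (w2m k * ug g * m)

def X40Stmt : Prop := ∀ X, LX X → tm τ3 ∈ X → ∀ m ∈ X, Nr E4 m → ¬ Bor X m → ∃ k, ∃ j : K,
  um 0 0 j * m * um 0 0 1 * (um 0 0 j * m)⁻¹ = mm k ∨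
    um 0 0 j * m * um 0 0 1 * (um 0 0 j * m)⁻¹ = (mm k)⁻¹

/-- Words. -/
structure Wd : Prop where
  w : ∀ (Y : Subgroup GL6) k, (∀ g, ug g ∈ Y) → tm τ3 ∈ Y → mm k ∈ Y → w2m k ∈ Y ∧ w1m (k + 1) ∈ Y
  m : ∀ (Y : Subgroup GL6) k, (∀ g, ug g ∈ Y) → w2m k ∈ Y → w1m (k + 1) ∈ Y → mm k ∈ Y ∧ tm σ ∈ Y
  n : ∀ k, um 0 0 1 * (mm k)⁻¹ * um 0 0 1 * (um 0 0 1 * (mm k)⁻¹)⁻¹ = (mm k)⁻¹
  bad : ∀ k, (um 1 0 0 * um 0 1 0 * w2m k * w1m (k + 2)) ^ 18 = 1 ∧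
    (um 1 0 0 * um 0 1 0 * w2m k * w1m (k + 2)) ^ 6 ≠ 1

def X4Stmt : Prop := ∀ X, LX X → tm τ3 ∈ X → ∀ m ∈ X, Nr E4 m → Bor X m ∨
  ∃ k, w2m k ∈ X ∧ w1m (k + 1) ∈ X ∧ ∀ Y : Subgroup GL6, (∀ g, ug g ∈ Y) → (∀ e, tm e ∈ X → tm e ∈ Y) →
    w2m k ∈ Y → w1m (k + 1) ∈ Y → m ∈ Y

/-- uniqueness of the twists, and the excluded twist -/
def XBStmt : Prop := ∀ X, LX X → (∀ k l, w1m k ∈ X → w1m l ∈ X → k = l) ∧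
  (∀ k l, w2m k ∈ X → w2m l ∈ X → k = l) ∧ ∀ k, w2m k ∈ X → w1m (k + 2) ∈ X → False

/-! ### Rigidity -/

/-- Members of `A` acting trivially on `J` are inner. -/
def KJStmt : Prop := ∀ (N : Subgroup G) (A : Subgroup (MulAut N)), N.Normal → J ≤ N → LA 3 N A →
  ∀ α ∈ A, (∀ g ∈ J, ext α g = g) → ∃ j ∈ J, Cj α j

/-- An automorphism of `N` that is trivial on `J` and commutes with `τ2`, `τ3` up to `J` is inner. -/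
def RH (N : Subgroup G) : Prop := ∀ δ : MulAut N, (∀ g ∈ J, ext δ g = g) →
  (∀ e, e = τ2 ∨ e = τ3 → ∃ j ∈ J, ∀ g ∈ N, ext δ (tor e g) = j * tor e (ext δ g) * j⁻¹) →
  ∃ j ∈ J, Cj δ j

def RH4Stmt : Prop := ∀ δ : MulAut E4, (∀ g ∈ J, ext δ g = g) → ∃ j ∈ J, Cj δ j

/-- Comparison of the automizers of `N`. -/
def LeN (N : Subgroup G) (w : K → GL6) : Prop :=
  ∀ (X : Subgroup GL6) (C C' : Subgroup (MulAut G)) (A A' : Subgroup (MulAut N)) (k : K), LX X →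
    (∀ e, tm e ∈ X → tor e ∈ C) → LB 3 C N A → LB 3 C' N A' → C ≤ C' → tor τ2 ∈ C → tor τ3 ∈ C →
    (∀ α ∈ A, ∀ m, Ac (ext α) m → m ∈ X) → (∃ n ∈ A, Ac (ext n) (w k)) → (∃ n ∈ A', Ac (ext n) (w k)) →
    A ≤ A'

/-! ### The realizing groups -/

/-- A frame for `G` in a group `X`. -/
structure Fr (d : K) {X : Type} [Group X] (ι : G →* X) : Prop where
  inj : Function.Injective ι
  idx : ¬ 3 ∣ ι.range.index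
  t2 : ∃ g, ∀ v, g * ι v * g⁻¹ = ι (tor τ2 v)
  t3 : ∃ g, ∀ v, g * ι v * g⁻¹ = ι (tor τ3 v)
  g1 : ∃ g, ∀ v, g * ι (jv v) * g⁻¹ = ι (jv ((w1m d).1 *ᵥ v))
  g2 : ∃ g, ∀ v, g * ι (jv v) * g⁻¹ = ι (jv ((w2m 0).1 *ᵥ v))
  g3 : ∃ g, ∀ v ∈ E3, g * ι v * g⁻¹ = ι (w3 v)

/-- `Sp₆(3)` -/
def MAStmt : Prop := ∃ (X : Type) (_ : Group X) (_ : Finite X) (ι : G →* X), Fr 0 ι ∧
  ∀ g, g * ι (xz 1) * g⁻¹ ≠ ι (xz (-1))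

/-- `GSp₆(3)` -/
def MBStmt : Prop := ∃ (X : Type) (_ : Group X) (_ : Finite X) (ι : G →* X), Fr 0 ι ∧
  ∃ g, ∀ v, g * ι v * g⁻¹ = ι (tor σ v)

/-- Elements of a group satisfying the defining relations of `G`. -/
structure Rl {X : Type} [Group X] (a b c : X) (j : Fin 6 → X) : Prop where
  a3 : a ^ 3 = 1
  b3 : b ^ 3 = 1
  c3 : c ^ 3 = 1
  ab : a * b = b * a * c
  ac : a * c = c * a
  bc : b * c = c * b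
  j3 : ∀ i, j i ^ 3 = 1
  jj : ∀ i k, j i * j k = j k * j i
  aj : a * j 0 = j 0 * a ∧ a * j 1 = j 1 * j 0 ^ 2 * a ∧ a * j 2 = j 2 * a ∧
    a * j 3 = j 3 * j 1 * j 0 * a ∧ a * j 4 = j 4 * j 2 * a ∧ a * j 5 = j 5 * a
  bj : b * j 0 = j 0 * b ∧ b * j 1 = j 1 * b ∧ b * j 2 = j 2 * j 1 * b ∧
    b * j 3 = j 3 * b ∧ b * j 4 = j 4 * j 3 ^ 2 * b ∧ b * j 5 = j 5 * j 4 * j 3 * b
  cj : c * j 0 = j 0 * c ∧ c * j 1 = j 1 * c ∧ c * j 2 = j 2 * j 0 ^ 2 * c ∧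
    c * j 3 = j 3 * c ∧ c * j 4 = j 4 * j 1 * c ∧ c * j 5 = j 5 * j 2 * j 0 * c

/-- The presentation of `G`. -/
def PcStmt : Prop := ∀ (X : Type) [Group X] (a b c : X) (j : Fin 6 → X), Rl a b c j →
  ∃ ι : G →* X, ι (xa 1) = a ∧ ι (xb 1) = b ∧ ι (xc 1) = c ∧ ι (xz 1) = j 0 ∧ ι (xy 1) = j 1 ∧
    ι (xx 1) = j 2 ∧ ι (xw 1) = j 3 ∧ ι (xv 1) = j 4 ∧ ι (xt 1) = j 5

/-- Generators. -/
structure Gen : Prop where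
  top : ∀ H : Subgroup G, xa 1 ∈ H → xb 1 ∈ H → xt 1 ∈ H → ∀ g, g ∈ H
  e3 : ∀ H : Subgroup G, xa 1 ∈ H → xb 1 ∈ H → xv 1 ∈ H → E3 ≤ H
  j : ∀ H : Subgroup G, xz 1 ∈ H → xy 1 ∈ H → xx 1 ∈ H → xw 1 ∈ H → xv 1 ∈ H → xt 1 ∈ H → J ≤ H
  z : ∀ H : Subgroup G, H.Normal → H ≠ ⊥ → xz 1 ∈ H

/-- `Co₁` -/
def MCStmt : Prop := ∃ ι : G →* Spor.Co1, Fr 1 ι ∧ ∃ g, ∀ v, g * ι v * g⁻¹ = ι (tor σ v)

end Cfsg.Agent.H99.C1
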