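import Cfsg.Agent.H99.C1Defs

/-! The normalizer of the centre of `U`, and Bruhat decompositions. -/

set_option autoImplicit false

namespace Cfsg.Agent.H99.C1

open Subgroup Matrix

abbrev M6 : Type := Matrix (Fin 6) (Fin 6) K

/-- the entries below the `d`-th diagonal vanish -/
def Lv (d : ℕ) (N : M6) : Prop := ∀ i j : Fin 6, j.1 < i.1 + d → N i j = 0

theorem Lv.mul {d e : ℕ} {N N' : M6} (h : Lv d N) (k : Lv e N') : Lv (d + e) (N * N') := fun i j l => by
  rw [Matrix.mul_apply]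
  refine Finset.sum_eq_zero fun m _ => ?_
  by_cases c : m.1 < i.1 + d
  · rw [h i m c, zero_mul]
  · rw [k m j (by omega), mul_zero]

theorem Lv.add {d : ℕ} {N N' : M6} (h : Lv d N) (k : Lv d N') : Lv d (N + N') := fun i j l => by
  rw [Matrix.add_apply, h i j l, k i j l, add_zero]

theorem Lv.mono {d e : ℕ} {N : M6} (h : Lv d N) (k : e ≤ d) : Lv e N := fun i j l => h i j (by omega)

theorem Lv.pow9 {m : GL6} (h : Lv 1 (m.1 - 1)) : m ^ 9 = 1 := by
  have h2 := h.mul h
  have h6 : Lv 6 _ := (h2.mul h2).mul h2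
  have z : (m.1 - 1) ^ 9 = 0 := by
    have : (m.1 - 1) * (m.1 - 1) * ((m.1 - 1) * (m.1 - 1)) * ((m.1 - 1) * (m.1 - 1)) = 0 :=
      Matrix.ext fun i j => h6 i j (by omega)
    rw [show (m.1 - 1) ^ 9 = (m.1 - 1) * (m.1 - 1) * ((m.1 - 1) * (m.1 - 1)) * ((m.1 - 1) * (m.1 - 1)) *
      (m.1 - 1) ^ 3 by simp only [pow_succ, pow_zero, one_mul, mul_assoc], this, zero_mul]
  haveI : Fact (Nat.Prime 3) := ⟨Nat.prime_three⟩
  have := sub_pow_char_pow_of_commute 3 2 (Commute.one_right m.1)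
  rw [one_pow, show 3 ^ 2 = 9 from rfl, z] at this
  exact Units.ext (by rw [Units.val_pow_eq_pow_val]; exact (sub_eq_zero.1 this.symm))

/-- the unitriangular matrices -/
def UT : Subgroup GL6 :=
  let S : Submonoid GL6 :=
    { carrier := {m | Lv 1 (m.1 - 1)}
      one_mem' := fun i j _ => by simp
      mul_mem' := fun {m n} h k => by
        have := (h.add k).add ((h.mul k).mono (by omega))
        change Lv 1 (m.1 * n.1 - 1)
        convert this using 1
        noncomm_ring }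
  { S with
    inv_mem' := fun {m} h => by
      rw [show m⁻¹ = m ^ 8 from inv_eq_of_mul_eq_one_right (by rw [← pow_succ', Lv.pow9 h])]
      exact S.pow_mem h 8 }

theorem mem_UT {m : GL6} : m ∈ UT ↔ Lv 1 (m.1 - 1) := Iff.rfl

theorem ug_UT (g : G) : ug g ∈ UT := by
  intro i j l
  change (uM g.a g.b g.c - 1) i j = 0
  fin_cases i <;> fin_cases j <;> first | exact absurd l (by decide) | exact sub_self _

theorem lv_of {m : GL6} {ε : K} (hε : ε = 1 ∨ ε = -1) (h : m * um 0 0 1 * m⁻¹ = um 0 0 ε) : Lv 0 m.1 := by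
  rw [mul_inv_eq_iff_eq_mul] at h
  have h' : m.1 * uM 0 0 1 = uM 0 0 ε * m.1 := congrArg Units.val h
  generalize m.1 = n at h'
  have e := fun i j => congrFun (congrFun h' i) j
  have e00 := e 0 0; have e10 := e 1 0; have e20 := e 2 0; have e01 := e 0 1; have e11 := e 1 1
  have e21 := e 2 1; have e13 := e 1 3; have e23 := e 2 3; have e12 := e 1 2; have e22 := e 2 2
  have e32 := e 3 2; have e24 := e 2 4; have e34 := e 3 4; have e35 := e 3 5; have e45 := e 4 5
  simp only [uM, Matrix.mul_apply, Fin.sum_univ_six, of_apply, cons_val', cons_val_zero, cons_val_one,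
    cons_val] at e00 e10 e20 e01 e11 e21 e13 e23 e12 e22 e32 e24 e34 e35 e45
  have q : ε * ε = 1 := by rcases hε with rfl | rfl <;> rfl
  have n50 : n 5 0 = 0 := by linear_combination -ε * e20 - n 5 0 * q
  have n40 : n 4 0 = 0 := by linear_combination -ε * e10 - n 4 0 * q
  have n20 : n 2 0 = 0 := by
    linear_combination ε * e00 + (ε + ε * (ε * ε - 1)) * n50 + (ε * ε) * n 2 0 * three - n 2 0 * q
  have n51 : n 5 1 = 0 := by linear_combination -ε * e21 - n 5 1 * q
  have n41 : n 4 1 = 0 := by linear_combination -ε * e11 - n 4 1 * q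
  have n21 : n 2 1 = 0 := by
    linear_combination ε * e01 + (ε + ε * (ε * ε - 1)) * n51 + (ε * ε) * n 2 1 * three - n 2 1 * q
  have n53 : n 5 3 = 0 := by linear_combination -ε * e23 - n 5 3 * q
  have n43 : n 4 3 = 0 := by linear_combination -ε * e13 - n 4 3 * q
  have n30 : n 3 0 = 0 := by linear_combination -e32 + n 3 0 * three
  have n31 : n 3 1 = 0 := by linear_combination e34
  have n52 : n 5 2 = 0 := by linear_combination -ε * e22 + 2 * ε * n20 - n 5 2 * q
  have n54 : n 5 4 = 0 := by linear_combination -ε * e24 + ε * n21 - n 5 4 * q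
  have n32 : n 3 2 = 0 := by linear_combination e35 - n30
  have n42 : n 4 2 = 0 := by linear_combination e45 - n40
  have n10 : n 1 0 = 0 := by linear_combination -e12 - ε * n42 + n 1 0 * three
  intro i j l
  fin_cases i <;> fin_cases j <;> first | assumption | exact absurd l (by decide)

theorem fl0 {X : Subgroup GL6} (hX : LX X) {m : GL6} (hm : m ∈ X) {ε : K}
    (h : m * um 0 0 1 * m⁻¹ = um 0 0 ε) : Bor X m := by
  have hε : ε = 1 ∨ ε = -1 := by
    have : ∀ ε : K, ε = 0 ∨ ε = 1 ∨ ε = -1 := by decide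
    refine (this ε).resolve_left fun e => ?_
    rw [e, show um 0 0 0 = 1 from Units.ext uM_zero, mul_inv_eq_one, mul_eq_left] at h
    exact absurd (congrArg Units.val h) (by decide)
  have h' : m⁻¹ * um 0 0 1 * m⁻¹⁻¹ = um 0 0 ε := by
    rcases hε with rfl | rfl
    · conv_lhs => rw [← h]
      group
    · have e : um 0 0 (-1) = (um 0 0 1)⁻¹ := Units.ext (by decide)
      rw [e] at h ⊢
      conv_lhs => rw [← inv_inv (um 0 0 1), ← h]
      group
  have p : IsPGroup 3 (X ⊓ UT : Subgroup GL6) := fun g => ⟨2, Subtype.ext (Lv.pow9 g.2.2)⟩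
  obtain ⟨γ, -, k⟩ := hX.syl _ inf_le_left p
  have e : ug.range = X ⊓ UT := eq_of_le_of_card_ge (by rintro _ ⟨g, rfl⟩; exact ⟨hX.u g, ug_UT g⟩) (by
    rw [← card_map_of_injective (f := (MulAut.conj γ).toMonoidHom) (MulAut.conj γ).injective]
    refine card_le_of_le ?_
    rintro _ ⟨n, hn, rfl⟩
    exact (k n hn).imp fun g e => e.symm)
  refine hX.nor m hm fun g => (e.ge ⟨X.mul_mem (X.mul_mem hm (hX.u g)) (X.inv_mem hm), ?_⟩).imp fun _ e => e.symm
  have := ((lv_of hε h).mul (ug_UT g)).mul (lv_of hε h')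
  change Lv 1 (m.1 * (ug g).1 * m⁻¹.1 - 1)
  convert this using 1
  rw [mul_sub, sub_mul, mul_one, Units.mul_inv]

theorem fl : FLStmt := fun X hX m hm h => by
  obtain ⟨g, ⟨e1, e2⟩, e⟩ := h (xc 1) ⟨rfl, rfl⟩
  rw [ug_apply g, mem_E1.1 e1, mem_E2.1 e2] at e
  exact fl0 hX hm e

theorem br1 : Br1Stmt := fun X hX k hk m hm h => by
  obtain ⟨g, e1, e⟩ := h (xc 1) rfl
  rw [ug_apply g, mem_E1.1 e1] at e
  by_cases c : g.b = 0
  · exact Or.inl (fl0 hX hm (c ▸ e))
  have : ∀ k b c : K, b ≠ 0 → (w1m k * um (-c * b) 0 0 * um 0 b c).1 =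
    (um 0 0 b * (w1m k * um (-c * b) 0 0)).1 := by decide
  refine Or.inr ⟨xa (-g.c * g.b), fl0 hX (mul_mem (mul_mem hk (hX.u _)) hm) (ε := g.b) ?_⟩
  have e2 := mul_inv_eq_iff_eq_mul.2 (Units.ext (this k g.b g.c c))
  rw [← e2, ← e]
  change _ * um _ 0 0 * _ * _ * (_ * um _ 0 0 * _)⁻¹ = _ * (_ * um 0 0 1 * _) * _
  simp only [xa]
  group

theorem br2 : Br2Stmt := fun X hX k hk m hm h => by
  obtain ⟨g, e1, e⟩ := h (xc 1) rfl
  rw [ug_apply g, mem_E2.1 e1] at e
  by_cases c : g.a = 0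
  · exact Or.inl (fl0 hX hm (c ▸ e))
  have : ∀ k a c : K, a ≠ 0 → (w2m k * um 0 (c * a) 0 * um a 0 c).1 =
    (um 0 0 (-a) * (w2m k * um 0 (c * a) 0)).1 := by decide
  refine Or.inr ⟨xb (g.c * g.a), fl0 hX (mul_mem (mul_mem hk (hX.u _)) hm) (ε := -g.a) ?_⟩
  have e2 := mul_inv_eq_iff_eq_mul.2 (Units.ext (this k g.a g.c c))
  rw [← e2, ← e]
  change _ * um 0 _ 0 * _ * _ * (_ * um 0 _ 0 * _)⁻¹ = _ * (_ * um 0 0 1 * _) * _
  simp only [xb]
  group

end Cfsg.Agent.H99.C1
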