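import Cfsg.Agent.H99.C1Defs

/-! The choice of an automorphism outside the strongly embedded subgroup with a maximal intersection. -/

set_option autoImplicit false

namespace Cfsg.Agent.H99.C1

open Cfsg.Agent.H97 Cfsg.Agent.H96.VB Cfsg.Agent.H96.CP Subgroup
open scoped commutatorElement Pointwise

variable {P L : Subgroup G} {A B : Subgroup (MulAut P)}

theorem mem_im (α : MulAut P) (hL : L ≤ P) {g : G} : g ∈ img L (ext α) ↔ ext α⁻¹ g ∈ L := by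
  rw [((homOn_ext α).mono hL).mem_img]
  exact ⟨fun ⟨x, hx, e⟩ => by rwa [← e, ext_inv_ext], fun h => ⟨_, h, ext_ext_inv α g⟩⟩

theorem card_im (α : MulAut P) (hL : L ≤ P) : Nat.card (img L (ext α)) = Nat.card L :=
  ((homOn_ext α).mono hL).card_img (ext_injective α).injOn

theorem im_le (α : MulAut P) (hL : L ≤ P) : img L (ext α) ≤ P :=
  img_le_iff.2 fun _ hx => ext_mem α (hL hx)

theorem mx (h : Cp 3 P A B) (hL : L ≤ P) (Γ : MulAut P → Prop)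
    (hΓ : ∀ γ β s, Γ γ → Cj β s → Γ (γ⁻¹ * β * γ)) {α₀ : MulAut P} (h1 : α₀ ∈ A) (h2 : α₀ ∉ B)
    (h3 : Γ α₀) : ∃ α ∈ A, α ∉ B ∧ Γ α ∧ ∀ s ∈ normalizer (P : Set G), s ∉ P →
      Nat.card (img L (ext α) ⊓ cjs s (img L (ext α)) : Subgroup G) ≤
        Nat.card (img L (ext α) ⊓ L : Subgroup G) := by
  haveI : Finite (MulAut P) := Finite.of_injective _ DFunLike.coe_injective
  obtain ⟨α, ⟨k1, k2, k3⟩, hm⟩ := Set.exists_max_image {γ | γ ∈ A ∧ γ ∉ B ∧ Γ γ}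
    (fun γ => Nat.card (img L (ext γ) ⊓ L : Subgroup G)) (Set.toFinite _) ⟨α₀, h1, h2, h3⟩
  refine ⟨α, k1, k2, k3, fun s hs hs' => ?_⟩
  obtain ⟨β, hβ⟩ := exists_cj hs
  refine le_trans (le_of_eq ?_) (hm (α⁻¹ * β * α) ⟨mul_mem (mul_mem (inv_mem k1)
    (h.le (h.cj β s hβ))) k1, fun e => k2 (inv_mem_iff.1 (h.se α⁻¹ (inv_mem k1) β s hβ hs' (by
      rwa [inv_inv]))), hΓ α β s k3 hβ⟩)
  rw [← card_im α (L := img L (ext (α⁻¹ * β * α)) ⊓ L) (inf_le_right.trans hL)]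
  congr 2
  ext g
  rw [mem_im α (inf_le_right.trans hL), mem_inf, mem_inf, mem_cjs, mem_im _ hL, mem_im _ hL, mem_im _ hL,
    and_comm]
  refine and_congr_left fun hg => ?_
  have gp : g ∈ P := (ext_mem_iff α⁻¹).1 (hL hg)
  have := hβ.inv g gp
  rw [inv_inv] at this
  rw [← ext_mul, show (α⁻¹ * β * α)⁻¹ * α⁻¹ = α⁻¹ * β⁻¹ by group, ext_mul, this]

theorem sa_conj {α β : MulAut P} {X : Subgroup G} {l : List (Subgroup G)} (h : Sa β X l) (hX : X ≤ P)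
    (hl : ∀ Y ∈ l, Y ≤ P) : Sa (α * β * α⁻¹) (img X (ext α)) (l.map fun Y => img Y (ext α)) := by
  induction l generalizing X with
  | nil =>
    intro x hx
    rw [ext_mul, ext_mul, h _ ((mem_im α hX).1 hx), ext_ext_inv]
  | cons Y l ih =>
    have hY := hl Y (by simp)
    refine ⟨fun x hx => ?_, ih h.2 hY fun Z hZ => hl Z (by simp [hZ])⟩
    have x1 := (mem_im α hX).1 hx
    have xp := im_le α hX hx
    rw [mem_im α hY, ext_map_mul α⁻¹ (inv_mem xp) (ext_mem _ xp), ext_map_inv α⁻¹ xp, ext_mul, ext_mul,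
      ext_inv_ext]
    exact h.1 _ x1

theorem exists_nj (hP : ¬ J ≤ P) : ∃ j ∈ J, j ∈ normalizer (P : Set G) ∧ j ∉ P := by
  haveI : Fact (Nat.Prime 3) := ⟨Nat.prime_three⟩
  haveI := G.isPGroup.isNilpotent
  have hlt : P.subgroupOf (P ⊔ J) < ⊤ := lt_top_iff_ne_top.2 fun e =>
    hP (le_sup_right.trans (subgroupOf_eq_top.1 e))
  obtain ⟨⟨g, hg⟩, h1, h2⟩ := SetLike.exists_of_lt (Group.normalizerCondition_of_isNilpotent _ hlt)
  rw [← subgroupOf_normalizer_eq le_sup_left, mem_subgroupOf] at h1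
  rw [mem_subgroupOf] at h2
  have : g ∈ (P : Set G) * (J : Set G) := by rw [← mul_normal]; exact hg
  obtain ⟨x, hx, j, hj, rfl⟩ := this
  exact ⟨j, hj, (mul_mem_cancel_left (le_normalizer hx)).1 h1, fun e => h2 (mul_mem hx e)⟩

theorem ka : KAStmt := fun P A B h hP => by
  obtain ⟨α₀, h1, h2⟩ := SetLike.not_le_iff_exists.1 h.lt
  have hL : P ⊓ J ≤ P := inf_le_left
  obtain ⟨α, k1, k2, -, k4⟩ := mx h hL (fun _ => True) (fun _ _ _ _ _ => trivial) h1 h2 trivial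
  have m := fun {g} => mem_im α hL (g := g)
  have le := im_le α hL
  refine ⟨img (P ⊓ J) (ext α), hP, h.cen, le, fun g hg x hx => ?_, fun x hx y hy => ?_, fun x hx => ?_,
    card_im α hL, fun e => ?_, fun s hs hs' => ?_⟩
  · rw [m, ext_map_mul _ (mul_mem hg (le hx)) (inv_mem hg), ext_map_mul _ hg (le hx), ext_map_inv _ hg]
    have := m.1 hx
    exact ⟨P.mul_mem (P.mul_mem (ext_mem _ hg) this.1) (P.inv_mem (ext_mem _ hg)),
      nJ.conj_mem _ this.2 _⟩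
  · refine ext_injective α⁻¹ ?_
    rw [ext_map_mul _ (le hx) (le hy), ext_map_mul _ (le hy) (le hx), J_comm (m.1 hx).2 (m.1 hy).2]
  · refine ext_injective α⁻¹ ?_
    rw [pow_succ, pow_two, ext_map_mul _ (mul_mem (le hx) (le hx)) (le hx), ext_map_mul _ (le hx) (le hx),
      ext_map_one]
    obtain ⟨e1, e2, e3⟩ := (m.1 hx).2
    generalize ext α⁻¹ x = y at e1 e2 e3
    ext <;> simp [e1, e2, e3] <;> ring_nf <;> simp [three]
  · have eq : img (P ⊓ J) (ext α) = P ⊓ J := eq_of_le_of_card_ge (le_inf le e) (card_im α hL).ge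
    obtain ⟨j, hj, h3, h4⟩ := exists_nj hP
    obtain ⟨β, hβ⟩ := exists_cj h3
    have sa : Sa β P [P ⊓ J] := ⟨fun x hx => ⟨P.mul_mem (P.inv_mem hx) (ext_mem β hx), by
        rw [hβ x hx]
        have := mul_mem (nJ.conj_mem j hj x⁻¹) (inv_mem hj)
        simpa [mul_assoc] using this⟩,
      fun x hx => by rw [hβ x hx.1, J_comm hj hx.2, mul_inv_cancel_right]⟩
    have sb := sa_conj (α := α) sa le_rfl (by simp)
    rw [img_ext, List.map_singleton, eq] at sb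
    exact k2 (h.pair [P ⊓ J] (by simp) α k1 β β j j hβ h4 hβ h4 sa sb)
  · refine (k4 s hs hs').trans (card_le_of_le fun x hx => ⟨hx.1, hx.2.2⟩)

theorem card_coord {N : Subgroup G} {T : Type} (f : T → G) (g : G → T) (h1 : ∀ t, f t ∈ N)
    (h2 : ∀ t, g (f t) = t) (h3 : ∀ x ∈ N, f (g x) = x) : Nat.card N = Nat.card T :=
  Nat.card_congr ⟨fun x => g x, fun t => ⟨f t, h1 t⟩, fun x => Subtype.ext (h3 x x.2), h2⟩

theorem card_J5 : Nat.card J5 = 243 := by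
  rw [card_coord (N := J5) (fun t : K × K × K × K × K => ⟨0, 0, 0, t.1, t.2.1, t.2.2.1, t.2.2.2.1, t.2.2.2.2, 0⟩)
    (fun g => (g.z, g.y, g.x, g.w, g.v)) (fun _ => ⟨⟨rfl, rfl, rfl⟩, rfl⟩) (fun _ => rfl)
    fun x ⟨⟨e1, e2, e3⟩, e4⟩ => by ext <;> first | rfl | exact Eq.symm ‹_›]
  simp [Nat.card_prod, K]

theorem card_Dz : Nat.card Dz = 27 := by
  rw [card_coord (N := Dz) (fun t : K × K × K => ⟨0, 0, 0, t.1, t.2.1, 0, t.2.2, 0, 0⟩)
    (fun g => (g.z, g.y, g.w)) (fun _ => ⟨rfl, rfl, rfl, rfl, rfl, rfl⟩) (fun _ => rfl)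
    fun x ⟨e1, e2, e3, e4, e5, e6⟩ => by ext <;> first | rfl | exact Eq.symm ‹_›]
  simp [Nat.card_prod, K]

theorem card_Q0 : Nat.card Q0 = 27 := by
  rw [card_coord (N := Q0) (fun t : K × K × K => ⟨0, 0, 0, t.1, t.2.1, t.2.2, 0, 0, 0⟩)
    (fun g => (g.z, g.y, g.x)) (fun _ => ⟨rfl, rfl, rfl, rfl, rfl, rfl⟩) (fun _ => rfl)
    fun x ⟨e1, e2, e3, e4, e5, e6⟩ => by ext <;> first | rfl | exact Eq.symm ‹_›]
  simp [Nat.card_prod, K]

theorem card_J : Nat.card J = 729 := by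
  rw [card_coord (N := J) jv vj jv_mem vj_jv fun x hx => jv_vj hx]
  simp [V, K]

theorem card_E1 : Nat.card E1 = 6561 := by
  rw [card_coord (N := E1) (fun t : K × K × V => ⟨0, t.1, t.2.1, t.2.2 0, t.2.2 1, t.2.2 2, t.2.2 3, t.2.2 4,
    t.2.2 5⟩) (fun g => (g.b, g.c, vj g)) (fun _ => rfl)
    (fun t => by ext i <;> first | rfl | (fin_cases i <;> rfl))
    fun x (e : _ = _) => by ext <;> first | rfl | exact Eq.symm ‹_›]
  simp [Nat.card_prod, V, K]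

theorem r5 (le : LEStmt) : R5Stmt := fun A B h α₀ h1 h3 => by
  by_contra h2
  have hD : Dz ≤ J := fun _ h => ⟨h.1, h.2.1, h.2.2.1⟩
  have h5 : J5 ≤ J := inf_le_left
  have n5 : J5.Normal := inferInstanceAs (J ⊓ E3).Normal
  have e5 : ∀ α : MulAut J, (∀ g ∈ J5, ext α g ∈ J5) → img J5 (ext α) = J5 := fun α k =>
    eq_of_le_of_card_ge (img_le_iff.2 k) (card_im α h5).ge
  obtain ⟨α, k1, k2, k3, k4⟩ := mx h hD (fun γ => ∀ g ∈ J5, ext γ g ∈ J5) (fun γ β s a b g hg => by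
    rw [ext_mul, ext_mul, ← mem_im γ h5, e5 γ a, b _ (h5 (a g hg))]
    exact n5.conj_mem _ (a g hg) s) h1 h2 h3
  have c1 : ∀ w ∈ E1, ∀ x ∈ J5, ⁅w, x⁆ ∈ Dz := fun w (e : _ = _) x ⟨⟨e1, e2, e3⟩, (e4 : _ = _)⟩ => by
    simp [mem_Dz, cm, *]
    constructor <;> ring
  have c2 : ∀ w ∈ E1, ∀ x ∈ Dz, ⁅w, x⁆ = 1 := fun w (e : _ = _) x ⟨e1, e2, e3, e4, e5, e6⟩ => by
    ext <;> simp [cm, *] <;> ring
  have nm : ∀ s, s ∈ normalizer (J : Set G) := fun s => (normalizer_eq_top J).ge trivial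
  have nb : xb 1 ∉ J := fun e => absurd e.2.1 (by decide)
  refine le J5 Dz (img Dz (ext α)) E1 J (xa 1) (fun x hx y hy => J_comm hx.1 hy.1) card_J5
    (fun x hx => ⟨hD hx, hx.2.2.2.2.2⟩) card_Dz
    (img_le_iff.2 fun x hx => k3 x ⟨hD hx, hx.2.2.2.2.2⟩) ((card_im α hD).trans card_Dz) (fun e => ?_)
    J_le_E1 (by rw [card_E1, card_J]) c1 c2
    (fun w hw x hx => commutatorElement_eq_one_iff_mul_comm.2 (J_comm hw hx.1)) ?_ ?_
    (fun w _ hw => k4 w (nm w) hw) fun w hw => k4 _ (nm _) fun e => ?_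
  · obtain ⟨β, hβ⟩ := exists_cj (nm (xb 1))
    have sa : Sa β J [J5, Dz] := ⟨fun x hx => by
        rw [hβ x hx]
        obtain ⟨e1, e2, e3⟩ := hx
        simp [mem_J5, xb, *], fun x hx => by
        rw [hβ x hx.1]
        obtain ⟨⟨e1, e2, e3⟩, (e4 : _ = _)⟩ := hx
        simp [mem_Dz, xb, *], fun x hx => by
        rw [hβ x (hD hx), (commutatorElement_eq_one_iff_mul_comm.1 (c2 (xb 1) rfl x hx)),
          mul_inv_cancel_right]⟩
    have sb := sa_conj (α := α) sa le_rfl (by simp [h5, hD])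
    simp only [img_ext, List.map_cons, List.map_nil, e, e5 α k3] at sb
    exact k2 (h.pair [J5, Dz] (by
      simpa [h5] using show Dz ≤ J5 from fun x hx => ⟨hD hx, hx.2.2.2.2.2⟩) α k1 β β _ _
      hβ nb hβ nb sa sb)
  · ext g
    rw [mem_cjs]
    exact ⟨fun e => by simpa [mul_assoc] using n5.conj_mem _ e (xa 1), fun e => by
      simpa using n5.conj_mem _ e (xa 1)⁻¹⟩
  · ext g
    rw [mem_cjs]
    simp only [mem_Dz, xa, G.mul_a, G.mul_b, G.mul_c, G.mul_x, G.mul_v, G.mul_t, G.inv_a, G.inv_b, G.inv_c,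
      G.inv_x, G.inv_v, G.inv_t]
    generalize g.a = a, g.b = b, g.c = c, g.x = x, g.v = v, g.t = t
    revert a b c x v t
    decide
  · have := e.1
    rw [G.mul_a, mem_E1.1 hw] at this
    exact absurd this (by decide)

theorem Z_central {i : G} (hi : i ∈ Z) (s : G) : s * i * s⁻¹ = i := by
  obtain ⟨e1, e2, e3, e4, e5, e6, e7, e8⟩ := hi
  rw [mul_inv_eq_iff_eq_mul]
  ext <;> simp [*, add_comm]

theorem rzc {Q : Subgroup G} (h1 : Z ≤ Q) (h2 : Q ≤ J) (h3 : Nat.card Q = 27) (h4 : Q ≠ Q0)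
    (h5 : ∀ s, s ∉ J → Nat.card (Q ⊓ cjs s Q : Subgroup G) ≤ Nat.card (Q ⊓ Q0 : Subgroup G)) : False := by
  have k0 : ∀ s, s ∉ J → Q ⊓ Q0 ≤ cjs s Q → ∀ d ∈ Q, d ∉ Q0 → s⁻¹ * d * s ∉ Q := fun s hs e d hd hd' k =>
    hd' ((eq_of_le_of_card_ge (le_inf inf_le_left e) (h5 s hs)).ge ⟨hd, mem_cjs.2 k⟩).2
  have k1 : ∀ a c : K, ¬ (a = 0 ∧ c = 0) → ∀ d ∈ Q, d ∉ Q0 → ∀ i ∈ Q, i ∈ Q0 →
      a * d.w + c * d.v = i.y → a * d.v + c * d.t = i.x → False := fun a c hac d hd hd' i hi hi' e1 e2 => by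
    refine k0 (⟨a, 0, c, 0, 0, 0, 0, 0, 0⟩ : G)⁻¹ (fun e => hac (by simpa [mem_J] using e))
      (fun x hx => mem_cjs.2 ?_) d hd hd' ?_
    · refine (Q.mul_mem_cancel_right (Q.inv_mem hx.1)).1 (h1 ?_)
      obtain ⟨-, e1, e2, e3, e4, e5, e6⟩ := hx
      simp [mem_Z, *]
    · refine (mul_mem_cancel_right (inv_mem (mul_mem hd hi))).1 (h1 ?_)
      obtain ⟨d1, d2, d3⟩ := h2 hd
      obtain ⟨i1, i2, i3, i4, i5, i6⟩ := hi'
      simp only [mem_Z, inv_inv, G.mul_a, G.mul_b, G.mul_c, G.mul_y, G.mul_x, G.mul_w, G.mul_v, G.mul_t,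
        G.inv_a, G.inv_b, G.inv_c, G.inv_y, G.inv_x, G.inv_w, G.inv_v, G.inv_t, d1, d2, d3, i1, i2, i3, i4,
        i5, i6]
      exact ⟨by ring, by ring, by ring, by linear_combination e1, by linear_combination e2, by ring,
        by ring, by ring⟩
  have q0 : ∀ {d : G}, d ∈ Q → d ∉ Q0 → ¬ (d.w = 0 ∧ d.v = 0 ∧ d.t = 0) := fun hd hd' e =>
    hd' ⟨(h2 hd).1, (h2 hd).2.1, (h2 hd).2.2, e⟩
  by_cases hI : Q ⊓ Q0 ≤ Z
  swap
  · obtain ⟨i, ⟨hi, hi'⟩, hz⟩ := SetLike.not_le_iff_exists.1 hI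
    obtain ⟨d, hd, hd'⟩ := SetLike.not_le_iff_exists.1 fun e : Q ≤ Q0 =>
      h4 (eq_of_le_of_card_ge e (by rw [h3, card_Q0]))
    have n : ¬ (i.y = 0 ∧ i.x = 0) := fun e =>
      hz ⟨hi'.1, hi'.2.1, hi'.2.2.1, e.1, e.2, hi'.2.2.2⟩
    have : ∀ w v t y x : K, ¬ (y = 0 ∧ x = 0) → ∃ a c : K, ¬ (a = 0 ∧ c = 0) ∧
      ((a * w + c * v = 0 ∧ a * v + c * t = 0) ∨ (a * w + c * v = y ∧ a * v + c * t = x)) := by decide
    obtain ⟨a, c, hac, ⟨e1, e2⟩ | ⟨e1, e2⟩⟩ := this d.w d.v d.t _ _ n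
    exacts [k1 a c hac d hd hd' 1 (one_mem _) (one_mem _) e1 e2, k1 a c hac d hd hd' i hi hi' e1 e2]
  obtain ⟨⟨p, q⟩, ⟨p', q'⟩, e, hne⟩ := Function.not_injective_iff.1 fun k : Function.Injective
    (fun x : Q × Q => ((x.1 : G).w - (x.2.1.w + 2 * x.2.1.v + x.2.1.t), x.1.1.v - (x.2.1.v + x.2.1.t),
      x.1.1.t - x.2.1.t, x.1.1.z, x.2.1.z)) => absurd (Nat.card_le_card_of_injective _ k) (by
        simp [Nat.card_prod, K, h3])
  simp only [Prod.mk.injEq] at e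
  obtain ⟨e1, e2, e3, e4, e5⟩ := e
  have hp := mul_mem p.2 (inv_mem p'.2)
  have hq := mul_mem q.2 (inv_mem q'.2)
  have ne : ¬ ((p : G) * (p' : G)⁻¹ = 1 ∧ (q : G) * (q' : G)⁻¹ = 1) := fun k => hne (by
    rw [mul_inv_eq_one, mul_inv_eq_one] at k
    rw [Subtype.ext k.1, Subtype.ext k.2])
  have f : ((p : G) * (p' : G)⁻¹).z = 0 ∧ ((q : G) * (q' : G)⁻¹).z = 0 ∧
      ((p : G) * (p' : G)⁻¹).w = ((q : G) * (q' : G)⁻¹).w + 2 * ((q : G) * (q' : G)⁻¹).v +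
        ((q : G) * (q' : G)⁻¹).t ∧
      ((p : G) * (p' : G)⁻¹).v = ((q : G) * (q' : G)⁻¹).v + ((q : G) * (q' : G)⁻¹).t ∧
      ((p : G) * (p' : G)⁻¹).t = ((q : G) * (q' : G)⁻¹).t := by
    obtain ⟨a1, a2, a3⟩ := h2 p.2
    obtain ⟨b1, b2, b3⟩ := h2 p'.2
    obtain ⟨c1, c2, c3⟩ := h2 q.2
    obtain ⟨d1, d2, d3⟩ := h2 q'.2
    simp only [G.mul_z, G.mul_w, G.mul_v, G.mul_t, G.inv_z, G.inv_w, G.inv_v, G.inv_t, a1, a2, a3, b1, b2,
      b3, c1, c2, c3, d1, d2, d3]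
    exact ⟨by linear_combination e4, by linear_combination e5, by linear_combination e1,
      by linear_combination e2, by linear_combination e3⟩
  generalize (p : G) * (p' : G)⁻¹ = d' at hp ne f
  generalize (q : G) * (q' : G)⁻¹ = d at hq ne f
  obtain ⟨f1, f2, f3, f4, f5⟩ := f
  have z1 : ∀ {x : G}, x ∈ Q → x ∈ Q0 → x.z = 0 → x = 1 := fun hx hx' e => by
    obtain ⟨e1, e2, e3, e4, e5, e6, e7, e8⟩ := hI ⟨hx, hx'⟩
    ext <;> assumption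
  have n' : d' ∉ Q0 := fun k => by
    have k' : d ∈ Q0 := by_contra fun k' => q0 hq k' (by
      obtain ⟨-, -, -, g1, g2, g3⟩ := k
      exact ⟨by linear_combination g1 - f3 - 2 * (g2 - f4) + (g3 - f5),
        by linear_combination g2 - f4 - (g3 - f5), by linear_combination g3 - f5⟩)
    exact ne ⟨z1 hp k f1, z1 hq k' f2⟩
  have : ∀ w v t : K, (∃ a c : K, ¬ (a = 0 ∧ c = 0) ∧ a * w + c * v = 0 ∧ a * v + c * t = 0) ∨
    ∀ y x : K, ∃ a c : K, a * w + c * v = y ∧ a * v + c * t = x := by decide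
  rcases this d'.w d'.v d'.t with ⟨a, c, hac, g1, g2⟩ | k
  · exact k1 a c hac d' hp n' 1 (one_mem _) (one_mem _) g1 g2
  obtain ⟨a, c, g1, g2⟩ := k (d.y + d.x - d'.y) (d.x - d'.x)
  refine k0 ((⟨a, 0, c, 0, 0, 0, 0, 0, 0⟩ : G)⁻¹ * xb 1) (fun e => absurd e.2.1 (by simp [xb]))
    (fun x hx => mem_cjs.2 ?_) d' hp n' ?_
  · have := Z_central (hI hx) ((⟨a, 0, c, 0, 0, 0, 0, 0, 0⟩ : G)⁻¹ * xb 1)⁻¹
    rw [inv_inv] at this
    exact this.symm ▸ hx.1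
  · refine (mul_mem_cancel_right (inv_mem hq)).1 (h1 ?_)
    obtain ⟨a1, a2, a3⟩ := h2 hp
    obtain ⟨b1, b2, b3⟩ := h2 hq
    simp only [mem_Z, xb, G.mul_a, G.mul_b, G.mul_c, G.mul_y, G.mul_x, G.mul_w, G.mul_v, G.mul_t, G.inv_a,
      G.inv_b, G.inv_c, G.inv_y, G.inv_x, G.inv_w, G.inv_v, G.inv_t, a1, a2, a3, b1, b2, b3]
    exact ⟨by ring, by ring, by ring, by linear_combination g1 - g2, by linear_combination g2,
      by linear_combination f3 - 2 * f4 + f5, by linear_combination f4 - f5, by linear_combination f5⟩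

theorem rz : RZStmt := fun A B h α₀ h1 h3 => by
  by_contra h2
  have hQ : Q0 ≤ J := fun _ h => ⟨h.1, h.2.1, h.2.2.1⟩
  have hZ : Z ≤ Q0 := fun _ h => ⟨h.1, h.2.1, h.2.2.1, h.2.2.2.2.2⟩
  have eZ : ∀ α : MulAut J, (∀ g ∈ Z, ext α g ∈ Z) → img Z (ext α) = Z := fun α k =>
    eq_of_le_of_card_ge (img_le_iff.2 k) (card_im α (hZ.trans hQ)).ge
  obtain ⟨α, k1, k2, k3, k4⟩ := mx h hQ (fun γ => ∀ g ∈ Z, ext γ g ∈ Z) (fun γ β s a b g hg => by
    rw [ext_mul, ext_mul, ← mem_im γ (hZ.trans hQ), eZ γ a, b _ (hQ (hZ (a g hg))), Z_central (a g hg)]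
    exact a g hg) h1 h2 h3
  have nm : ∀ s, s ∈ normalizer (J : Set G) := fun s => (normalizer_eq_top J).ge trivial
  have na : xa 1 ∉ J := fun e => absurd e.1 (by decide)
  refine rzc (Q := img Q0 (ext α)) (fun x hx => ?_) (im_le α hQ) ((card_im α hQ).trans card_Q0)
    (fun e => ?_) fun s hs => k4 s (nm s) hs
  · rw [← eZ α k3, mem_im α (hZ.trans hQ)] at hx
    exact (mem_im α hQ).2 (hZ hx)
  · obtain ⟨β, hβ⟩ := exists_cj (nm (xa 1))
    have sa : Sa β J [Q0, Z] := ⟨fun x hx => by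
        rw [hβ x hx]
        obtain ⟨e1, e2, e3⟩ := hx
        simp [mem_Q0, xa, *], fun x hx => by
        rw [hβ x (hQ hx)]
        obtain ⟨e1, e2, e3, e4, e5, e6⟩ := hx
        simp [mem_Z, xa, *], fun x hx => by rw [hβ x (hQ (hZ hx)), Z_central hx]⟩
    have sb := sa_conj (α := α) sa le_rfl (by simp [hQ, hZ.trans hQ])
    simp only [img_ext, List.map_cons, List.map_nil, e, eZ α k3] at sb
    exact k2 (h.pair [Q0, Z] (by simp [hQ, hZ]) α k1 β β _ _ hβ na hβ na sa sb)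

end Cfsg.Agent.H99.C1
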