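import Cfsg.Agent.H99.E72Defs
import Cfsg.Agent.S1064
import Cfsg.Agent.H52.FStar

/-!
# S5770: the assembly of the pieces
-/

set_option autoImplicit false

namespace Cfsg.Agent.H99.E72

open Cfsg Cfsg.Lie Module Subgroup

universe u

theorem card_G0 : Nat.card G0 = 7997476042075799759100487262680802918400 := by
  have := S1064.result (F := ZMod 2) (q := 2) (ZMod.card 2)
  norm_num at this
  exact this

instance finG0 : Finite G0 := Nat.finite_of_card_ne_zero (by rw [card_G0]; norm_num)

theorem P25.map {Γ Δ : Type*} [Monoid Γ] [Monoid Δ] (f : Γ →* Δ) (hf : Function.Injective f) {a b : Γ} :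
    P25 (f a) (f b) ↔ P25 a b := by
  constructor
  · rintro ⟨h1, h2, h3, h4⟩
    exact ⟨hf (by rw [map_pow, h1, map_one]), hf (by rw [map_pow, h2, map_one]),
      hf (by rw [map_mul, h3, map_mul]), fun i hi j hj e => h4 i hi j hj (by
        rw [← map_pow, ← map_pow, ← map_mul, e, map_one])⟩
  · rintro ⟨h1, h2, h3, h4⟩
    exact ⟨by rw [← map_pow, h1, map_one], by rw [← map_pow, h2, map_one],
      by rw [← map_mul, h3, map_mul], fun i hi j hj e => h4 i hi j hj (hf (by
        rw [map_mul, map_pow, map_pow, e, map_one]))⟩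

theorem Cfg5.map {Γ Δ : Type*} [Group Γ] [Group Δ] (f : Γ →* Δ) (hf : Function.Injective f)
    (h : Cfg5 Γ) : Cfg5 Δ := by
  obtain ⟨a, b, u, t, h0, h1, h2, h3, h4⟩ := h
  exact ⟨f a, f b, f u, f t, (P25.map f hf).2 h0, by rw [← h1]; simp, by simpa using congrArg f h2,
    by simpa using congrArg f h3, by simpa using congrArg f h4⟩

/-- a word in the root elements -/
noncomputable def gw (w : List ℕ) : G0 := (w.map gen).prod

theorem rho_gw {ρ : G0 →* EV} (h : ∀ k < 16, ρ (gen k) = 1 + En k) (w : List ℕ)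
    (hw : ∀ k ∈ w, k < 16) : ρ (gw w) = wd w := by
  induction w with
  | nil => simp [gw, wd]
  | cons k w ih =>
    have := ih fun k hk => hw k (by simp [hk])
    simp only [gw, wd, List.map_cons, List.prod_cons, map_mul] at this ⊢
    rw [this, h k (hw k (by simp))]

theorem no5 (rep : RepStmt) (p5a : P5aStmt) (aut : Aut5Stmt) : ¬ Cfg5 G0 := by
  obtain ⟨ρ, hi, h⟩ := rep
  have ex := rho_gw h wx (by decide)
  have ey := rho_gw h wy (by decide)
  have er := rho_gw h wr (by decide)
  refine aut G0 (by rw [card_G0]; norm_num) ⟨gw wx, gw wy, gw wr, (P25.map ρ hi).1 ?_, ?_, ?_⟩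
  · rw [ex, ey]; exact p5a.1
  · rw [mul_inv_eq_iff_eq_mul]
    exact hi (by rw [map_mul, map_mul, ex, er, p5a.2.1])
  · rw [mul_inv_eq_iff_eq_mul]
    exact hi (by rw [map_mul, map_mul, map_pow, ey, er, p5a.2.2])

theorem empty_of_cfg (h : ¬ Cfg5 G0) (H : Subgroup G0) {L : Type*} [Group L] (hL : Cfg5 L) :
    IsEmpty (generalizedFittingSubgroup H ≃* L) :=
  ⟨fun e => h (hL.map (H.subtype.comp ((generalizedFittingSubgroup H).subtype.comp e.symm.toMonoidHom))
    (H.subtype_injective.comp ((Subgroup.subtype_injective _).comp e.symm.injective)))⟩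

theorem empty_of_gen (rep : RepStmt) (irr : IrrStmt) (form : FormStmt) (p5a : P5aStmt) (p5b : P5bStmt)
    (five : FiveStmt) (scott : ScottStmt) (sub : SubStmt) (count : CountStmt) (out : OutStmt.{u})
    (H : Subgroup G0) (hH : IsCoatom H) {L : Type u} [Group L] (hz : center L = ⊥)
    (hc : Nat.card L ≤ 29120) (ho : Nat.card (Out L) ∣ 12) (hg : Gen552 L) :
    IsEmpty (generalizedFittingSubgroup H ≃* L) := by
  refine ⟨fun e => ?_⟩
  obtain ⟨ρ, hi, h⟩ := rep
  have ex := rho_gw h wx (by decide)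
  have ey := rho_gw h wy (by decide)
  have h5 := five G0 (by rw [card_G0]; norm_num) ρ (gw wx) (gw wy)
    ((P25.map ρ hi).1 (by rw [ex, ey]; exact p5a.1)) (by rw [ex]; exact p5b.1)
    (fun i hi => by rw [map_mul, map_pow, ex, ey]; exact p5b.2 i hi)
  have hf := form ρ fun k hk => h k (by omega)
  set S := generalizedFittingSubgroup H with hS
  let j : L →* G0 := H.subtype.comp (S.subtype.comp e.symm.toMonoidHom)
  obtain ⟨b, c, hb, hc5, hbc, htop⟩ := hg
  obtain ⟨v, hv, h1, h2⟩ := scott (ρ (j b)) (ρ (j c)) (hf _) (hf _)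
    (by rw [← map_mul, ← map_mul, ← map_pow, ← map_pow, hbc, map_one, map_one])
    (h5 _ (by rw [← map_pow, hb, map_one])) (h5 _ (by rw [← map_pow, hc5, map_one]))
  have hfix : ∀ l : L, ρ (j l) v = v := by
    intro l
    have hl : l ∈ closure ({b, c} : Set L) := htop ▸ mem_top l
    induction hl using closure_induction with
    | mem x hx => rcases hx with rfl | rfl <;> assumption
    | one => simp
    | mul x y _ _ hx hy => rw [map_mul, map_mul, Module.End.mul_apply, hy, hx]
    | inv x _ hx =>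
      conv_lhs => rw [← hx, ← Module.End.mul_apply, ← map_mul, ← map_mul, inv_mul_cancel]
      simp
  have hidx : S.index ∣ 12 := (out H L hz e).trans ho
  obtain ⟨v₁, v₂, h3, h4⟩ := sub H (ρ.comp H.subtype) S H52.fstar_normal hidx v hv fun s hs => by
    simpa [j] using hfix (e ⟨s, hs⟩)
  refine count G0 ρ (fun U hU => irr U fun k hk u hu => ?_) H hH ?_ v₁ v₂ h3 fun g hg => h4 ⟨g, hg⟩
  · have := U.sub_mem (hU (gen k) u hu) hu
    rwa [h k (by omega), LinearMap.add_apply, Module.End.one_apply, add_sub_cancel_left] at this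
  · have h6 : Nat.card H ≤ 29120 * 12 := by
      rw [← S.card_mul_index, Nat.card_congr e.toEquiv]
      exact Nat.mul_le_mul hc (Nat.le_of_dvd (by norm_num) hidx)
    rw [card_G0]
    omega

end Cfsg.Agent.H99.E72
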