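import Cfsg.Agent.H99.E72Tab

/-! Project E72: the check of the representation, part 2 -/

namespace Cfsg.Agent.H99.E72

open Cfsg Cfsg.Lie H29

theorem chk2 : chkR chevE7 HT ET 73 = true := by decide +kernel
theorem chk3 : chkR chevE7 HT ET 69 = true := by decide +kernel

end Cfsg.Agent.H99.E72
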