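import Cfsg.Agent.H99.E72Tab

/-! Project E72: the check of the representation, part 8 -/

namespace Cfsg.Agent.H99.E72

open Cfsg Cfsg.Lie H29

theorem chk14 : chkR chevE7 HT ET 125 = true := by decide +kernel
theorem chk15 : chkR chevE7 HT ET 0 = true := by decide +kernel

end Cfsg.Agent.H99.E72
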