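import Cfsg.Agent.H99.HNSet

/-! The subgroup `J` and the fusion of `z` in it. -/

set_option autoImplicit false

universe u

namespace Cfsg.Agent.H99.HN

open Cfsg Subgroup Equiv
open Cfsg.Agent.H91 (SL25 slX slY)
open Cfsg.Agent.H67.T3 (slF slF_X slF_sq sl_cent sl_three mem_zp3 comm_of_zp)
open scoped Pointwise

variable {G : Type u} [Group G]

theorem card_le_cosets [Finite G] {B K : Subgroup G} (t : Fin 3 → G)
    (H : ∀ c ∈ B, ∃ i, c * t i ∈ K) : Nat.card B ≤ 3 * Nat.card (B ⊓ K : Subgroup G) := by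
  classical
  choose i hi using fun c : B => H c c.2
  let c0 : Fin 3 → B := fun k => if e : ∃ c, i c = k then e.choose else 1
  have h0 : ∀ c, i (c0 (i c)) = i c := fun c => by
    have e : ∃ c', i c' = i c := ⟨c, rfl⟩
    simp only [c0, dif_pos e]; exact e.choose_spec
  let f : B → Fin 3 × (B ⊓ K : Subgroup G) := fun c => (i c, ⟨c * (c0 (i c) : G)⁻¹,
    B.mul_mem c.2 (B.inv_mem (c0 _).2), by
      have := mul_mem (hi c) (inv_mem (hi (c0 (i c))))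
      rw [h0] at this
      simpa [mul_assoc] using this⟩)
  have := Nat.card_le_card_of_injective f fun a b e => by
    have e1 : i a = i b := congrArg Prod.fst e
    have e2 : (a : G) * (c0 (i a) : G)⁻¹ = b * (c0 (i b) : G)⁻¹ :=
      congrArg (fun p : Fin 3 × (B ⊓ K : Subgroup G) => (p.2 : G)) e
    rw [e1] at e2
    exact Subtype.ext (mul_right_cancel e2)
  simpa using this

theorem cj_comm {g a b : G} (e : g * a * g⁻¹ * (g * b * g⁻¹) = g * b * g⁻¹ * (g * a * g⁻¹)) :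
    a * b = b * a := by
  calc _ = g⁻¹ * (g * a * g⁻¹ * (g * b * g⁻¹)) * g := by group
    _ = _ := by rw [e]; group

theorem cjZ {z r c : G} (hr : r * z = z * r) (k : r * c * r⁻¹ ∈ zpowers z) : c ∈ zpowers z := by
  have e := comm_of_zp hr k
  rw [inv_mul_cancel_right, mul_right_inj] at e
  exact e ▸ k

theorem sl_comm3 : ∀ a : SL25, a ^ 3 = 1 → ∀ b : SL25, b ^ 3 = 1 → (a * b) ^ 3 = 1 →
    (a * b⁻¹) ^ 3 = 1 → a * b * a⁻¹ * b⁻¹ = 1 := by decide +kernel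

theorem sl_cent3 : ∀ a : SL25, a ^ 3 = 1 → a * slX = slX * a →
    ∃ i : Fin 3, a * slX ^ i.val = 1 := by decide +kernel

/-- the subgroup `J` -/
def JJ (Q : Subgroup G) (ι : SL25 →* G) : Subgroup G := centralizer (AA Q ι : Set G)

theorem memA {Q : Subgroup G} {ι : SL25 →* G} {a : G} :
    a ∈ AA Q ι ↔ a ∈ Q ∧ a * ι slX = ι slX * a := by
  rw [AA, mem_inf, mem_centralizer_singleton_iff]

theorem memJ {Q : Subgroup G} {ι : SL25 →* G} {r : G} :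
    r ∈ JJ Q ι ↔ ∀ a ∈ AA Q ι, r * a = a * r :=
  ⟨fun h a ha => (h a ha).symm, fun h a ha => (h a ha).symm⟩

theorem memK {Q : Subgroup G} {g a : G} : a ∈ MulAut.conj g • Q ↔ g⁻¹ * a * g ∈ Q := by
  rw [mem_pointwise_smul_iff_inv_smul_mem]; simp

namespace T1

variable {z : G} {Q : Subgroup G} {ι : SL25 →* G} (h : T1 z Q ι)
include h

theorem cn {r : G} (hr : r * z = z * r) {q : G} (hq : q ∈ Q) : r * q * r⁻¹ ∈ Q :=
  h.nQ r (by rw [hr, mul_inv_cancel_right]; exact mem_zpowers z) q hq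

theorem ιn (k : SL25) {q : G} (hq : q ∈ Q) : ι k * q * (ι k)⁻¹ ∈ Q := h.cn (h.ιz k) hq

theorem ZQ : zpowers z ≤ Q := zpowers_le.2 h.zQ

theorem zA : z ∈ AA Q ι := memA.2 ⟨h.zQ, (h.ιz _).symm⟩

theorem ZA : zpowers z ≤ AA Q ι := zpowers_le.2 h.zA

omit h in
theorem x3 : ι slX ^ 3 = 1 := by rw [← map_pow, show slX ^ 3 = 1 by decide, map_one]

theorem rmul {a b : G} {k l : SL25} (h1 : a * (ι k)⁻¹ ∈ Q) (h2 : b * (ι l)⁻¹ ∈ Q) :
    a * b * (ι (k * l))⁻¹ ∈ Q := by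
  have := mul_mem h1 (h.ιn k h2)
  rw [map_mul]; convert this using 1; group

theorem rinv {a : G} {k : SL25} (h1 : a * (ι k)⁻¹ ∈ Q) : a⁻¹ * (ι k⁻¹)⁻¹ ∈ Q := by
  have := h.ιn k⁻¹ (inv_mem h1)
  rw [map_inv] at this ⊢; convert this using 1; group

theorem rone {a : G} {k : SL25} (h1 : a * (ι k)⁻¹ ∈ Q) (ha : a ∈ Q) : k = 1 :=
  h.ιQ k (by simpa using mul_mem (inv_mem h1) ha)

theorem rcube {a : G} {k : SL25} (h1 : a * (ι k)⁻¹ ∈ Q) (ha : a ^ 3 = 1) : k ^ 3 = 1 := by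
  have := h.rmul (h.rmul h1 h1) h1
  rw [← pow_three', ← pow_three', ha] at this
  exact h.rone this (one_mem _)

theorem rex {r : G} (hr : r * z = z * r) : ∃ k, r * (ι k)⁻¹ ∈ Q := by
  obtain ⟨q, hq, k, rfl⟩ := h.dec r hr
  exact ⟨k, by simpa using hq⟩

theorem cen_a {a r : G} (ha : a ∈ AA Q ι) (hz : a ∉ zpowers z) (h1 : r * z = z * r)
    (h2 : r * a = a * r) : ∃ i : Fin 3, r * ι slX ^ i.val ∈ Q := by
  obtain ⟨q, hq, k, rfl⟩ := h.dec r h1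
  have e : ι k * a * (ι k)⁻¹ * a⁻¹ = q⁻¹ * a * q⁻¹⁻¹ * a⁻¹ := by
    calc _ = q⁻¹ * (q * ι k * a) * (ι k)⁻¹ * a⁻¹ := by group
      _ = _ := by rw [h2]; group
  have hk := h.stab a ha hz k (e ▸ h.QQ _ (inv_mem hq) _ (memA.1 ha).1)
  obtain ⟨i, hi⟩ := sl_cent3 k (by
    obtain ⟨n, rfl⟩ := hk
    show (slX ^ n) ^ 3 = 1
    rw [← zpow_natCast, ← zpow_mul, mul_comm, zpow_mul, zpow_natCast, show slX ^ 3 = 1 by decide,
      one_zpow]) (comm_of_zp rfl hk).symm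
  exact ⟨i, by rwa [mul_assoc, ← map_pow, ← map_mul, hi, map_one, mul_one]⟩

theorem AJ : AA Q ι ≤ JJ Q ι := fun a ha => memJ.2 (h.Ac a ha)

omit h in
theorem xJ : ι slX ∈ JJ Q ι := memJ.2 fun _ ha => (memA.1 ha).2.symm

theorem JQ {r : G} (h1 : r ∈ JJ Q ι) (h2 : r ∈ Q) : r ∈ AA Q ι := h.cAQ r h2 (memJ.1 h1)

theorem xQ {i : Fin 3} (hi : ι slX ^ i.val ∈ Q) : i = 0 :=
  (by decide : ∀ i : Fin 3, slX ^ i.val = 1 → i = 0) i (h.ιQ _ (map_pow ι _ _ ▸ hi))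

theorem QJ {q : G} (hq : q ∈ Q) {r : G} (hr : r ∈ JJ Q ι) : q * r * q⁻¹ ∈ JJ Q ι :=
  memJ.2 fun a ha => by
    have : q⁻¹ * a * q ∈ AA Q ι := by
      simpa using mul_mem (h.ZA (h.QQ _ (inv_mem hq) _ (memA.1 ha).1)) ha
    calc _ = q * (r * (q⁻¹ * a * q)) * q⁻¹ := by group
      _ = _ := by rw [memJ.1 hr _ this]; group

theorem inf_one {y c : G} (y3 : y ^ 3 = 1) (hy : y ∉ zpowers z) (h1 : c ∈ zpowers z)
    (h2 : c ∈ zpowers y) : c = 1 := by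
  rcases (mem_zp3 y3).1 h2 with e | e | e
  · exact e
  · exact absurd (e ▸ h1) hy
  · exact absurd (inv_mem_iff.1 (e ▸ h1)) hy

theorem cmK {g a b : G} (ha : g⁻¹ * a * g ∈ Q) (hb : g⁻¹ * b * g ∈ Q) :
    a * b * a⁻¹ * b⁻¹ ∈ zpowers (g * z * g⁻¹) := by
  obtain ⟨n, e⟩ := h.QQ _ ha _ hb
  refine ⟨n, ?_⟩
  show (g * z * g⁻¹) ^ n = _
  rw [conj_zpow, show z ^ n = _ from e]; group

theorem czK {g a : G} (ha : g⁻¹ * a * g ∈ Q) : a * (g * z * g⁻¹) = g * z * g⁻¹ * a := by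
  calc _ = g * (g⁻¹ * a * g * z) * g⁻¹ := by group
    _ = _ := by rw [h.Qz _ ha]; group

theorem cj3 (g : G) : (g * z * g⁻¹) ^ 3 = 1 := by rw [conj_pow, h.z3]; group

theorem Qconj {a c : G} (ha : a ∈ Q) (hz : a ∉ zpowers z) (hc : c ∈ zpowers z) :
    ∃ q ∈ Q, q * a * q⁻¹ = a * c := by
  obtain ⟨q, hq, ne⟩ : ∃ q ∈ Q, a * q ≠ q * a := by
    by_contra k; push Not at k; exact hz (h.QZ a ha k)
  have k : ∀ e ∈ zpowers z, ∀ q ∈ Q, q * a * q⁻¹ * a⁻¹ = e →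
      q * a * q⁻¹ = a * e ∧ q⁻¹ * a * q⁻¹⁻¹ = a * e⁻¹ := fun e he q hq k => by
    have k1 : q * a * q⁻¹ = a * e := by rw [comm_of_zp (h.Qz a ha) he, ← k]; group
    refine ⟨k1, ?_⟩
    calc _ = q⁻¹ * (a * e) * (e⁻¹ * q) := by group
      _ = _ := by rw [← k1, ← comm_of_zp (h.Qz q hq) (inv_mem he)]; group
  rcases (mem_zp3 h.z3).1 (h.QQ q hq a ha) with e | e | e
  · exact absurd (by rw [mul_inv_eq_one, mul_inv_eq_iff_eq_mul] at e; exact e.symm) ne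
  · obtain ⟨k1, k2⟩ := k _ (mem_zpowers z) q hq e
    rcases (mem_zp3 h.z3).1 hc with rfl | rfl | rfl
    exacts [⟨1, one_mem _, by simp⟩, ⟨q, hq, k1⟩, ⟨_, inv_mem hq, k2⟩]
  · obtain ⟨k1, k2⟩ := k _ (inv_mem (mem_zpowers z)) q hq e
    rcases (mem_zp3 h.z3).1 hc with rfl | rfl | rfl
    exacts [⟨1, one_mem _, by simp⟩, ⟨_, inv_mem hq, by rw [k2, inv_inv]⟩, ⟨q, hq, k1⟩]

variable [Finite G]

theorem exA : ∃ a ∈ AA Q ι, a ∉ zpowers z := by
  by_contra k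
  push Not at k
  have := card_le_of_le (show AA Q ι ≤ zpowers z from k)
  have h3 := Nat.le_of_dvd (by norm_num) (orderOf_dvd_of_pow_eq_one h.z3)
  rw [h.cA, Nat.card_zpowers] at this
  omega

theorem decJ {r : G} (hr : r ∈ JJ Q ι) : ∃ i : Fin 3, r * ι slX ^ i.val ∈ AA Q ι := by
  obtain ⟨a, ha, hz⟩ := h.exA
  obtain ⟨i, hi⟩ := h.cen_a ha hz (memJ.1 hr _ h.zA) (memJ.1 hr _ ha)
  exact ⟨i, h.JQ (mul_mem hr (pow_mem xJ _)) hi⟩

theorem Jc {r s : G} (hr : r ∈ JJ Q ι) (hs : s ∈ JJ Q ι) : r * s = s * r := by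
  obtain ⟨i, hi⟩ := h.decJ hr
  obtain ⟨k, hk⟩ := h.decJ hs
  have c1 : Commute s (r * ι slX ^ i.val) := memJ.1 hs _ hi
  have c2 : Commute (s * ι slX ^ k.val) (ι slX) := (memA.1 hk).2
  have c3 : Commute s (ι slX) := by
    simpa using c2.mul_left ((Commute.refl (ι slX)).pow_left k.val).inv_left
  have := c1.mul_right (c3.pow_right i.val).inv_right
  rw [mul_inv_cancel_right] at this
  exact this.symm.eq

theorem Je {r : G} (hr : r ∈ JJ Q ι) : r ^ 3 = 1 := by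
  obtain ⟨i, hi⟩ := h.decJ hr
  have := h.Qe _ (memA.1 hi).1
  have c : Commute r (ι slX ^ i.val) := h.Jc hr (pow_mem xJ _)
  rwa [c.mul_pow, ← pow_mul, mul_comm i.val, pow_mul, x3, one_pow, mul_one] at this

theorem cJ : Nat.card (JJ Q ι) = 81 := by
  apply le_antisymm
  · have := card_le_cosets (fun i => ι slX ^ i.val) fun c hc => h.decJ hc
    rwa [inf_eq_right.2 h.AJ, h.cA] at this
  · let f : Fin 3 × AA Q ι → JJ Q ι := fun p =>
      ⟨p.2 * ι slX ^ p.1.val, mul_mem (h.AJ p.2.2) (pow_mem xJ _)⟩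
    have := Nat.card_le_card_of_injective f fun a b e => by
      have e1 : (a.2 : G) * ι slX ^ a.1.val = b.2 * ι slX ^ b.1.val := congrArg Subtype.val e
      have e2 : a.1 = b.1 := by
        have k := h.ιQ (slX ^ a.1.val * (slX ^ b.1.val)⁻¹) (by
          rw [map_mul, map_inv, map_pow, map_pow, show ι slX ^ a.1.val * (ι slX ^ b.1.val)⁻¹ =
            (a.2 : G)⁻¹ * b.2 by rw [mul_inv_eq_iff_eq_mul, mul_assoc, ← e1]; group]
          exact mul_mem (inv_mem (memA.1 a.2.2).1) (memA.1 b.2.2).1)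
        exact (by decide : ∀ i j : Fin 3, slX ^ i.val * (slX ^ j.val)⁻¹ = 1 → i = j) _ _ k
      rw [e2] at e1
      exact Prod.ext e2 (Subtype.ext (mul_right_cancel e1))
    simpa [h.cA] using this

theorem uniq0 {B : Subgroup G} (hc : ∀ a ∈ B, ∀ b ∈ B, a * b = b * a) (he : ∀ a ∈ B, a ^ 3 = 1)
    (hz : ∀ a ∈ B, a * z = z * a) (h81 : 81 ≤ Nat.card B) {b : G} (hb : b ∈ B)
    (hx : b * (ι slX)⁻¹ ∈ Q) : B ≤ JJ Q ι := by
  have h1 := card_le_cosets (K := Q) (fun i => ι slX ^ i.val) fun c hcB => by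
    obtain ⟨k, hk⟩ := h.rex (hz c hcB)
    have e := h.rone (h.rmul (h.rmul hk hx) (h.rinv (h.rmul hx hk)))
      (by rw [hc c hcB b hb, mul_inv_cancel]; exact one_mem _)
    obtain ⟨i, hi⟩ := sl_cent3 k (h.rcube hk (he c hcB)) (mul_inv_eq_one.1 e)
    refine ⟨i, ?_⟩
    rwa [eq_inv_of_mul_eq_one_left hi, map_inv, inv_inv, map_pow] at hk
  have h2 : B ⊓ Q ≤ AA Q ι := fun a ha => h.fix a ha.2 (by
    have := h.QQ _ (inv_mem hx) _ ha.2
    rwa [show (b * (ι slX)⁻¹)⁻¹ * a * (b * (ι slX)⁻¹)⁻¹⁻¹ * a⁻¹ =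
      ι slX * (b⁻¹ * (a * b)) * (ι slX)⁻¹ * a⁻¹ by group, hc a ha.1 b hb, inv_mul_cancel_left]
      at this)
  have h3 := eq_of_le_of_card_ge h2 (by rw [h.cA]; omega)
  exact fun r hr => memJ.2 fun a ha => hc r hr a (h3.ge ha).1

/-- `N(J)` controls the fusion of `z` in `J` -/
theorem fus {g : G} (hg : g * z * g⁻¹ ∈ JJ Q ι) :
    ∃ n ∈ normalizer (JJ Q ι : Set G), n * z * n⁻¹ = g * z * g⁻¹ := by
  have key : ∀ g : G, g * z * g⁻¹ ∈ JJ Q ι → ∀ B, B = MulAut.conj g⁻¹ • JJ Q ι →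
      (∀ a ∈ B, ∀ b ∈ B, a * b = b * a) ∧ (∀ a ∈ B, a ^ 3 = 1) ∧ (∀ a ∈ B, a * z = z * a) ∧
      81 ≤ Nat.card B := fun g hg B hB => by
    have m : ∀ a ∈ B, g * a * g⁻¹ ∈ JJ Q ι := fun a ha => by
      rw [hB, memK, inv_inv] at ha; exact ha
    refine ⟨fun a ha b hb => ?_, fun a ha => ?_, fun a ha => ?_, ?_⟩
    · exact cj_comm (h.Jc (m a ha) (m b hb))
    · simpa [conj_pow] using h.Je (m a ha)
    · exact cj_comm (h.Jc (m a ha) hg)
    · rw [hB, ← h.cJ]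
      exact (Nat.card_congr (equivSMul (MulAut.conj g⁻¹) (JJ Q ι)).toEquiv).le
  obtain ⟨k1, k2, k3, k4⟩ := key g hg _ rfl
  obtain ⟨b, hb, hQ⟩ : ∃ b ∈ MulAut.conj g⁻¹ • JJ Q ι, b ∉ Q := by
    by_contra c
    push Not at c
    have := h.ab _ c k1
    omega
  obtain ⟨k, hk⟩ := h.rex (k3 b hb)
  obtain ⟨m, hm⟩ := sl_three k (h.rcube hk (k2 b hb)) fun e => hQ (by simpa [e] using hk)
  have e : g * (ι m)⁻¹ * z * (g * (ι m)⁻¹)⁻¹ = g * z * g⁻¹ := by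
    calc _ = g * (ι m⁻¹ * z) * ι m * g⁻¹ := by rw [map_inv]; group
      _ = _ := by rw [h.ιz, map_inv]; group
  obtain ⟨l1, l2, l3, l4⟩ := key _ (e ▸ hg) _ rfl
  have le := h.uniq0 l1 l2 l3 l4 (b := ι m * b * (ι m)⁻¹)
    (memK.2 (by simpa [mul_assoc] using memK.1 hb)) (by
      have := h.ιn m hk
      rwa [show ι m * (b * (ι k)⁻¹) * (ι m)⁻¹ = ι m * b * (ι (m * k))⁻¹ by rw [map_mul]; group,
        hm, map_mul, mul_inv_rev, ← mul_assoc] at this)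
  refine ⟨_, inv_mem_iff.1 (mem_normalizer_fintype fun r hr => le (memK.2 ?_)), e⟩
  simpa [mul_assoc] using hr

theorem sym {g : G} (hg : g * z * g⁻¹ ∈ Q) : g⁻¹ * z * g ∈ Q := by
  by_cases hz : g * z * g⁻¹ ∈ zpowers z
  · rcases (mem_zp3 h.z3).1 hz with e | e | e
    · exact absurd (by simpa using e) h.z1
    · rw [← e]; simpa [mul_assoc] using h.zQ
    · rw [← inv_inv z, ← e]; simpa [mul_assoc] using h.zQ
  obtain ⟨a, ha, b, hb, ne⟩ : ∃ a ∈ Q ⊓ centralizer {g * z * g⁻¹},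
      ∃ b ∈ Q ⊓ centralizer {g * z * g⁻¹}, a * b ≠ b * a := by
    by_contra c
    push Not at c
    have := h.ab _ inf_le_left c
    rw [h.cq _ hg hz] at this
    omega
  have m : ∀ a ∈ Q ⊓ centralizer {g * z * g⁻¹}, g⁻¹ * a * g * z = z * (g⁻¹ * a * g) :=
    fun a ha => by
      calc _ = g⁻¹ * (a * (g * z * g⁻¹)) * g := by group
        _ = _ := by rw [mem_centralizer_singleton_iff.1 ha.2]; group
  have c : ∀ a ∈ Q, (g⁻¹ * a * g) ^ 3 = 1 := fun a ha => by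
    have := conj_pow (a := g⁻¹) (b := a) (i := 3)
    rw [inv_inv] at this
    rw [this, h.Qe a ha]; group
  obtain ⟨k, hk⟩ := h.rex (m a ha)
  obtain ⟨l, hl⟩ := h.rex (m b hb)
  have e := sl_comm3 k (h.rcube hk (c a ha.1)) l (h.rcube hl (c b hb.1))
    (h.rcube (h.rmul hk hl) (by rw [← c _ (mul_mem ha.1 hb.1)]; congr 1; group))
    (h.rcube (h.rmul hk (h.rinv hl)) (by rw [← c _ (mul_mem ha.1 (inv_mem hb.1))]; congr 1; group))
  have r := h.rmul (h.rmul (h.rmul hk hl) (h.rinv hk)) (h.rinv hl)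
  rw [e, map_one, inv_one, mul_one, show g⁻¹ * a * g * (g⁻¹ * b * g) * (g⁻¹ * a * g)⁻¹ *
    (g⁻¹ * b * g)⁻¹ = g⁻¹ * (a * b * a⁻¹ * b⁻¹) * g by group] at r
  rcases (mem_zp3 h.z3).1 (h.QQ a ha.1 b hb.1) with e | e | e
  · exact absurd (by rwa [mul_inv_eq_one, mul_inv_eq_iff_eq_mul] at e) ne
  · rwa [e] at r
  · rw [e] at r; simpa [mul_assoc] using inv_mem r

omit [Finite G] in
theorem symZ {g : G} (hz : g * z * g⁻¹ ∉ zpowers z) : g⁻¹ * z * g ∉ zpowers z := fun k => by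
  rcases (mem_zp3 h.z3).1 k with e | e | e
  · exact h.z1 (by
      calc z = g * (g⁻¹ * z * g) * g⁻¹ := by group
        _ = 1 := by rw [e]; group)
  · refine hz ?_
    rw [show g * z * g⁻¹ = g * (g⁻¹ * z * g) * g⁻¹ by rw [e]]; simp [mul_assoc]
  · refine hz (inv_mem_iff.1 ?_)
    rw [show (g * z * g⁻¹)⁻¹ = g * (g⁻¹ * z * g) * g⁻¹ by rw [e]; group]; simp [mul_assoc]

theorem d0 {g : G} (hg : g * z * g⁻¹ ∈ Q) (hz : g * z * g⁻¹ ∉ zpowers z) :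
    Nat.card (Q ⊓ MulAut.conj g • Q : Subgroup G) = 27 := by
  apply le_antisymm
  · refine h.ab _ inf_le_left fun a ha b hb => ?_
    have := h.inf_one (h.cj3 g) hz (h.QQ a ha.1 b hb.1) (h.cmK (memK.1 ha.2) (memK.1 hb.2))
    rwa [mul_inv_eq_one, mul_inv_eq_iff_eq_mul] at this
  · obtain ⟨m, hm⟩ := h.cov _ (h.sym hg)
    have hm' : ι m * (g⁻¹ * z * g) * (ι m)⁻¹ ∉ zpowers z := fun k => h.symZ hz (cjZ (h.ιz m) k)
    have h1 := card_le_cosets (B := Q ⊓ centralizer {g * z * g⁻¹}) (K := MulAut.conj g • Q)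
      (fun i => g * (ι m)⁻¹ * ι slX ^ i.val * ι m * g⁻¹) fun c hc => by
        have c1 : Commute (g⁻¹ * c * g) z := by
          show _ = _
          calc _ = g⁻¹ * (c * (g * z * g⁻¹)) * g := by group
            _ = _ := by rw [mem_centralizer_singleton_iff.1 hc.2]; group
        obtain ⟨i, hi⟩ := h.cen_a (r := ι m * (g⁻¹ * c * g) * (ι m)⁻¹) hm hm'
          ((Commute.mul_left (h.ιz m) c1).mul_left (Commute.inv_left (h.ιz m))) (by
            calc _ = ι m * g⁻¹ * (c * z) * g * (ι m)⁻¹ := by group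
              _ = _ := by rw [h.Qz c hc.1]; group)
        refine ⟨i, memK.2 ?_⟩
        have := h.ιn m⁻¹ hi
        rw [map_inv] at this
        convert this using 1; group
    rw [h.cq _ hg hz] at h1
    have := card_le_of_le (show Q ⊓ centralizer {g * z * g⁻¹} ⊓ MulAut.conj g • Q ≤
      Q ⊓ MulAut.conj g • Q from inf_le_inf_right _ inf_le_left)
    omega

theorem nAK {g : G} (hg : g * z * g⁻¹ ∈ AA Q ι) (hz : g * z * g⁻¹ ∉ zpowers z) :
    ¬ AA Q ι ≤ MulAut.conj g • Q := fun le => by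
  have m : ∀ r ∈ Q ⊓ centralizer {g⁻¹ * z * g}, g * r * g⁻¹ ∈ JJ Q ι := fun r hr => by
    have r1 : g⁻¹ * (g * r * g⁻¹) * g ∈ Q := by simpa [mul_assoc] using hr.1
    have r2 : g * r * g⁻¹ * z = z * (g * r * g⁻¹) := by
      calc _ = g * (r * (g⁻¹ * z * g)) * g⁻¹ := by group
        _ = _ := by rw [mem_centralizer_singleton_iff.1 hr.2]; group
    obtain ⟨i, hi⟩ := h.cen_a hg hz r2 (h.czK r1)
    generalize g * r * g⁻¹ = s at r1 hi
    refine memJ.2 fun a ha => ?_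
    have k := h.QQ _ hi _ (memA.1 ha).1
    have c : Commute (ι slX ^ i.val) a := Commute.pow_left (memA.1 ha).2.symm _
    rw [mul_assoc s, c.eq, show s * (a * ι slX ^ i.val) * (s * ι slX ^ i.val)⁻¹ = s * a * s⁻¹ by
      group] at k
    have := h.inf_one (h.cj3 g) hz k (h.cmK r1 (memK.1 (le ha)))
    rwa [mul_inv_eq_one, mul_inv_eq_iff_eq_mul] at this
  have := h.ab _ (inf_le_left (b := centralizer {g⁻¹ * z * g})) fun a ha b hb =>
    cj_comm (h.Jc (m a ha) (m b hb))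
  rw [h.cq _ (h.sym (memA.1 hg).1) (h.symZ hz)] at this
  omega

theorem exw {g : G} (hg : g * z * g⁻¹ ∈ AA Q ι) (hz : g * z * g⁻¹ ∉ zpowers z) :
    ∃ w ∈ Q, g⁻¹ * w * g ∈ Q ∧ w ∉ AA Q ι := by
  by_contra c
  push Not at c
  have := eq_of_le_of_card_ge (show Q ⊓ MulAut.conj g • Q ≤ AA Q ι from
    fun w hw => c w hw.1 (memK.1 hw.2)) (by rw [h.cA, h.d0 (memA.1 hg).1 hz])
  exact h.nAK hg hz (this.ge.trans inf_le_right)

end T1

end Cfsg.Agent.H99.HN
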