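import Cfsg.Agent.H99.HNGeoA

/-! Coordinates on `J`. -/

set_option autoImplicit false

universe u

namespace Cfsg.Agent.H99.HN

open Cfsg Subgroup Equiv
open Cfsg.Agent.H91 (SL25 slX slY)
open Cfsg.Agent.H67.T3 (slF slF_X slF_sq mem_zp3 comm_of_zp)
open scoped Pointwise

variable {G : Type u} [Group G]

/-- the vector of `z` -/
def vz : W4 := ![1, 1, 0, 1]
/-- the vector of `x` -/
def vx : W4 := ![1, 1, 0, -1]
/-- the vector of `y₁` -/
def vy : W4 := ![1, -1, 1, 0]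
/-- the vector of `y₂` -/
def vw : W4 := ![1, -1, -1, 0]
/-- the last coordinate -/
def γc (v : W4) : ZMod 3 := v 0 + v 1 + v 3
/-- the action of `u` -/
def mU (v : W4) : W4 := ![v 1, v 0, -v 2, v 3]
/-- the second root element at `z` -/
def mR' (v : W4) : W4 := mD (mR (mD (mD (mD v))))
/-- the action of `Q` -/
def mQ (a b : Fin 3) (v : W4) : W4 := mR^[a.val] (mR'^[b.val] v)
/-- candidates for the root element at `x` -/
def mT (s t : Fin 3) (v : W4) : W4 :=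
  v + s.val • (v 0 + v 1 - v 3) • vy + t.val • (v 0 - v 1 + v 2) • vx

theorem pw_add {a : G} (h : a ^ 3 = 1) (i j : ZMod 3) : a ^ (i + j).val = a ^ i.val * a ^ j.val := by
  rw [← pow_add, ZMod.val_add]; exact (pow_eq_pow_mod _ h).symm

/-- the coordinates -/
def jj (z : G) (ι : SL25 →* G) (y : G) (v : W4) : G :=
  z ^ (v 0 + v 1 - v 3).val * y ^ (v 0 - v 1 - v 2).val *
    (ι slF * y * (ι slF)⁻¹) ^ (v 0 - v 1 + v 2).val * ι slX ^ (γc v).val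

theorem add_nsmul' {f : W4 → G} (hf : ∀ v w, f (v + w) = f v * f w) (n : ℕ) (v : W4) :
    f (n • v) = f v ^ n := by
  induction n with
  | zero => simpa using hf 0 0
  | succ n ih => rw [succ_nsmul, hf, ih, pow_succ]

theorem span4 : ∀ v : W4, ∃ a b c d : Fin 3, v = a.val • vz + b.val • vy + c.val • vw + d.val • vx := by
  decide +kernel

theorem ext4 {f g : W4 → G} (hf : ∀ v w, f (v + w) = f v * f w) (hg : ∀ v w, g (v + w) = g v * g w)
    (h1 : f vz = g vz) (h2 : f vy = g vy) (h3 : f vw = g vw) (h4 : f vx = g vx) (v : W4) :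
    f v = g v := by
  obtain ⟨a, b, c, d, rfl⟩ := span4 v
  simp only [hf, hg, add_nsmul' hf, add_nsmul' hg, h1, h2, h3, h4]

theorem mD_add (v w : W4) : mD (v + w) = mD v + mD w := by
  funext i; fin_cases i <;> simp [mD] <;> ring
theorem mR_add (v w : W4) : mR (v + w) = mR v + mR w := by
  funext i; fin_cases i <;> simp [mR] <;> ring
theorem mT_add (s t : Fin 3) (v w : W4) : mT s t (v + w) = mT s t v + mT s t w := by
  simp only [mT, Pi.add_apply]; module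

/-- an element of `A` outside `Z` inverted by `u` -/
structure Y0 (z : G) (Q : Subgroup G) (ι : SL25 →* G) (y : G) : Prop extends T1 z Q ι where
  yA : y ∈ AA Q ι
  yZ : y ∉ zpowers z
  uy : ι (-1) * y * (ι (-1))⁻¹ = y⁻¹

variable {z : G} {Q : Subgroup G} {ι : SL25 →* G} {y : G}

theorem dx : ι slF * ι slX * (ι slF)⁻¹ = (ι slX)⁻¹ := by
  rw [← map_inv, ← map_mul, ← map_mul, slF_X, map_inv]

theorem dd2 : ι slF * ι slF = ι (-1) := by rw [← map_mul, slF_sq]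

theorem ux : ι (-1) * ι slX = ι slX * ι (-1) := by rw [← map_mul, ← map_mul]; simp

theorem T1.dA (h : T1 z Q ι) {a : G} (ha : a ∈ AA Q ι) : ι slF * a * (ι slF)⁻¹ ∈ AA Q ι := by
  refine memA.2 ⟨h.ιn _ (memA.1 ha).1, ?_⟩
  have c : Commute a (ι slX)⁻¹ := Commute.inv_right (memA.1 ha).2
  rw [← inv_inv (ι slX), ← dx]
  calc _ = ι slF * (a * (ι slX)⁻¹) * (ι slF)⁻¹ := by group
    _ = _ := by rw [c.eq]; group

theorem jz : jj z ι y vz = z := by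
  rw [jj, show (vz 0 + vz 1 - vz 3).val = 1 from rfl, show (vz 0 - vz 1 - vz 2).val = 0 from rfl,
    show (vz 0 - vz 1 + vz 2).val = 0 from rfl, show (γc vz).val = 0 from rfl]; simp
theorem jy : jj z ι y vy = y := by
  rw [jj, show (vy 0 + vy 1 - vy 3).val = 0 from rfl, show (vy 0 - vy 1 - vy 2).val = 1 from rfl,
    show (vy 0 - vy 1 + vy 2).val = 0 from rfl, show (γc vy).val = 0 from rfl]; simp
theorem jw : jj z ι y vw = ι slF * y * (ι slF)⁻¹ := by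
  rw [jj, show (vw 0 + vw 1 - vw 3).val = 0 from rfl, show (vw 0 - vw 1 - vw 2).val = 0 from rfl,
    show (vw 0 - vw 1 + vw 2).val = 1 from rfl, show (γc vw).val = 0 from rfl]; simp
theorem jx : jj z ι y vx = ι slX := by
  rw [jj, show (vx 0 + vx 1 - vx 3).val = 0 from rfl, show (vx 0 - vx 1 - vx 2).val = 0 from rfl,
    show (vx 0 - vx 1 + vx 2).val = 0 from rfl, show (γc vx).val = 1 from rfl]; simp

namespace Y0

variable (h : Y0 z Q ι y)
include h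

theorem add (v w : W4) : jj z ι y (v + w) = jj z ι y v * jj z ι y w := by
  have a2 := h.toT1.dA h.yA
  have c12 : Commute z y := h.Ac _ h.toT1.zA _ h.yA
  have c13 : Commute z _ := h.Ac _ h.toT1.zA _ a2
  have c14 : Commute z _ := (memA.1 h.toT1.zA).2
  have c23 : Commute y _ := h.Ac _ h.yA _ a2
  have c24 : Commute y _ := (memA.1 h.yA).2
  have c34 : Commute _ _ := (memA.1 a2).2
  simp only [jj]
  rw [show (v + w) 0 + (v + w) 1 - (v + w) 3 = (v 0 + v 1 - v 3) + (w 0 + w 1 - w 3) by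
      simp only [Pi.add_apply]; ring,
    show (v + w) 0 - (v + w) 1 - (v + w) 2 = (v 0 - v 1 - v 2) + (w 0 - w 1 - w 2) by
      simp only [Pi.add_apply]; ring,
    show (v + w) 0 - (v + w) 1 + (v + w) 2 = (v 0 - v 1 + v 2) + (w 0 - w 1 + w 2) by
      simp only [Pi.add_apply]; ring,
    show γc (v + w) = γc v + γc w by simp only [γc, Pi.add_apply]; ring,
    pw_add h.z3, pw_add (h.Qe _ (memA.1 h.yA).1), pw_add (h.Qe _ (memA.1 a2).1), pw_add T1.x3,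
    (c12.pow_pow _ _).mul_mul_mul_comm,
    ((c13.pow_pow _ _).mul_left (c23.pow_pow _ _)).mul_mul_mul_comm,
    (((c14.pow_pow _ _).mul_left (c24.pow_pow _ _)).mul_left (c34.pow_pow _ _)).mul_mul_mul_comm]

theorem nsm (n : ℕ) (v : W4) : jj z ι y (n • v) = jj z ι y v ^ n := add_nsmul' h.add n v

theorem j0 : jj z ι y 0 = 1 := by simpa using h.nsm 0 0

theorem neg (v : W4) : jj z ι y (-v) = (jj z ι y v)⁻¹ :=
  eq_inv_of_mul_eq_one_left (by rw [← h.add, neg_add_cancel, h.j0])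

theorem sub (v w : W4) : jj z ι y (v - w) = jj z ι y v * (jj z ι y w)⁻¹ := by
  rw [sub_eq_add_neg, h.add, h.neg]

theorem jA0 {v : W4} (hv : γc v = 0) : jj z ι y v ∈ AA Q ι := by
  rw [jj, hv, ZMod.val_zero, pow_zero, mul_one]
  exact mul_mem (mul_mem (pow_mem h.toT1.zA _) (pow_mem h.yA _)) (pow_mem (h.toT1.dA h.yA) _)

theorem jJ (v : W4) : jj z ι y v ∈ JJ Q ι :=
  mul_mem (h.toT1.AJ (mul_mem (mul_mem (pow_mem h.toT1.zA _) (pow_mem h.yA _))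
    (pow_mem (h.toT1.dA h.yA) _))) (pow_mem T1.xJ _)

theorem jQ {v : W4} : jj z ι y v ∈ Q ↔ γc v = 0 := by
  refine ⟨fun hv => ?_, fun hv => (memA.1 (h.jA0 hv)).1⟩
  have := mul_mem (inv_mem (memA.1 (mul_mem (mul_mem (pow_mem h.toT1.zA (v 0 + v 1 - v 3).val)
    (pow_mem h.yA (v 0 - v 1 - v 2).val)) (pow_mem (h.toT1.dA h.yA) (v 0 - v 1 + v 2).val))).1) hv
  rw [jj, inv_mul_cancel_left] at this
  exact h.toT1.xQ (i := γc v) this

theorem act {n : G} {M : W4 → W4} (hM : ∀ v w, M (v + w) = M v + M w)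
    (h1 : n * z * n⁻¹ = jj z ι y (M vz)) (h2 : n * y * n⁻¹ = jj z ι y (M vy))
    (h3 : n * jj z ι y vw * n⁻¹ = jj z ι y (M vw)) (h4 : n * ι slX * n⁻¹ = jj z ι y (M vx))
    (v : W4) : n * jj z ι y v * n⁻¹ = jj z ι y (M v) :=
  ext4 (f := fun v => n * jj z ι y v * n⁻¹) (g := fun v => jj z ι y (M v))
    (fun v w => by simp only [h.add]; group) (fun v w => by simp only [hM, h.add])
    (by simp only [jz, h1]) (by simp only [jy, h2]) h3 (by simp only [jx, h4]) v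

theorem jd (v : W4) : ι slF * jj z ι y v * (ι slF)⁻¹ = jj z ι y (mD v) :=
  h.act mD_add (by rw [show mD vz = vz by decide, jz, h.ιz, mul_inv_cancel_right])
    (by rw [show mD vy = vw by decide, jw])
    (by rw [show mD vw = -vy by decide, h.neg, jw, jy, ← h.uy, ← dd2]; group)
    (by rw [show mD vx = -vx by decide, h.neg, jx, dx]) v

theorem ju (v : W4) : ι (-1) * jj z ι y v * (ι (-1))⁻¹ = jj z ι y (mU v) := by
  rw [(by decide +kernel : ∀ v, mU v = mD (mD v)), ← h.jd, ← h.jd, ← dd2]; group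

theorem inj (v : W4) (hv : jj z ι y v = 1) : v = 0 := by
  have h1 : jj z ι y (mD v) = 1 := by rw [← h.jd, hv]; group
  rcases (by decide +kernel : ∀ v, γc v = 0 → v = 0 ∨ v = vz ∨ v = -vz ∨ ∃ a b c : Fin 3,
    vy = a.val • v + b.val • mD v + c.val • vz) v (h.jQ.1 (hv ▸ one_mem _)) with e | e | e | e
  · exact e
  · rw [e, jz] at hv; exact absurd hv h.z1
  · rw [e, h.neg, jz, inv_eq_one] at hv; exact absurd hv h.z1
  · obtain ⟨a, b, c, e⟩ := e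
    refine absurd ?_ h.yZ
    rw [← jy (z := z) (ι := ι) (y := y), e, h.add, h.add, h.nsm, h.nsm, h.nsm, hv, h1, jz]
    simp

theorem inj' {v w : W4} (e : jj z ι y v = jj z ι y w) : v = w :=
  sub_eq_zero.1 (h.inj _ (by rw [h.sub, e, mul_inv_cancel]))

theorem zp {v : W4} {c : G} (hc : c ∈ zpowers (jj z ι y v)) :
    ∃ s : Fin 3, c = jj z ι y (s.val • v) := by
  have h3 : jj z ι y v ^ 3 = 1 := by
    rw [← h.nsm, (by decide +kernel : ∀ v : W4, 3 • v = 0), h.j0]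
  rcases (mem_zp3 h3).1 hc with e | e | e
  · exact ⟨0, by simp [e, h.j0]⟩
  · exact ⟨1, by simp [e]⟩
  · exact ⟨2, by rw [e, ← h.neg, (by decide +kernel : ∀ v : W4, -v = (2 : Fin 3).val • v)]⟩

theorem jZ {v : W4} : jj z ι y v ∈ zpowers z ↔ ∃ s : Fin 3, v = s.val • vz := by
  refine ⟨fun k => ?_, fun ⟨s, e⟩ => by rw [e, h.nsm, jz]; exact pow_mem (mem_zpowers z) _⟩
  obtain ⟨s, e⟩ := h.zp (v := vz) (c := jj z ι y v) (by rwa [jz])
  exact ⟨s, h.inj' e⟩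

theorem AK {K : Subgroup G} (h1 : z ∈ K) (h2 : y ∈ K) (h3 : jj z ι y vw ∈ K) {v : W4}
    (hv : γc v = 0) : jj z ι y v ∈ K := by
  rw [jw] at h3
  rw [jj, hv, ZMod.val_zero, pow_zero, mul_one]
  exact mul_mem (mul_mem (pow_mem h1 _) (pow_mem h2 _)) (pow_mem h3 _)

variable [Finite G]

theorem sur {r : G} (hr : r ∈ JJ Q ι) : ∃ v, r = jj z ι y v := by
  let f : W4 → JJ Q ι := fun v => ⟨_, h.jJ v⟩
  obtain ⟨v, e⟩ := ((Nat.bijective_iff_injective_and_card f).2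
    ⟨fun a b e => h.inj' (congrArg Subtype.val e), by rw [h.toT1.cJ]; simp⟩).2 ⟨r, hr⟩
  exact ⟨v, (congrArg Subtype.val e).symm⟩

theorem surA {a : G} (ha : a ∈ AA Q ι) : ∃ v, γc v = 0 ∧ a = jj z ι y v := by
  obtain ⟨v, rfl⟩ := h.sur (h.toT1.AJ ha)
  exact ⟨v, h.jQ.1 (memA.1 ha).1, rfl⟩

theorem AK' {K : Subgroup G} (h1 : z ∈ K) (h2 : y ∈ K) (h3 : jj z ι y vw ∈ K) : AA Q ι ≤ K :=
  fun a ha => by
    obtain ⟨v, hv, rfl⟩ := h.surA ha
    exact h.AK h1 h2 h3 hv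

end Y0

/-- the root element -/
structure Gd (z : G) (Q : Subgroup G) (ι : SL25 →* G) (y g w c : G) : Prop extends Y0 z Q ι y where
  gN : g ∈ normalizer (JJ Q ι : Set G)
  gz : g * z * g⁻¹ = y
  wQ : w ∈ Q
  wK : g⁻¹ * w * g ∈ Q
  wx : w * ι slX * w⁻¹ = ι slX * y
  ww : w * (ι slF * y * (ι slF)⁻¹) * w⁻¹ = ι slF * y * (ι slF)⁻¹ * c

variable [Finite G]

theorem T1.xw (h : T1 z Q ι) {g w : G} (hg : g * z * g⁻¹ ∈ AA Q ι) (hw : w ∈ Q)
    (hK : g⁻¹ * w * g ∈ Q) : w * ι slX * w⁻¹ * (ι slX)⁻¹ ∈ AA Q ι ⊓ MulAut.conj g • Q := by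
  have e : w * ι slX * w⁻¹ * (ι slX)⁻¹ = (ι slX * w * (ι slX)⁻¹ * w⁻¹)⁻¹ := by group
  rw [e]
  refine inv_mem ⟨h.quad w hw, memK.2 ?_⟩
  have := mul_mem (h.cn (r := g⁻¹ * ι slX * g) (by
    calc _ = g⁻¹ * (ι slX * (g * z * g⁻¹)) * g := by group
      _ = _ := by rw [← (memA.1 hg).2]; group) hK) (inv_mem hK)
  convert this using 1; group

theorem T1.adj (h : T1 z Q ι) {q : G} (hq : q ∈ Q) :
    ∃ c ∈ zpowers z, ι (-1) * (q * c) * (ι (-1))⁻¹ = (q * c)⁻¹ := by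
  refine ⟨_, h.inv q hq, ?_⟩
  have c3 := h.Qe _ (h.ZQ (h.inv q hq))
  have c1 := comm_of_zp (h.ιz (-1)) (h.inv q hq)
  have c2 := comm_of_zp (h.Qz _ (inv_mem hq)) (h.inv q hq)
  obtain ⟨c, e⟩ : ∃ c, c = ι (-1) * q * (ι (-1))⁻¹ * q := ⟨_, rfl⟩
  rw [← e] at c1 c2 c3 ⊢
  calc _ = ι (-1) * q * (ι (-1))⁻¹ * q * q⁻¹ * (ι (-1) * c) * (ι (-1))⁻¹ := by group
    _ = c * (q⁻¹ * c) := by rw [← e, c1]; group
    _ = c⁻¹ * c ^ 3 * q⁻¹ := by rw [c2, pow_three]; simp [mul_assoc]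
    _ = _ := by rw [c3]; group

theorem T1.exGd (h : T1 z Q ι) : ∃ y g w, Gd z Q ι y g w z⁻¹ := by
  obtain ⟨g0, a1, a2⟩ := h.ex
  obtain ⟨m, hm⟩ := h.cov _ a1
  have a3 : ι m * (g0 * z * g0⁻¹) * (ι m)⁻¹ ∉ zpowers z := fun k => a2 (cjZ (h.ιz m) k)
  obtain ⟨c, hc, uy⟩ := h.adj (memA.1 hm).1
  obtain ⟨q, hq, e⟩ := h.Qconj (memA.1 hm).1 a3 hc
  have Y : Y0 z Q ι _ := { h with
    yA := mul_mem hm (h.ZA hc), uy := uy
    yZ := fun k => a3 (by simpa using mul_mem k (inv_mem hc)) }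
  obtain ⟨g, gN, gz⟩ := h.fus (g := q * ι m * g0) (by
    convert h.AJ Y.yA using 1; rw [← e]; group)
  rw [show q * ι m * g0 * z * (q * ι m * g0)⁻¹ = _ * c by rw [← e]; group] at gz
  generalize ι m * (g0 * z * g0⁻¹) * (ι m)⁻¹ * c = y at Y gz
  have yA : g * z * g⁻¹ ∈ AA Q ι := gz ▸ Y.yA
  have yZ : g * z * g⁻¹ ∉ zpowers z := gz ▸ Y.yZ
  have zK : z ∈ MulAut.conj g • Q := memK.2 (h.sym (memA.1 yA).1)
  have yK : y ∈ MulAut.conj g • Q := memK.2 (by rw [← gz]; simpa [mul_assoc] using h.zQ)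
  have nw : jj z ι y vw ∉ MulAut.conj g • Q := fun k => h.nAK yA yZ (Y.AK' zK yK k)
  have key : ∀ w ∈ Q, g⁻¹ * w * g ∈ Q → w ∉ AA Q ι → ι (-1) * w * (ι (-1))⁻¹ = w⁻¹ →
      w * ι slX * w⁻¹ = ι slX * y ∨ w⁻¹ * ι slX * w⁻¹⁻¹ = ι slX * y := fun w wQ wK wA uw => by
    obtain ⟨k1, k2⟩ := h.xw yA wQ wK
    obtain ⟨v, hv, ev⟩ := Y.surA k1
    have cy : w * y = y * w := gz ▸ h.czK wK
    have cz := h.Qz w wQ
    have e1 : w * ι slX * w⁻¹ = jj z ι y (v + vx) := by rw [Y.add, ← ev, jx]; group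
    have e2 : w⁻¹ * ι slX * w⁻¹⁻¹ = jj z ι y (mU (v + vx)) := by
      rw [← Y.ju, ← e1]
      calc _ = ι (-1) * w * (ι (-1))⁻¹ * ι slX * (ι (-1) * w * (ι (-1))⁻¹)⁻¹ := by rw [uw]
        _ = ι (-1) * w * ((ι (-1))⁻¹ * (ι slX * ι (-1))) * w⁻¹ * (ι (-1))⁻¹ := by group
        _ = _ := by rw [← ux]; group
    rcases (by decide +kernel : ∀ v, γc v = 0 → (∃ a b c : Fin 3,
        vw = a.val • vz + b.val • vy + c.val • v) ∨ (∃ a : Fin 3, v = a.val • vz) ∨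
        v + vx = vx + vy ∨ mU (v + vx) = vx + vy ∨ ((∃ a b : Fin 3, v = a.val • vz + b.val • vy) ∧
        vx ≠ mU (v + vx) + v)) v hv with ⟨a, b, c, k⟩ | k | k | k | ⟨⟨a, b, k⟩, k'⟩
    · refine absurd ?_ nw
      rw [k, Y.add, Y.add, Y.nsm, Y.nsm, Y.nsm, jz, jy, ← ev]
      exact mul_mem (mul_mem (pow_mem zK _) (pow_mem yK _)) (pow_mem k2 _)
    · refine absurd (h.fix w wQ (inv_mem_iff.1 ?_)) wA
      convert Y.jZ.2 k using 1; rw [← ev]; group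
    · exact Or.inl (by rw [e1, k, Y.add, jx, jy])
    · exact Or.inr (by rw [e2, k, Y.add, jx, jy])
    · refine absurd (Y.inj' ?_) k'
      have c : Commute w (jj z ι y v) := by
        rw [k, Y.add, Y.nsm, Y.nsm, jz, jy]
        exact (Commute.pow_right cz _).mul_right (Commute.pow_right cy _)
      rw [Y.add, ← e2, jx]
      calc ι slX = w⁻¹ * (w * ι slX * w⁻¹) * w := by group
        _ = w⁻¹ * ι slX * (jj z ι y v * w) := by rw [e1, add_comm, Y.add, jx]; group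
        _ = _ := by rw [← c.eq]; group
  obtain ⟨w, wQ, wK, wA, wx⟩ : ∃ w ∈ Q, g⁻¹ * w * g ∈ Q ∧ w ∉ AA Q ι ∧
      w * ι slX * w⁻¹ = ι slX * y := by
    obtain ⟨w0, b1, b2, b3⟩ := h.exw yA yZ
    obtain ⟨c, hc, uw⟩ := h.adj b1
    have b4 := mul_mem b1 (h.ZQ hc)
    have b5 := memK.1 (mul_mem (memK.2 b2) (zpowers_le.2 zK hc))
    have b6 : w0 * c ∉ AA Q ι := fun k => b3 (by simpa using mul_mem k (inv_mem (h.ZA hc)))
    rcases key _ b4 b5 b6 uw with k | k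
    · exact ⟨_, b4, b5, b6, k⟩
    · exact ⟨_, inv_mem b4, memK.1 (inv_mem (memK.2 b5)), fun k => b6 (inv_mem_iff.1 k), k⟩
  have G0 : ∀ c, w * (ι slF * y * (ι slF)⁻¹) * (w⁻¹) * (ι slF * y * (ι slF)⁻¹)⁻¹ = c →
      Gd z Q ι y g w c := fun c e => { Y with
    gN := gN, gz := gz, wQ := wQ, wK := wK, wx := wx
    ww := by
      rw [comm_of_zp (h.Qz _ (memA.1 (h.dA Y.yA)).1) (e ▸ h.QQ _ wQ _ (memA.1 (h.dA Y.yA)).1), ← e]
      group }
  rcases (mem_zp3 h.z3).1 (h.QQ _ wQ _ (memA.1 (h.dA Y.yA)).1) with e | e | e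
  · refine absurd (h.cAQ w wQ fun a ha => (mem_centralizer_singleton_iff.1
      (Y.AK' (K := centralizer {w}) ?_ ?_ ?_ ha)).symm) wA <;> rw [mem_centralizer_singleton_iff]
    · exact (h.Qz w wQ).symm
    · exact (gz ▸ h.czK wK).symm
    · rw [jw]; rw [mul_inv_eq_one, mul_inv_eq_iff_eq_mul] at e; exact e.symm
  · have G1 := G0 _ e
    have dz : ι slF * z * (ι slF)⁻¹ = z := by rw [h.ιz, mul_inv_cancel_right]
    have dy : ι slF * (ι slF * y * (ι slF)⁻¹) * (ι slF)⁻¹ = y⁻¹ := by rw [← Y.uy, ← dd2]; group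
    refine ⟨ι slF * y * (ι slF)⁻¹, ι slF * g, ι slF * w⁻¹ * (ι slF)⁻¹, { h with
      yA := h.dA Y.yA, yZ := fun k => Y.yZ (cjZ (h.ιz _) k), uy := ?_
      gN := mul_mem (mem_normalizer_fintype fun r hr => ?_) gN, gz := by rw [← gz]; group
      wQ := h.ιn _ (inv_mem wQ), wK := by simpa [mul_assoc] using inv_mem wK, wx := ?_, ww := ?_ }⟩
    · calc _ = ι slF * (ι slF * (ι slF * y * (ι slF)⁻¹) * (ι slF)⁻¹) * (ι slF)⁻¹ := by
            rw [← dd2]; group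
        _ = _ := by rw [dy]; group
    · obtain ⟨v, rfl⟩ := Y.sur hr
      exact Y.jd v ▸ Y.jJ _
    · have cy : Commute w y := gz ▸ h.czK wK
      have cx : Commute y (ι slX) := (memA.1 Y.yA).2
      have k : w⁻¹ * (ι slX)⁻¹ * w = (ι slX)⁻¹ * y := by
        calc _ = w⁻¹ * (y * (ι slX * y)⁻¹) * w := by group
          _ = (w⁻¹ * y * w) * (ι slX)⁻¹ := by rw [← wx]; group
          _ = _ := by rw [mul_assoc w⁻¹, ← cy.eq, inv_mul_cancel_left, cx.inv_right.eq]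
      calc _ = ι slF * w⁻¹ * (ι slF)⁻¹ * (ι slF * ι slX * (ι slF)⁻¹)⁻¹ *
            (ι slF * w⁻¹ * (ι slF)⁻¹)⁻¹ := by rw [dx, inv_inv]
        _ = ι slF * (w⁻¹ * (ι slX)⁻¹ * w) * (ι slF)⁻¹ := by group
        _ = (ι slF * ι slX * (ι slF)⁻¹)⁻¹ * (ι slF * y * (ι slF)⁻¹) := by rw [k]; group
        _ = _ := by rw [dx, inv_inv]
    · have k : w⁻¹ * (ι slF * y * (ι slF)⁻¹) * w = ι slF * y * (ι slF)⁻¹ * z⁻¹ := by
        calc _ = w⁻¹ * (ι slF * y * (ι slF)⁻¹ * z) * (z⁻¹ * w) := by group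
          _ = _ := by rw [← G1.ww, ← (Commute.inv_right (h.Qz w wQ)).eq]; group
      calc _ = ι slF * (w⁻¹ * (ι slF * y * (ι slF)⁻¹) * w) * (ι slF)⁻¹ := by group
        _ = ι slF * (ι slF * y * (ι slF)⁻¹) * (ι slF)⁻¹ * (ι slF * z * (ι slF)⁻¹)⁻¹ := by
          rw [k]; group
        _ = _ := by rw [dz]
  · exact ⟨y, g, w, G0 _ e⟩

end Cfsg.Agent.H99.HN
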