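import Cfsg.Agent.H99.HNGeoB

/-! The quadric in `J`. -/

set_option autoImplicit false

universe u

namespace Cfsg.Agent.H99.HN

open Cfsg Subgroup Equiv
open Cfsg.Agent.H91 (SL25 slX slY)
open Cfsg.Agent.H67.T3 (slF slF_X slF_sq mem_zp3 comm_of_zp)
open scoped Pointwise

variable {G : Type u} [Group G] {z : G} {Q : Subgroup G} {ι : SL25 →* G} {y g w : G}

theorem act_iter {j : W4 → G} {n : G} {M : W4 → W4} (h : ∀ v, n * j v * n⁻¹ = j (M v)) (k : ℕ)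
    (v : W4) : n ^ k * j v * (n ^ k)⁻¹ = j (M^[k] v) := by
  induction k generalizing v with
  | zero => simp
  | succ k ih => rw [Function.iterate_succ_apply, ← ih, ← h, pow_succ]; group

theorem cj_of {j : W4 → G} {n : G} {v v' : W4} (h : IsConj z (j v)) (e : n * j v * n⁻¹ = j v') :
    IsConj z (j v') := h.trans (isConj_iff.2 ⟨n, e⟩)

namespace Gd

variable (h : Gd z Q ι y g w z⁻¹)
include h

theorem r1 (v : W4) : w * jj z ι y v * w⁻¹ = jj z ι y (mR v) :=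
  h.toY0.act mR_add (by rw [show mR vz = vz by decide, jz, h.Qz w h.wQ, mul_inv_cancel_right])
    (by rw [show mR vy = vy by decide, jy, mul_inv_eq_iff_eq_mul]; exact h.gz ▸ h.toT1.czK h.wK)
    (by rw [show mR vw = vw - vz by decide, h.toY0.sub, jw, jz, h.ww])
    (by rw [show mR vx = vx + vy by decide, h.toY0.add, jx, jy, h.wx]) v

theorem r1' (v : W4) :
    ι slF * w * (ι slF)⁻¹ * jj z ι y v * (ι slF * w * (ι slF)⁻¹)⁻¹ = jj z ι y (mR' v) := by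
  rw [mR', ← h.toY0.jd, ← h.r1]
  conv_lhs => rw [(by decide +kernel : ∀ v, v = mD (mD (mD (mD v)))) v, ← h.toY0.jd]
  group

theorem exQ (a b : Fin 3) : ∃ q ∈ Q, ∀ v, q * jj z ι y v * q⁻¹ = jj z ι y (mQ a b v) :=
  ⟨w ^ a.val * (ι slF * w * (ι slF)⁻¹) ^ b.val,
    mul_mem (pow_mem h.wQ _) (pow_mem (h.toT1.ιn _ h.wQ) _), fun v => by
      rw [mQ, ← act_iter h.r1, ← act_iter h.r1']; group⟩

theorem Tneg {v : W4} (k : IsConj z (jj z ι y v)) : IsConj z (jj z ι y (-v)) := by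
  obtain ⟨c, e⟩ := isConj_iff.1 k
  refine isConj_iff.2 ⟨c * g⁻¹ * ι (-1) * g, ?_⟩
  calc _ = c * g⁻¹ * (ι (-1) * (g * z * g⁻¹) * (ι (-1))⁻¹) * g * c⁻¹ := by group
    _ = _ := by rw [h.toY0.neg, ← e, h.gz, h.uy, ← h.gz]; group

theorem TQ (a b : Fin 3) {v : W4} (k : IsConj z (jj z ι y v)) : IsConj z (jj z ι y (mQ a b v)) := by
  obtain ⟨q, -, e⟩ := h.exQ a b
  exact cj_of k (e v)

theorem TD {v : W4} (k : IsConj z (jj z ι y v)) : IsConj z (jj z ι y (mD v)) :=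
  cj_of k (h.toY0.jd v)

theorem Ty : IsConj z (jj z ι y vy) := isConj_iff.2 ⟨g, by rw [jy, h.gz]⟩

theorem Tw : IsConj z (jj z ι y vw) := (show mD vy = vw by decide) ▸ h.TD h.Ty

theorem yK : y ∈ MulAut.conj g • Q := memK.2 (by rw [← h.gz]; simpa [mul_assoc] using h.zQ)

theorem uK {a : G} (ha : a ∈ MulAut.conj g • Q) :
    ι (-1) * a * (ι (-1))⁻¹ ∈ MulAut.conj g • Q := by
  have := h.nQ (g⁻¹ * ι (-1) * g) (by
    rw [show g⁻¹ * ι (-1) * g * z * (g⁻¹ * ι (-1) * g)⁻¹ =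
      g⁻¹ * (ι (-1) * (g * z * g⁻¹) * (ι (-1))⁻¹) * g by group, h.gz, h.uy, ← h.gz]
    simp [mul_assoc]) _ (memK.1 ha)
  rw [memK]; convert this using 1; group

variable [Finite G]

theorem zK : z ∈ MulAut.conj g • Q := memK.2 (h.toT1.sym (h.gz ▸ (memA.1 h.yA).1))

theorem Qact {q : G} (hq : q ∈ Q) : ∃ a b, ∀ v, q * jj z ι y v * q⁻¹ = jj z ι y (mQ a b v) := by
  obtain ⟨v', e⟩ := h.toY0.sur (h.toT1.QJ hq T1.xJ)
  obtain ⟨a, b, k⟩ := (by decide +kernel : ∀ v', γc (vx - v') = 0 → ∃ a b s : Fin 3,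
    mQ a b vx - v' = s.val • vz) v' (h.toY0.jQ.1 (by
      rw [h.toY0.sub, ← e, jx]; convert (memA.1 (h.quad q hq)).1 using 1; group))
  obtain ⟨q0, h0, e0⟩ := h.exQ a b
  have k1 := h.toY0.jZ.2 k
  rw [h.toY0.sub, ← e0, ← e, jx] at k1
  have k2 : q0⁻¹ * q ∈ AA Q ι := h.fix _ (mul_mem (inv_mem h0) hq) (cjZ (h.Qz _ h0) (by
    convert k1 using 1; group))
  refine ⟨a, b, fun v => ?_⟩
  calc _ = q0 * (q0⁻¹ * q * jj z ι y v) * q⁻¹ := by group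
    _ = _ := by rw [← memJ.1 (h.toY0.jJ v) _ k2, ← e0]; group

theorem ty0 {v : W4} (k : IsConj z (jj z ι y v)) (hv : γc v = 0) : qf v = 0 := by
  by_contra c
  obtain ⟨n, e⟩ := isConj_iff.1 k
  have nA : n * z * n⁻¹ ∈ AA Q ι := e ▸ h.toY0.jA0 hv
  have nZ : n * z * n⁻¹ ∉ zpowers z := fun k => by
    obtain ⟨s, rfl⟩ := h.toY0.jZ.1 (e ▸ k)
    exact c ((by decide : ∀ s : Fin 3, qf (s.val • vz) = 0) s)
  obtain ⟨r, rQ, rK, rA⟩ := h.toT1.exw nA nZ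
  obtain ⟨a, b, er⟩ := h.Qact rQ
  have k1 := (h.toT1.xw nA rQ rK).2
  rw [← jx (z := z) (y := y), er, ← h.toY0.sub] at k1
  have k2 : z ∈ MulAut.conj n • Q := memK.2 (h.toT1.sym (memA.1 nA).1)
  have k3 : jj z ι y v ∈ MulAut.conj n • Q :=
    memK.2 (by rw [← e]; simpa [mul_assoc] using h.zQ)
  have k4 : ∀ t, (∃ i j k : Fin 3, t = i.val • vz + j.val • v + k.val • (mQ a b vx - vx)) →
      jj z ι y t ∈ MulAut.conj n • Q := by
    rintro t ⟨i, j, k, rfl⟩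
    rw [h.toY0.add, h.toY0.add, h.toY0.nsm, h.toY0.nsm, h.toY0.nsm, jz]
    exact mul_mem (mul_mem (pow_mem k2 _) (pow_mem k3 _)) (pow_mem k1 _)
  rcases (by decide +kernel : ∀ v, γc v = 0 → qf v ≠ 0 → ∀ a b, mQ a b v = v → mQ a b vx = vx ∨
      (∃ i j k : Fin 3, vy = i.val • vz + j.val • v + k.val • (mQ a b vx - vx)) ∧
      ∃ i j k : Fin 3, vw = i.val • vz + j.val • v + k.val • (mQ a b vx - vx)) v hv c a b
      (h.toY0.inj' (by rw [← er, ← e, h.toT1.czK rK, mul_inv_cancel_right])) with e1 | ⟨e1, e2⟩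
  · have := er vx
    rw [e1, jx, mul_inv_eq_iff_eq_mul] at this
    exact rA (memA.2 ⟨rQ, this⟩)
  · exact h.toT1.nAK nA nZ (h.toY0.AK' k2 (jy (z := z) (ι := ι) (y := y) ▸ k4 _ e1) (k4 _ e2))

theorem exp : ∃ v, IsConj z (jj z ι y v) ∧ jj z ι y v ∈ MulAut.conj g • Q ∧ γc v ≠ 0 := by
  by_contra c
  push Not at c
  have k : ∀ v, IsConj z (jj z ι y v) → γc v = 0 →
      jj z ι y v ∈ MulAut.conj g⁻¹ • AA Q ι := fun v h1 h2 => by
    obtain ⟨v', e⟩ := h.toY0.sur ((mem_normalizer_iff.1 h.gN _).1 (h.toY0.jJ v))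
    rw [memK, inv_inv, e]
    exact h.toY0.jA0 (c v' (cj_of h1 e) (memK.2 (by
      rw [← e]; simpa [mul_assoc] using h.toY0.jQ.2 h2)))
  have k1 := h.toY0.AK' (K := MulAut.conj g⁻¹ • AA Q ι)
    (by rw [memK, inv_inv, h.gz]; exact h.yA)
    (jy (z := z) (ι := ι) (y := y) ▸ k _ h.Ty (by decide)) (k _ h.Tw (by decide))
  have k2 : g ∈ normalizer (AA Q ι : Set G) := mem_normalizer_fintype fun a ha => by
    have := memK.1 (k1 ha)
    rwa [inv_inv] at this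
  exact h.toT1.nAK (h.gz ▸ h.yA) (h.gz ▸ h.yZ) fun a ha =>
    memK.2 (memA.1 ((mem_normalizer_iff''.1 k2 _).1 ha)).1

theorem xK : ι slX ∈ MulAut.conj g • Q := by
  obtain ⟨v, -, h1, h2⟩ := h.exp
  obtain ⟨i, k, e⟩ := (by decide +kernel : ∀ v, γc v ≠ 0 → ∃ i k : Fin 3,
    vx = i.val • vz + k.val • (v + mU v)) v h2
  rw [← jx (z := z) (y := y), e, h.toY0.add, h.toY0.nsm, h.toY0.nsm, h.toY0.add, jz, ← h.toY0.ju]
  exact mul_mem (pow_mem h.zK _) (pow_mem (mul_mem h1 (h.uK h1)) _)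

theorem no3 : ¬ IsConj z (jj z ι y (vx + vz)) := fun c => by
  choose N hN using fun v => h.toY0.sur ((mem_normalizer_iff''.1 h.gN _).1 (h.toY0.jJ v))
  have Na : ∀ v w, N (v + w) = N v + N w := fun v w =>
    h.toY0.inj' (by rw [h.toY0.add, ← hN, ← hN, ← hN, h.toY0.add]; group)
  have Ns : ∀ (n : ℕ) v, N (n • v) = n • N v := fun n v =>
    h.toY0.inj' (by rw [h.toY0.nsm, ← hN, ← hN, h.toY0.nsm]; simpa using conj_pow (a := g⁻¹) |>.symm)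
  have Ni : ∀ v w, N v = N w → v = w := fun v w e => h.toY0.inj' (by
    have := hN v
    rwa [e, ← hN, mul_left_inj, mul_right_inj] at this)
  have Ny : vz = N vy := h.toY0.inj' (by rw [← hN, jz, jy, ← h.gz]; group)
  have k : ∀ v, IsConj z (jj z ι y v) → jj z ι y v ∈ MulAut.conj g • Q →
      γc (N v) = 0 ∧ qf (N v) = 0 := fun v h1 h2 => by
    have := h.toY0.jQ.1 (hN v ▸ memK.1 h2)
    exact ⟨this, h.ty0 (cj_of (n := g⁻¹) h1 (by rw [inv_inv, hN])) this⟩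
  have m1 : jj z ι y vz ∈ MulAut.conj g • Q := by rw [jz]; exact h.zK
  have m2 : jj z ι y (vx + vz) ∈ MulAut.conj g • Q := by
    rw [h.toY0.add, jx]; exact mul_mem h.xK m1
  have k1 := k vz (by rw [jz]) m1
  have k2 := k _ c m2
  have k3 := k (vx + vz + vz) ((show -mD (vx + vz) = vx + vz + vz by decide) ▸ h.Tneg (h.TD c))
    (by rw [h.toY0.add]; exact mul_mem m2 m1)
  rw [Na] at k3
  rcases (by decide +kernel : ∀ a, γc a = 0 → qf a = 0 → ∀ b, γc b = 0 → qf b = 0 →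
      qf (b + a) = 0 → (∃ i : Fin 3, a = i.val • vz) ∨ ∃ i k : Fin 3, b = i.val • vz + k.val • a)
      _ k1.1 k1.2 _ k2.1 k2.2 k3.2 with ⟨i, e⟩ | ⟨i, l, e⟩
  · nth_rw 2 [Ny] at e
    rw [← Ns] at e
    exact (by decide : ∀ i : Fin 3, vz ≠ i.val • vy) i (Ni _ _ e)
  · nth_rw 2 [Ny] at e
    rw [← Ns, ← Ns, ← Na] at e
    exact (by decide : ∀ i l : Fin 3, vx + vz ≠ i.val • vy + l.val • vz) i l (Ni _ _ e)

theorem ty {v : W4} (k : IsConj z (jj z ι y v)) : qf v = 0 := by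
  by_cases hv : γc v = 0
  · exact h.ty0 k hv
  by_contra c
  obtain ⟨a, b, e | e | e | e⟩ := (by decide +kernel : ∀ v, γc v ≠ 0 → qf v ≠ 0 → ∃ a b,
    mQ a b v = vx + vz ∨ -mQ a b v = vx + vz ∨ mD (mQ a b v) = vx + vz ∨
      -mD (mQ a b v) = vx + vz) v hv c <;> refine h.no3 (e ▸ ?_)
  exacts [h.TQ a b k, h.Tneg (h.TQ a b k), h.TD (h.TQ a b k), h.Tneg (h.TD (h.TQ a b k))]

theorem Tx : IsConj z (ι slX) := by
  obtain ⟨v, h1, -, h2⟩ := h.exp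
  rw [← jx (z := z) (y := y)]
  obtain ⟨a, b, e | e⟩ := (by decide +kernel : ∀ v, γc v ≠ 0 → qf v = 0 → ∃ a b,
    mQ a b v = vx ∨ -mQ a b v = vx) v h2 (h.ty h1) <;> rw [← e]
  exacts [h.TQ a b h1, h.Tneg (h.TQ a b h1)]

theorem r2 : ∃ r, ∀ v, r * jj z ι y v * r⁻¹ = jj z ι y (mS v) := by
  obtain ⟨m0, e0⟩ := isConj_iff.1 h.Tx
  obtain ⟨m, mN, e⟩ := h.toT1.fus (g := m0) (e0 ▸ T1.xJ)
  rw [e0] at e
  have k : ∀ n, n⁻¹ * ι slX * n ∈ Q → m⁻¹ * (n * z * n⁻¹) * m ∈ Q := fun n hn => by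
    have := h.toT1.sym (g := n⁻¹ * m) (by convert hn using 1; rw [← e]; group)
    convert this using 1; group
  have k1 := k g (memK.1 h.xK)
  have k2 := k (ι slF * g) (by
    have := memK.1 (inv_mem h.xK)
    rw [show (ι slX)⁻¹ = (ι slF)⁻¹ * (ι slF * ι slX * (ι slF)⁻¹)⁻¹⁻¹⁻¹ * ι slF by group, dx] at this
    convert this using 1; group)
  rw [show ι slF * g * z * (ι slF * g)⁻¹ = jj z ι y vw by rw [jw, ← h.gz]; group] at k2
  have e1 : m⁻¹ * g * z * (m⁻¹ * g)⁻¹ = m⁻¹ * y * m := by rw [← h.gz]; group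
  rw [h.gz] at k1
  obtain ⟨w0, a1, a2, a3⟩ := h.toT1.exw (g := m⁻¹ * g)
    (e1 ▸ h.toT1.JQ ((mem_normalizer_iff''.1 mN _).1 (h.toT1.AJ h.yA)) k1) (e1 ▸ fun c => by
      have : y ∈ zpowers (jj z ι y vx) := by
        obtain ⟨n, hn⟩ := c
        refine ⟨n, ?_⟩
        show jj z ι y vx ^ n = y
        rw [jx, ← e, conj_zpow, show z ^ n = _ from hn]; group
      obtain ⟨s, hs⟩ := h.toY0.zp this
      exact (by decide : ∀ s : Fin 3, vy ≠ s.val • vx) s (h.toY0.inj' (jy.trans hs)))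
  have b1 : m⁻¹ * (m * w0 * m⁻¹) * m ∈ Q := by simpa [mul_assoc] using a1
  have b2 : g⁻¹ * (m * w0 * m⁻¹) * g ∈ Q := by simpa [mul_assoc] using a2
  have b3 : ¬ ∀ v, m * w0 * m⁻¹ * jj z ι y v * (m * w0 * m⁻¹)⁻¹ = jj z ι y v := fun c =>
    a3 (h.cAQ _ a1 fun a ha => by
      obtain ⟨v, ev⟩ := h.toY0.sur ((mem_normalizer_iff.1 mN _).1 (h.toT1.AJ ha))
      exact cj_comm (g := m) (by rw [ev, ← mul_inv_eq_iff_eq_mul, c]))
  generalize m * w0 * m⁻¹ = r at b1 b2 b3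
  have c1 := h.toT1.cmK b2 (memK.1 h.zK)
  have c2 := h.toT1.cmK b1 k2
  rw [h.gz, ← jy (z := z) (ι := ι) (y := y)] at c1
  rw [e, ← jx (z := z) (y := y)] at c2
  obtain ⟨s, hs⟩ := h.toY0.zp c1
  obtain ⟨t, ht⟩ := h.toY0.zp c2
  have er := h.toY0.act (n := r) (mT_add s t)
    (by rw [(by decide : ∀ s t, mT s t vz = s.val • vy + vz), h.toY0.add, ← hs, jz]; group)
    (by rw [(by decide : ∀ s t, mT s t vy = vy), jy, mul_inv_eq_iff_eq_mul]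
        exact h.gz ▸ h.toT1.czK b2)
    (by rw [(by decide : ∀ s t, mT s t vw = t.val • vx + vw), h.toY0.add, ← ht]; group)
    (by rw [(by decide : ∀ s t, mT s t vx = vx), jx, mul_inv_eq_iff_eq_mul]
        exact e ▸ h.toT1.czK b1)
  have q0 := h.ty (cj_of ((show mQ 1 0 (-vw) = vz - vw by decide) ▸ h.TQ 1 0 (h.Tneg h.Tw)) (er _))
  rcases (by decide +kernel : ∀ s t, qf (mT s t (vz - vw)) = 0 → (∀ v, mT s t v = v) ∨
    (∀ v, mT s t v = mS v) ∨ ∀ v, (mT s t)^[2] v = mS v) s t q0 with c | c | c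
  · exact absurd (fun v => by rw [er, c]) b3
  · exact ⟨r, fun v => by rw [er, c]⟩
  · exact ⟨r ^ 2, fun v => by rw [act_iter er, c]⟩

end Gd

theorem s3 : S3Stmt.{u} := fun G _ _ z Q ι h => by
  obtain ⟨y, g, w, k⟩ := h.exGd
  exact ⟨jj z ι y, k.toY0.add, k.toY0.inj, jz, jx, fun _ => k.toY0.jQ,
    fun a ha => k.toY0.sur (h.AJ ha), fun r hr => k.toY0.sur (memJ.2 hr),
    fun q hq v => k.toY0.sur (h.QJ hq (k.toY0.jJ v)), k.toY0.jd, fun _ => k.ty,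
    ⟨g, w, k.gz.trans jy.symm, k.wQ, k.wK, k.r1⟩, k.r2, fun _ => h.sym, fun _ => h.d0⟩

end Cfsg.Agent.H99.HN
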