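import Cfsg.Agent.H99.HNDefs

/-! Interfaces for the piece SET of the recognition of `HN`; proofs in `stubs/notes/h99_hn.md`. -/

set_option autoImplicit false

universe u

namespace Cfsg.Agent.H99.HN

open Cfsg Subgroup Equiv
open Cfsg.Agent.H91 (SL25 slX slY)
open Cfsg.Agent.H67.T3 (slF)
open scoped Pointwise

variable {G : Type u} [Group G]

/-- The structure of `C(z)`. -/
structure T0 (z : G) (Q : Subgroup G) (ι : SL25 →* G) : Prop where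
  z3 : z ^ 3 = 1
  z1 : z ≠ 1
  zQ : z ∈ Q
  cQ : Nat.card Q = 243
  Qe : ∀ a ∈ Q, a ^ 3 = 1
  Qz : ∀ a ∈ Q, a * z = z * a
  QQ : ∀ a ∈ Q, ∀ b ∈ Q, a * b * a⁻¹ * b⁻¹ ∈ zpowers z
  QZ : ∀ a ∈ Q, (∀ b ∈ Q, a * b = b * a) → a ∈ zpowers z
  nQ : ∀ g, g * z * g⁻¹ ∈ zpowers z → ∀ q ∈ Q, g * q * g⁻¹ ∈ Q
  ιz : ∀ k, ι k * z = z * ι k
  ιQ : ∀ k, ι k ∈ Q → k = 1
  dec : ∀ r, r * z = z * r → ∃ q ∈ Q, ∃ k, r = q * ι k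
  inv : ∀ q ∈ Q, ι (-1) * q * (ι (-1))⁻¹ * q ∈ zpowers z
  syl : ∃ S : Sylow 3 G, (S : Subgroup G) ⊓ centralizer ((S : Subgroup G) : Set G) = zpowers z
  ex : ∃ g, g * z * g⁻¹ ∈ Q ∧ g * z * g⁻¹ ∉ zpowers z

/-- the subgroup `A = C_Q(x)` -/
def AA (Q : Subgroup G) (ι : SL25 →* G) : Subgroup G := Q ⊓ centralizer {ι slX}

/-- The module `Q / ⟨z⟩`. -/
structure T1 (z : G) (Q : Subgroup G) (ι : SL25 →* G) : Prop extends T0 z Q ι where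
  cA : Nat.card (AA Q ι) = 27
  Ac : ∀ a ∈ AA Q ι, ∀ b ∈ AA Q ι, a * b = b * a
  cAQ : ∀ q ∈ Q, (∀ a ∈ AA Q ι, q * a = a * q) → q ∈ AA Q ι
  fix : ∀ q ∈ Q, ι slX * q * (ι slX)⁻¹ * q⁻¹ ∈ zpowers z → q ∈ AA Q ι
  quad : ∀ q ∈ Q, ι slX * q * (ι slX)⁻¹ * q⁻¹ ∈ AA Q ι
  stab : ∀ a ∈ AA Q ι, a ∉ zpowers z → ∀ k, ι k * a * (ι k)⁻¹ * a⁻¹ ∈ zpowers z →
    k ∈ zpowers slX
  cov : ∀ q ∈ Q, ∃ k, ι k * q * (ι k)⁻¹ ∈ AA Q ι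
  cq : ∀ q ∈ Q, q ∉ zpowers z → Nat.card (Q ⊓ centralizer {q} : Subgroup G) = 81
  ab : ∀ B : Subgroup G, B ≤ Q → (∀ a ∈ B, ∀ b ∈ B, a * b = b * a) → Nat.card B ≤ 27

/-- the quadratic form -/
def qf (v : W4) : ZMod 3 := v 0 * v 0 + v 1 * v 1 + v 2 * v 2 + v 3 * v 3
/-- the action of `d` -/
def mD (v : W4) : W4 := ![v 2 + v 3, v 3 - v 2, v 0 - v 1, -v 0 - v 1]
/-- the root element of the line through `z` and `y₁` -/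
def mR (v : W4) : W4 :=
  ![v 0 - v 1 - v 2 + v 3, v 0 + v 1 - v 2 - v 3, v 0 + v 1 + v 2 + v 3, -v 0 + v 1 - v 2 + v 3]
/-- the root element of the line through `x` and `y₁` -/
def mS (v : W4) : W4 :=
  ![v 0 - v 1 - v 2 - v 3, v 0 + v 1 - v 2 + v 3, v 0 + v 1 + v 2 - v 3, v 0 - v 1 + v 2 + v 3]

/-- The geometry of `J`. -/
structure Geo (z : G) (Q : Subgroup G) (ι : SL25 →* G) (j : W4 → G) : Prop where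
  add : ∀ v w, j (v + w) = j v * j w
  inj : ∀ v, j v = 1 → v = 0
  jz : j ![1, 1, 0, 1] = z
  jx : j ![1, 1, 0, -1] = ι slX
  jQ : ∀ v, j v ∈ Q ↔ v 0 + v 1 + v 3 = 0
  jA : ∀ a ∈ AA Q ι, ∃ v, a = j v
  cA : ∀ g, (∀ a ∈ AA Q ι, g * a = a * g) → ∃ v, g = j v
  QN : ∀ q ∈ Q, NJ j q
  jd : ∀ v, ι slF * j v * (ι slF)⁻¹ = j (mD v)
  ty : ∀ v, IsConj z (j v) → qf v = 0
  r1 : ∃ g w, g * z * g⁻¹ = j ![1, -1, 1, 0] ∧ w ∈ Q ∧ g⁻¹ * w * g ∈ Q ∧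
    ∀ v, w * j v * w⁻¹ = j (mR v)
  r2 : ∃ w, ∀ v, w * j v * w⁻¹ = j (mS v)
  sym : ∀ g, g * z * g⁻¹ ∈ Q → g⁻¹ * z * g ∈ Q
  d0 : ∀ g, g * z * g⁻¹ ∈ Q → g * z * g⁻¹ ∉ zpowers z →
    Nat.card (Q ⊓ MulAut.conj g • Q : Subgroup G) = 27

/-- The action of `N(J)`. -/
structure Mon (j : W4 → G) (ι : SL25 →* G) : Prop where
  cJ : ∀ g, (∀ v, g * j v = j v * g) → ∃ v, g = j v
  exM : ∀ ε σ, Det1 ε σ → ∃ n, ∀ v, n * j v * n⁻¹ = j (ε * v ∘ σ)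
  stab : ∀ n, NJ j n → n * j ![0, 0, 0, 1] = j ![0, 0, 0, 1] * n →
    ∃ ε σ, Det1 ε σ ∧ ∀ v, n * j v * n⁻¹ = j (ε * v ∘ σ)
  ιu : ∀ v, ι (-1) * j v * (ι (-1))⁻¹ = j ![v 1, v 0, -v 2, v 3]
  dec : ∀ r, r * j ![1, 1, 0, 1] = j ![1, 1, 0, 1] * r → r * ι (-1) = ι (-1) * r →
    ∃ (i : ℕ) (k : SL25), r = j ![1, 1, 0, 1] ^ i * ι k
  nc : ¬ IsConj (j ![0, 0, 0, 1]) (j ![1, 1, 0, 1])
  tz : ∀ v, v ≠ 0 → qf v = 0 → ∃ n, NJ j n ∧ NJ j n⁻¹ ∧ n * j ![1, 1, 0, 1] * n⁻¹ = j v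
  te : ∀ v, qf v ≠ 0 → ∃ n, NJ j n ∧ NJ j n⁻¹ ∧ n * j v * n⁻¹ = j ![0, 0, 0, 1]

/-- Piece S1. -/
def S1Stmt : Prop := RowImp.{u} fun G _ => ∃ (z : G) (Q : Subgroup G) (ι : SL25 →* G), T0 z Q ι
/-- Piece S2. -/
def S2Stmt : Prop := ∀ (G : Type u) [Group G] [Finite G] (z : G) (Q : Subgroup G)
  (ι : SL25 →* G), T0 z Q ι → T1 z Q ι
/-- Piece S3. -/
def S3Stmt : Prop := ∀ (G : Type u) [Group G] [Finite G] (z : G) (Q : Subgroup G)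
  (ι : SL25 →* G), T1 z Q ι → ∃ j, Geo z Q ι j
/-- Piece S4. -/
def S4Stmt : Prop := ∀ (G : Type u) [Group G] [Finite G] (z : G) (Q : Subgroup G)
  (ι : SL25 →* G) (j : W4 → G), T1 z Q ι → Geo z Q ι j → Mon j ι
/-- Piece S5. -/
def S5Stmt : Prop := ∀ (G : Type u) [Group G] [Finite G] (z : G) (Q : Subgroup G)
  (ι : SL25 →* G) (j : W4 → G), T1 z Q ι → Geo z Q ι j → Mon j ι →
  (∀ X : Subgroup G, (∀ v, j v ∈ normalizer (X : Set G)) → (Nat.card X).Coprime 3 → X = ⊥) ∧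
    IsSimpleGroup G
/-- Piece S6. -/
def S6Stmt : Prop := ∀ (G : Type u) [Group G] [Finite G] (z : G) (Q : Subgroup G)
  (ι : SL25 →* G) (j : W4 → G), T1 z Q ι → Geo z Q ι j → Mon j ι →
  ∃ y, y ^ 3 = 1 ∧ NJ j y ∧ (∀ v, y ≠ j v) ∧ y * j ![0, 0, 0, 1] = j ![0, 0, 0, 1] * y ∧
    Nat.card (centralizer {j ![0, 0, 0, 1]} ⊓ centralizer {y} : Subgroup G) = 243

/-- The assembly of SET. -/
theorem set_of (h1 : S1Stmt.{u}) (h2 : S2Stmt.{u}) (h3 : S3Stmt.{u}) (h4 : S4Stmt.{u})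
    (h5 : S5Stmt.{u}) (h6 : S6Stmt.{u}) : SetStmt.{u} := by
  intro G _ _ S Z a1 C a2 Q a3 a4 a5 a6 a7 a8 a9
  obtain ⟨z, Q', ι, t0⟩ := h1 G S Z a1 C a2 Q a3 a4 a5 a6 a7 a8 a9
  have t1 := h2 G z Q' ι t0
  obtain ⟨j, g⟩ := h3 G z Q' ι t1
  have m := h4 G z Q' ι j t1 g
  obtain ⟨s1, s2⟩ := h5 G z Q' ι j t1 g m
  exact ⟨j, ι, g.add, g.inj, m.cJ, m.exM, m.stab, s1, h6 G z Q' ι j t1 g m,
    (injective_iff_map_eq_one ι).2 fun k e => t0.ιQ k (e ▸ one_mem _), g.jx.symm, m.ιu,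
    fun k => g.jz ▸ t0.ιz k, m.dec, m.nc, s2⟩

end Cfsg.Agent.H99.HN
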