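import Cfsg.Agent.H50.L81Defs
import Cfsg.Agent.H80.FvEnt

/-! Project L81: commuting elements have proportional coefficients. -/

set_option autoImplicit false

namespace Cfsg.Agent.H99.L81Exc

open Equiv Cfsg.Lie H37 H40 H34 H29 Module H82 H50.E83 H50.L81
open H42.Fv (al cp Sum2 Clo Pos Supp)
open scoped Matrix

theorem step {A : Set Rt} (hA : Pt A) {r s : Rt} (hr : r ∈ A) (h : ∀ s' ∈ A, ¬ Sum2 r s' s) (t : K)
    {v : V} (hv : Supp A v) :
    act (xx r t) v (Sum.inr s) = v (Sum.inr s) - (if s = r then t else 0) * al s v := by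
  obtain ⟨cf, hcf, he⟩ := H80.FvEnt.entS
  obtain ⟨-, l, hl, hp⟩ := hA
  have h3 : v (Sum.inr (C8.R.neg r)) = 0 := by
    by_contra e
    have h1 := hp _ (hv _ e)
    have h2 := hp _ hr
    have h4 : l (C8.R.neg r) = -l r := by
      rw [hl (C8.R.neg r), hl r, C8.R.rc_neg]
      simp
    omega
  have h4 : ∑ s', (cf r s' s : K) * t * v (Sum.inr s') = 0 := by
    refine Finset.sum_eq_zero fun s' _ => ?_
    by_cases e : cf r s' s = 0
    · rw [e, Int.cast_zero, zero_mul, zero_mul]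
    · by_cases e' : v (Sum.inr s') = 0
      · rw [e', mul_zero]
      · exact absurd (hcf _ _ _ e) (h s' (hv _ e'))
  rw [act_apply, H42.Fv.xg_eq, (he K r t _).2 s, h3, h4]
  split_ifs with e
  · rw [e]; ring
  · ring

theorem form (hA : AddStmt) {A : Set Rt} (hP : Pt A) {a b c : Rt} (hU : Uq A a b c) (hab : a ≠ b)
    {ε ε' : K} (h1 : ∀ (t : K) (v : V),
      act (xx a t) v (Sum.inr c) = v (Sum.inr c) + ε * t * v (Sum.inr b))
    (h2 : ∀ (t : K) (v : V), act (xx b t) v (Sum.inr c) = v (Sum.inr c) + ε' * t * v (Sum.inr a)) :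
    ∀ x ∈ P8.U A, ∃ (α β : K) (q : V → K), Cf A a x α ∧ Cf A b x β ∧ ∀ v, Supp A v →
      act x v (Sum.inr c) = v (Sum.inr c) + ε * α * v (Sum.inr b) + ε' * β * v (Sum.inr a) +
        q (cp v) := by
  obtain ⟨a1, -, -, a4⟩ := hA A hP
  refine Split.U_ind_left ⟨0, 0, 0, fun v _ => by simp, fun v _ => by simp, fun v _ => by simp⟩ ?_
  rintro r hr x hx g hg ⟨α, β, q, ca, cb, hq⟩
  obtain ⟨t, rfl⟩ := Cert.mem_X.1 hx
  have k : ∀ s ∈ Ind A, Cf A s (xx r t) (if s = r then t else 0) := fun s hs v hv =>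
    step hP hr (fun s' hs' e => hs.2 ⟨r, hr, s', hs', e⟩) t hv
  have ka := a4 a _ _ g hg α (k a hU.1) ca
  have kb := a4 b _ _ g hg β (k b hU.2.1) cb
  by_cases ea : r = a
  · subst ea
    refine ⟨_, _, fun h => q h - ε * t * β * al b h, ka, kb, fun v hv => ?_⟩
    rw [H42.Fv.act_mul, h1, hq v hv, cb v hv, if_pos rfl, if_neg hab.symm]
    simp only [H42.Fv.al_cp]
    ring
  by_cases eb : r = b
  · subst eb
    refine ⟨_, _, fun h => q h - ε' * t * α * al a h, ka, kb, fun v hv => ?_⟩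
    rw [H42.Fv.act_mul, h2, hq v hv, ca v hv, if_pos rfl, if_neg hab]
    simp only [H42.Fv.al_cp]
    ring
  refine ⟨_, _, fun h => q h - (if c = r then t else 0) * al c h, ka, kb, fun v hv => ?_⟩
  rw [H42.Fv.act_mul, step hP hr (fun s' hs' e => (hU.2.2.2 r hr s' hs' e).elim ea eb) t
    (a1 g hg v hv).1, hq v hv, if_neg (Ne.symm ea), if_neg (Ne.symm eb), ← H42.Fv.al_cp c (act g v),
    (a1 g hg v hv).2]
  ring

theorem exc (hA : AddStmt) (hC : CfStmt) : ExcStmt := by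
  intro A hP a b c hU x hx y hy hxy α β α' β' ca cb ca' cb'
  obtain ⟨⟨ε, e0, h1⟩, h, hh, ha, hb⟩ := hC a b c hU.2.2.1
  obtain ⟨⟨ε', -, h2⟩, -⟩ := hC b a c (hU.2.2.1.trans (add_comm _ _))
  have hab : a ≠ b := fun e => hb (e ▸ ha)
  obtain ⟨a1, -, a3, -⟩ := hA A hP
  obtain ⟨_, _, q, c1, c2, hq⟩ := form hA hP hU hab h1 h2 x hx
  obtain ⟨_, _, q', c1', c2', hq'⟩ := form hA hP hU hab h1 h2 y hy
  obtain rfl := a3 _ _ _ _ ca c1
  obtain rfl := a3 _ _ _ _ cb c2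
  obtain rfl := a3 _ _ _ _ ca' c1'
  obtain rfl := a3 _ _ _ _ cb' c2'
  have hs : Supp A h := fun r e => absurd (hh r) e
  have e := congrArg (fun g => act g h (Sum.inr c)) hxy.eq
  simp only [H42.Fv.act_mul] at e
  rw [hq _ (a1 y hy h hs).1, hq' _ (a1 x hx h hs).1, (a1 y hy h hs).2, (a1 x hx h hs).2, hq h hs,
    hq' h hs, ca h hs, cb h hs, ca' h hs, cb' h hs, ha, hh a, hh b, hh c] at e
  have e2 : ε * al b h * (α * β') = ε * al b h * (α' * β) := by linear_combination -e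
  exact mul_left_cancel₀ (mul_ne_zero e0 hb) e2

end Cfsg.Agent.H99.L81Exc
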