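import Cfsg.Agent.S4549
import Cfsg.Agent.S4550
import Cfsg.Agent.H12.Central

/-! Two fixed characters of odd degree in the principal `2`-block. -/

set_option autoImplicit false

namespace Cfsg.Agent.H99.Sig2

open Cfsg Subgroup

variable {G : Type*} [Group G] [Finite G] {M : Ideal AlgInt}

/-- the fixed characters of odd degree -/
def Xs (M : Ideal AlgInt) (k : ℕ) (χ : IrrCharacter G) : Prop :=
  χ ∈ principalBlock M G ∧ Odd (charDegree (χ : G → ℂ)) ∧ ∀ g : G, (χ : G → ℂ) (g ^ k) = (χ : G → ℂ) g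

open Classical in
theorem sum_zero [Fintype (IrrCharacter G)] (hM : IsPModular 2 M) (hev : Even (Nat.card G)) {k : ℕ}
    (hk₁ : ∀ g : G, (∃ j : ℕ, orderOf g = 2 ^ j) → g ^ k = g ^ 3)
    (hk₂ : ∀ g : G, Odd (orderOf g) → g ^ k = g) {v : G} (hv : (orderOf v).Coprime 2) :
    ∑ χ ∈ Finset.univ.filter (Xs M k), H19.red M (χ.1 v) = 0 := by
  haveI := H19.charP_kk hM
  haveI : Fact (Nat.Prime 2) := ⟨Nat.prime_two⟩
  have hk₂' : ∀ g : G, (orderOf g).Coprime 2 → g ^ k = g := fun g h =>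
    hk₂ g (Nat.coprime_two_right.1 h)
  have hk := H19.coprime_of_parts Nat.prime_two (by norm_num) hk₁ hk₂'
  have hpow := H19.pow_pow_eq_of_parts Nat.prime_two (by norm_num [Nat.ModEq]) hk₁ hk₂'
  obtain ⟨y, hy⟩ := exists_prime_orderOf_dvd_card' (G := G) 2 hev.two_dvd
  have h := H21.weak_orth' hM (H19.isPBlock_principalBlock (G := G)) (x := y) (y := v⁻¹)
    (hy ▸ dvd_rfl) (by
      rw [orderOf_inv]
      exact (Nat.Prime.coprime_iff_not_dvd Nat.prime_two).1 hv.symm)
  rw [H17.finsum_mem_irr] at h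
  have h2 := congrArg (H19.red M) h
  rw [H19.red_zero, H19.red_sum (fun χ _ => by
    rw [H11.conj_apply (H11.irr_isCharacter χ)]
    exact mul_mem (H19.irr_mem_Vr χ _) (H19.irr_mem_Vr χ _))] at h2
  have h0 : ∑ χ ∈ Finset.univ.filter (· ∈ principalBlock M G),
      (charDegree χ.1 : H19.kk M) * H19.red M (χ.1 v) = 0 := by
    rw [← h2]
    refine Finset.sum_congr rfl fun χ _ => ?_
    rw [H11.conj_apply (H11.irr_isCharacter χ), inv_inv,
      H19.red_mul (H19.irr_mem_Vr χ y) (H19.irr_mem_Vr χ v),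
      H19.red_char_p_elem hM (H11.irr_isCharacter χ) (x := y) (k := 1)
        (by rw [pow_one, ← hy, pow_orderOf_eq_one]),
      ← H19.charDegree_cast_irr, H19.red_natCast]
  rw [Finset.sum_filter, H19.sum_irr_eq_sum_fixed Nat.prime_two hk hpow] at h0
  · rw [← h0, Finset.sum_filter, Finset.sum_filter]
    refine Finset.sum_congr rfl fun χ _ => ?_
    unfold Xs
    by_cases h1 : χ ∈ principalBlock M G
    · by_cases h2 : ∀ g : G, χ.1 (g ^ k) = χ.1 g
      · rcases Nat.even_or_odd (charDegree χ.1) with h3 | h3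
        · have : (charDegree χ.1 : H19.kk M) = 0 :=
            (CharP.cast_eq_zero_iff (H19.kk M) 2 _).2 h3.two_dvd
          simp [h1, h2, Nat.not_odd_iff_even.2 h3, this]
        · have : (charDegree χ.1 : H19.kk M) = 1 := by
            obtain ⟨j, hj⟩ := h3
            have h2 : ((2 : ℕ) : H19.kk M) = 0 := CharP.cast_eq_zero _ 2
            rw [hj, Nat.cast_add, Nat.cast_mul, h2, zero_mul, zero_add, Nat.cast_one]
          simp [h1, h2, h3, this]
      · simp [h2]
    · simp [h1]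
  · intro χ
    simp only [H19.powIrr_mem_principalBlock_iff, H19.charDegree_powIrr, H19.powIrr_apply,
      hk₂' v hv]
  · intro χ
    rw [nsmul_eq_mul, CharP.cast_eq_zero, zero_mul]

/-- the irreducible character of a homomorphism -/
def lin (l : G →* ℂˣ) : IrrCharacter G := ⟨fun g => (l g : ℂ), H11.isIrrCharacter_monoidHom l⟩

theorem odd_k (hev : Even (Nat.card G)) {k : ℕ}
    (hk₁ : ∀ g : G, (∃ j : ℕ, orderOf g = 2 ^ j) → g ^ k = g ^ 3) : Odd k := by
  haveI : Fact (Nat.Prime 2) := ⟨Nat.prime_two⟩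
  obtain ⟨y, hy⟩ := exists_prime_orderOf_dvd_card' (G := G) 2 hev.two_dvd
  have h := hk₁ y ⟨1, by simpa using hy⟩
  rw [pow_eq_pow_iff_modEq, hy] at h
  exact Nat.odd_iff.2 h

theorem lin_mem (hM : IsPModular 2 M) {k : ℕ} (hk : Odd k) (l : G →* ℂˣ)
    (hl : ∀ g, l g = 1 ∨ l g = -1) : Xs M k (lin l) := by
  have n1 : (1 : AlgInt) ∉ M := fun h1 => hM.2.1.ne_top ((Ideal.eq_top_iff_one M).2 h1)
  refine ⟨fun g => ?_, by simp [lin, charDegree], fun g => ?_⟩
  · rcases hl g with e | e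
    · exact ⟨0, 1, M.zero_mem, n1, by simp [lin, centralChar, e]⟩
    · refine ⟨((centralizer ({g} : Set G)).index : AlgInt) * ((2 : ℕ) : AlgInt), 1,
        M.mul_mem_left _ hM.2.2, n1, ?_⟩
      have t : (((2 : ℕ) : AlgInt) : ℂ) = 2 := by norm_cast
      have t' : ((2 : AlgInt) : ℂ) = 2 := t
      simp [lin, centralChar, e, t']
      ring
  · rcases hl g with e | e <;> simp [lin, e, hk.neg_one_pow]

theorem all_lin (hM : IsPModular 2 M) (hev : Even (Nat.card G)) {k : ℕ}
    (hk₁ : ∀ g : G, (∃ j : ℕ, orderOf g = 2 ^ j) → g ^ k = g ^ 3)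
    (hk₂ : ∀ g : G, Odd (orderOf g) → g ^ k = g) (h2 : Nat.card {χ : IrrCharacter G // Xs M k χ} = 2) :
    HasNormalPComplement 2 G := by
  classical
  letI : Fintype (IrrCharacter G) := Fintype.ofFinite _
  have h1 : Xs M k (lin (1 : G →* ℂˣ)) := lin_mem hM (odd_k hev hk₁) 1 fun _ => Or.inl rfl
  refine (S4549.result M hM k hk₁ hk₂).2 fun χ a b c => ?_
  by_cases e : χ = lin 1
  · simp [e, lin, charDegree]
  have hs : Finset.univ.filter (Xs M k) = {lin 1, χ} := by
    symm
    refine Finset.eq_of_subset_of_card_le (fun ψ hψ => ?_) ?_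
    · simp only [Finset.mem_insert, Finset.mem_singleton] at hψ
      rcases hψ with rfl | rfl
      · exact Finset.mem_filter.2 ⟨Finset.mem_univ _, h1⟩
      · exact Finset.mem_filter.2 ⟨Finset.mem_univ _, ⟨a, b, c⟩⟩
    · rw [Finset.card_pair (Ne.symm e), ← h2, Nat.card_eq_fintype_card, Fintype.card_subtype]
  have nz : ∀ g, χ.1 g ≠ 0 := by
    intro g hg
    obtain ⟨u, v, hu, hv, huv, ⟨j, hj⟩, hcop⟩ := H13.exists_p_parts Nat.prime_two g
    have s := sum_zero hM hev hk₁ hk₂ hcop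
    rw [hs, Finset.sum_pair (Ne.symm e), ← H19.red_char_mul hM (H11.irr_isCharacter χ) hj
      (H13.commute_of_mem_zpowers hu hv), ← huv, hg, H19.red_zero] at s
    simp [lin, H19.red_one] at s
  have : χ.1 1 = 1 := by
    by_contra ne
    obtain ⟨g, hg⟩ := H12.irr_exists_eq_zero χ.2 ne
    exact nz g hg
  simp [charDegree, this]

theorem ex_lin (hM : IsPModular 2 M) {k : ℕ}
    (hk₁ : ∀ g : G, (∃ j : ℕ, orderOf g = 2 ^ j) → g ^ k = g ^ 3)
    (hk₂ : ∀ g : G, Odd (orderOf g) → g ^ k = g) (h : HasNormalPComplement 2 G)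
    {χ : IrrCharacter G} (hχ : Xs M k χ) : ∃ l : G →* ℂˣ, χ = lin l ∧
      (∀ g, ¬ 2 ∣ orderOf g → l g = 1) ∧ ∀ g, (∃ j : ℕ, orderOf g = 2 ^ j) → l g = 1 ∨ l g = -1 := by
  haveI : Fact (Nat.Prime 2) := ⟨Nat.prime_two⟩
  have d := (S4549.result M hM k hk₁ hk₂).1 h χ hχ.1 hχ.2.1 hχ.2.2
  have d1 : χ.1 1 = 1 := by rw [← H19.charDegree_cast_irr, d, Nat.cast_one]
  obtain ⟨l, hl⟩ := H11.exists_monoidHom_of_apply_one_eq_one (H11.irr_isCharacter χ) d1
  refine ⟨l, Subtype.ext hl, fun g hg => ?_, fun g hg => ?_⟩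
  · have := (H21.npc_iff_forall_reg hM).1 h χ hχ.1 g hg
    rw [d1, hl] at this
    exact Units.ext this
  · have := hχ.2.2 g
    rw [hk₁ g hg, hl] at this
    have e : l (g ^ 3) = l g := Units.ext this
    rw [map_pow, pow_succ, mul_eq_right] at e
    have e2 : ((l g : ℂˣ) : ℂ) ^ 2 = 1 := by rw [← Units.val_pow_eq_pow_val, e, Units.val_one]
    rw [sq] at e2
    rcases mul_self_eq_one_iff.1 e2 with e3 | e3
    · exact Or.inl (Units.ext e3)
    · exact Or.inr (Units.ext e3)

theorem main (hM : IsPModular 2 M) (hev : Even (Nat.card G)) (P : Sylow 2 G) {k : ℕ}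
    (hk₁ : ∀ g : G, (∃ j : ℕ, orderOf g = 2 ^ j) → g ^ k = g ^ 3)
    (hk₂ : ∀ g : G, Odd (orderOf g) → g ^ k = g) :
    IsCyclic P ↔ Nat.card {χ : IrrCharacter G // Xs M k χ} = 2 := by
  classical
  haveI : Fact (Nat.Prime 2) := ⟨Nat.prime_two⟩
  have ok := odd_k hev hk₁
  have h1 : Xs M k (lin (1 : G →* ℂˣ)) := lin_mem hM ok 1 fun _ => Or.inl rfl
  have oddN : ∀ (Q : Sylow 2 G) (N : Subgroup G), N.IsComplement' Q → ∀ n ∈ N, ¬ 2 ∣ orderOf n :=
    fun Q N c n hn d => Q.not_dvd_index (c.index_eq_card ▸ d.trans (N.orderOf_dvd_natCard hn))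
  constructor
  · intro hP
    have hm : (Nat.card G).minFac = 2 := (Nat.minFac_eq_two_iff _).2 hev.two_dvd
    have c := hP.isComplement' hm
    have npc : HasNormalPComplement 2 G := ⟨P, _, inferInstance, c⟩
    obtain ⟨a, ha⟩ := hP.exists_generator
    have a2 : ∃ j : ℕ, orderOf (a : G) = 2 ^ j := by
      obtain ⟨j, hj⟩ := IsPGroup.iff_orderOf.1 P.isPGroup' a
      exact ⟨j, by rw [orderOf_coe, hj]⟩
    have le : Nat.card {χ : IrrCharacter G // Xs M k χ} ≤ Nat.card Prop := by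
      refine Nat.card_le_card_of_injective (fun χ => χ.1.1 (a : G) = 1) fun χ ψ e => ?_
      obtain ⟨l, e1, l1, l2⟩ := ex_lin hM hk₁ hk₂ npc χ.2
      obtain ⟨m, e2, m1, m2⟩ := ex_lin hM hk₁ hk₂ npc ψ.2
      simp only [e1, e2, lin, Units.val_eq_one, eq_iff_iff] at e
      have ea : l a = m a := by
        rcases l2 _ a2 with p | p
        · rw [p, e.1 p]
        · rcases m2 _ a2 with q | q
          · rw [q, e.2 q]
          · rw [p, q]
      have : l = m := MonoidHom.ext fun g => by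
        obtain ⟨⟨n, p⟩, rfl⟩ := c.2 g
        obtain ⟨i, rfl⟩ := ha p
        simp only [map_mul, l1 _ (oddN P _ c _ n.2), m1 _ (oddN P _ c _ n.2), coe_zpow, map_zpow, ea]
      exact Subtype.ext (by rw [e1, e2, this])
    have ev : Even (Nat.card {χ : IrrCharacter G // Xs M k χ}) := S4550.result M hM hev k hk₁ hk₂
    have : Nonempty {χ : IrrCharacter G // Xs M k χ} := ⟨⟨_, h1⟩⟩
    have pos : 0 < Nat.card {χ : IrrCharacter G // Xs M k χ} := Nat.card_pos
    rw [Nat.card_eq_fintype_card (α := Prop), Fintype.card_prop] at le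
    obtain ⟨r, hr⟩ := ev
    omega
  · intro h2
    have npc := all_lin hM hev hk₁ hk₂ h2
    obtain ⟨Q, N, hN, c⟩ := id npc
    let π : G →* Q := c.symm.QuotientMulEquiv.toMonoidHom.comp (QuotientGroup.mk' N)
    have πs : Function.Surjective π :=
      c.symm.QuotientMulEquiv.surjective.comp (QuotientGroup.mk'_surjective N)
    obtain ⟨χ, ne, uq⟩ := (Nat.card_eq_two_iff' (⟨_, h1⟩ : {χ : IrrCharacter G // Xs M k χ})).1 h2
    obtain ⟨g, hg⟩ : ∃ g, χ.1.1 g ≠ 1 := by
      by_contra e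
      push Not at e
      exact ne (Subtype.ext (Subtype.ext (funext fun g => by simp [lin, e g])))
    have cyc : IsCyclic Q := by
      refine ⟨⟨π g, ?_⟩⟩
      by_contra nt
      obtain ⟨n, hn⟩ := IsPGroup.iff_card.1 Q.isPGroup'
      obtain ⟨m, hm⟩ := IsPGroup.iff_card.1 (Q.isPGroup'.to_subgroup (zpowers (π g)))
      have lt : m < n := by
        have := lt_of_le_of_ne (zpowers (π g)).card_le_card_group fun e =>
          nt fun x => (eq_top_of_card_eq _ e).ge (mem_top x)
        rw [hn, hm] at this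
        exact (Nat.pow_lt_pow_iff_right one_lt_two).1 this
      obtain ⟨n, rfl⟩ : ∃ n', n = n' + 1 := ⟨n - 1, by omega⟩
      obtain ⟨K, hK, le⟩ := Sylow.exists_subgroup_card_pow_prime_le 2 (n := m) (m := n)
        (hn ▸ pow_dvd_pow 2 n.le_succ) (zpowers (π g)) hm (by omega)
      have i2 : K.index = 2 := by
        have := K.card_mul_index
        rw [hK, hn, pow_succ] at this
        exact Nat.eq_of_mul_eq_mul_left (by positivity) this
      let l : G →* ℂˣ :=
        { toFun := fun x => if π x ∈ K then 1 else -1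
          map_one' := by simp
          map_mul' := fun a b => by
            rw [map_mul, mul_mem_iff_of_index_two i2]
            by_cases ha : π a ∈ K <;> by_cases hb : π b ∈ K <;> simp [ha, hb] }
      have hl : Xs M k (lin l) := lin_mem hM ok l fun x => by
        by_cases hx : π x ∈ K
        · exact Or.inl (if_pos hx)
        · exact Or.inr (if_neg hx)
      obtain ⟨x, hx⟩ : ∃ x, π x ∉ K := by
        by_contra e
        push Not at e
        have : K = ⊤ := eq_top_iff.2 fun y _ => by obtain ⟨x, rfl⟩ := πs y; exact e x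
        rw [this, index_top] at i2
        omega
      have e := uq ⟨_, hl⟩ fun e => by
        have h3 : ((l x : ℂˣ) : ℂ) = ((1 : G →* ℂˣ) x : ℂˣ) :=
          congrFun (congrArg (fun χ : {χ : IrrCharacter G // Xs M k χ} => χ.1.1) e) x
        have h4 : l x = -1 := if_neg hx
        rw [h4] at h3
        norm_num at h3
      apply hg
      rw [← e]
      have h5 : l g = 1 := if_pos (le (mem_zpowers _))
      simp [lin, h5]
    exact isCyclic_of_surjective _ (Sylow.equiv Q P).surjective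

end Cfsg.Agent.H99.Sig2
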