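import Mathlib
import Cfsg.Agent.H99.Agemo
import Cfsg.Agent.H99.NormalModel

/-! Fusion systems over `p`-groups of small nilpotence class. -/

set_option autoImplicit false

namespace Cfsg.Agent.H99

open Cfsg Cfsg.FusionSystem Cfsg.Agent.H97 Cfsg.Agent.H98

section ring

open Polynomial in
theorem exists_one_add_X_pow_prime {p : ℕ} (hp : p.Prime) :
    ∃ h : ℤ[X], (1 + X) ^ p = 1 + X ^ p + (p : ℤ[X]) * X * (1 + X * h) := by
  obtain ⟨r, hr⟩ := exists_add_pow_prime_eq hp (1 : ℤ[X]) X
  have h0 : r.coeff 0 = 1 := by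
    have h1 := congrArg (fun q => q.coeff 1) hr
    have h2 : ((p : ℤ[X]) * 1 * X * r).coeff 1 = p * r.coeff 0 := by
      rw [mul_one, mul_assoc, ← C_eq_natCast, coeff_C_mul, coeff_X_mul]
    simp only [coeff_one_add_X_pow, Nat.choose_one_right, coeff_add, one_pow, coeff_X_pow,
      if_neg hp.one_lt.ne, h2, coeff_one, one_ne_zero, if_false, zero_add] at h1
    have hp0 : (p : ℤ) ≠ 0 := by exact_mod_cast hp.ne_zero
    exact (mul_left_cancel₀ hp0 (by rw [mul_one]; exact h1)).symm
  refine ⟨r.divX, ?_⟩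
  have := X_mul_divX_add r
  rw [h0, C_1] at this
  rw [hr, add_comm 1 (X * r.divX), this]
  simp

theorem natCast_pow_mul_eq_zero_comm {R : Type*} [CommRing R] {p : ℕ} (hp : p.Prime) {τ : R}
    {n : ℕ} (h1 : (1 + τ) ^ p = 1) (h2 : τ ^ (n * (p - 1) + 1) = 0) : (p : R) ^ n * τ = 0 := by
  obtain ⟨h, hh⟩ := exists_one_add_X_pow_prime hp
  have h3 := congrArg (Polynomial.aeval τ) hh
  simp only [map_pow, map_add, map_one, Polynomial.aeval_X, map_mul, map_natCast, h1] at h3
  set U := 1 + τ * Polynomial.aeval τ h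
  have hU : IsUnit U := IsNilpotent.isUnit_one_add
    ((Commute.all _ _).isNilpotent_mul_right ⟨_, h2⟩)
  obtain ⟨q, rfl⟩ : ∃ q, p = q + 1 := ⟨p - 1, (Nat.succ_pred_eq_of_pos hp.pos).symm⟩
  rw [Nat.add_sub_cancel] at h2
  have h4 : ((q + 1 : ℕ) : R) * τ * U = -τ ^ (q + 1) := by linear_combination -h3
  have key : ∀ k : ℕ, ((q + 1 : ℕ) : R) ^ k * τ * U ^ k = (-1) ^ k * τ ^ (k * q + 1) := by
    intro k
    induction k with
    | zero => simp
    | succ k ih =>
      calc ((q + 1 : ℕ) : R) ^ (k + 1) * τ * U ^ (k + 1)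
          = ((q + 1 : ℕ) : R) * U * (((q + 1 : ℕ) : R) ^ k * τ * U ^ k) := by ring
        _ = (-1) ^ k * τ ^ (k * q) * (((q + 1 : ℕ) : R) * τ * U) := by rw [ih]; ring
        _ = _ := by rw [h4]; ring
  have := key n
  rw [h2, mul_zero] at this
  exact (hU.pow n).mul_left_eq_zero.1 this

open scoped IsMulCommutative in
theorem natCast_pow_mul_eq_zero {R : Type*} [Ring R] {p : ℕ} (hp : p.Prime) {τ : R}
    {n : ℕ} (h1 : (1 + τ) ^ p = 1) (h2 : τ ^ (n * (p - 1) + 1) = 0) : (p : R) ^ n * τ = 0 := by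
  let t : Algebra.adjoin ℤ {τ} := ⟨τ, Algebra.self_mem_adjoin_singleton ℤ τ⟩
  have := natCast_pow_mul_eq_zero_comm (R := Algebra.adjoin ℤ {τ}) hp (τ := t) (n := n)
    (Subtype.ext h1) (Subtype.ext h2)
  exact congrArg Subtype.val this

end ring

section group

variable {G : Type*} [Group G]

open scoped IsMulCommutative in
/-- an automorphism `σ` of order dividing `p` of an abelian group with `(σ - 1) ^ (n (p-1) + 1) = 0`
fixes all `p ^ n`-th powers -/
theorem aut_fix_pow {A : Type*} [Group A] [IsMulCommutative A] {p n : ℕ} (hp : p.Prime)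
    (σ : MulAut A) (h1 : σ ^ p = 1)
    (h2 : ∀ a, (fun a => σ a * a⁻¹)^[n * (p - 1) + 1] a = 1) (a : A) : σ (a ^ p ^ n) = a ^ p ^ n := by
  let s : Module.End ℤ (Additive A) :=
    (MonoidHom.toAdditive σ.toMonoidHom).toIntLinearMap
  have hs : ∀ (k : ℕ) (a : A), (s ^ k) (Additive.ofMul a) = Additive.ofMul ((σ ^ k) a) := by
    intro k
    induction k with
    | zero => intro a; rfl
    | succ k ih =>
      intro a
      rw [pow_succ, pow_succ, Module.End.mul_apply, MulAut.mul_apply, ← ih]
      rfl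
  have ht : ∀ (k : ℕ) (a : A), ((s - 1) ^ k) (Additive.ofMul a) =
      Additive.ofMul ((fun a => σ a * a⁻¹)^[k] a) := by
    intro k
    induction k with
    | zero => intro a; rfl
    | succ k ih =>
      intro a
      rw [pow_succ, Module.End.mul_apply, Function.iterate_succ_apply, ← ih]
      congr 1
      rw [LinearMap.sub_apply, sub_eq_add_neg]
      rfl
  have h := natCast_pow_mul_eq_zero hp (τ := s - 1) (n := n)
    (by
      rw [add_sub_cancel]
      ext a
      exact (hs p a.toMul).trans (by rw [h1]; rfl))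
    (by
      ext a
      exact (ht _ a.toMul).trans (by rw [h2]))
  have h3 := LinearMap.congr_fun h (Additive.ofMul a)
  rw [← Nat.cast_pow, Module.End.mul_apply, Module.End.natCast_apply, LinearMap.sub_apply,
    smul_sub, LinearMap.zero_apply, sub_eq_zero] at h3
  rw [map_pow]
  exact congrArg Additive.toMul h3

/-- an element of `S` normalizing `P`, with `p`-th power in `P`, centralizes the `p ^ n`-th powers
of the centre of `P` when the class of `S` is at most `n (p - 1) + 1` -/
theorem mem_centralizer_agZ_of_class {S P : Subgroup G} {p n : ℕ} (hp : p.Prime) (hP : P ≤ S)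
    (hcl : S.lowerCentralSeries (n * (p - 1) + 1) = ⊥) {g : G} (hg : g ∈ normalizerIn S P)
    (hgp : g ^ p ∈ P) : g ∈ Subgroup.centralizer (agZ p n P : Set G) := by
  have hn : g ∈ Subgroup.normalizer ((centralizerIn P P : Subgroup G) : Set G) :=
    H51.normalizer_le_normalizer_inf_centralizer _ hg.2
  have : IsMulCommutative (centralizerIn P P) :=
    H51.isMulCommutative_iff_forall.2 fun a ha b hb => hb.2 a ha.1
  have hσ : ∀ a : centralizerIn P P, ((conjAut _ hn a : centralizerIn P P) : G) = g * a * g⁻¹ :=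
    fun a => by rw [← ext_coe, ext_conjAut hn a.2]
  refine mem_centralizer_agZ fun x hx => ?_
  have := aut_fix_pow (n := n) hp (conjAut _ hn) ?_ ?_ ⟨x, hx⟩
  · have h := congrArg Subtype.val this
    rwa [hσ] at h
  · have h : ∀ k : ℕ, ∀ a : centralizerIn P P,
        (((conjAut _ hn ^ k) a : centralizerIn P P) : G) = g ^ k * a * (g ^ k)⁻¹ := by
      intro k
      induction k with
      | zero => simp
      | succ k ih =>
        intro a
        rw [pow_succ', MulAut.mul_apply, hσ, ih, pow_succ']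
        group
    ext a
    rw [h, a.2.2 _ hgp, mul_inv_cancel_right]
    rfl
  · have h : ∀ k : ℕ, ∀ a : centralizerIn P P,
        (((fun a => conjAut _ hn a * a⁻¹)^[k] a : centralizerIn P P) : G) ∈
          S.lowerCentralSeries k := by
      intro k
      induction k with
      | zero => exact fun a => hP a.2.1
      | succ k ih =>
        intro a
        rw [Function.iterate_succ_apply', Subgroup.coe_mul, hσ, Subgroup.lowerCentralSeries_succ,
          Subgroup.commutator_comm]
        exact Subgroup.commutator_mem_commutator hg.1 (ih a)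
    intro a
    have := h (n * (p - 1) + 1) a
    rw [hcl, Subgroup.mem_bot] at this
    exact Subtype.ext this

theorem pow_mem_upperCentralSeries {e : ℕ} (h : ∀ z ∈ Subgroup.center G, z ^ e = 1) (i : ℕ) :
    ∀ x ∈ Subgroup.upperCentralSeries G (i + 1), x ^ e ∈ Subgroup.upperCentralSeries G i := by
  induction i with
  | zero =>
    intro x hx
    rw [Subgroup.upperCentralSeries_one] at hx
    rw [h x hx]
    exact one_mem _
  | succ i ih =>
    intro x hx
    rw [Subgroup.mem_upperCentralSeries_succ_iff] at hx ⊢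
    intro y
    have h1 := ih _ (hx y)
    have h2 := Subgroup.mem_upperCentralSeries_succ_iff.1 (hx y) x
    rw [← QuotientGroup.eq_one_iff] at h1 h2 ⊢
    have h3 := pow_conj_of_commute (g := (x : G ⧸ Subgroup.upperCentralSeries G i)) (q := y)
      (by
        simp only [commutatorElement_def, QuotientGroup.mk_mul, QuotientGroup.mk_inv] at h2
        rw [mul_inv_eq_one, mul_inv_eq_iff_eq_mul] at h2
        rw [mul_inv_eq_iff_eq_mul, h2]) e
    simp only [commutatorElement_def, QuotientGroup.mk_mul, QuotientGroup.mk_inv,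
      QuotientGroup.mk_pow] at h1 ⊢
    rw [h3, h1, one_mul, mul_inv_cancel]

theorem pow_pow_eq_one_of_mem_upperCentralSeries {e : ℕ} (h : ∀ z ∈ Subgroup.center G, z ^ e = 1)
    (i : ℕ) : ∀ x ∈ Subgroup.upperCentralSeries G i, x ^ e ^ i = 1 := by
  induction i with
  | zero => simp
  | succ i ih =>
    intro x hx
    rw [pow_succ', pow_mul]
    exact ih _ (pow_mem_upperCentralSeries h i x hx)

end group

section fusion

variable {Ω : Type*} [Group Ω] {S : Subgroup Ω} {F : FusionSystem S}

/-- the subsystem of maps respecting a normal subgroup `V` of `S` -/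
theorem exists_stabSys (F : FusionSystem S) {V : Subgroup Ω}
    (hV : S ≤ Subgroup.normalizer (V : Set Ω)) :
    ∃ E : FusionSystem S, ∀ P f, Mor E P f ↔ Mor F P f ∧ ∀ x ∈ P, (f x ∈ V ↔ x ∈ V) := by
  refine ⟨(H96.isFusionPred_sub F S (fun P f => ∀ x ∈ P, (f x ∈ V ↔ x ∈ V)) le_rfl
    (fun P f hf _ => ⟨hf.le, fun x hx => hf.mem hx⟩) ?_ ?_ ?_ ?_).toFS,
    fun P f => IsFusionPred.mor_toFS _⟩
  · intro P f g _ e h x hx
    rw [← e x hx]
    exact h x hx
  · exact fun P t _ ht x _ => (Subgroup.mem_normalizer_iff.1 (hV ht) x).symm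
  · exact fun P Q f g _ _ hm h1 h2 x hx => (h2 _ (hm x hx)).trans (h1 x hx)
  · intro P Q f g hf _ h1 _ h y hy
    obtain ⟨x, hx, rfl⟩ := hf.surj y hy
    rw [h1 x hx]
    exact (h x hx).symm

theorem isNormal_agZ_of_class [Finite S] {p : ℕ} [hp : Fact p.Prime] (hS : IsPGroup p S)
    (hF : F.IsSaturated p) {n : ℕ} (hcl : S.lowerCentralSeries (n * (p - 1) + 1) = ⊥) :
    F.IsNormal (agZ p n S) := by
  obtain ⟨E, hE⟩ := exists_stabSys F (V := agZ p n S) le_normalizer_agZ
  have key : F.IsSubsystemOf E := by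
    refine sub_of_aut_step hS hF le_rfl fun P hP ih α hα => ?_
    have hm := mor_of_mem_autGroup hP.1 hα
    rcases hP.1.lt_or_eq with hlt | rfl
    swap
    · refine (hE _ _).2 ⟨hm, fun x hx => ⟨fun h => ?_,
        HomOn.mem_agZ (homOn_ext α) (img_ext α)⟩⟩
      have := HomOn.mem_agZ (homOn_ext α⁻¹) (img_ext α⁻¹) h
      rwa [ext_inv_ext] at this
    by_cases hc : centralizerIn S P ≤ P
    swap
    · obtain ⟨g, hg, e, -⟩ := (H96.iso_of_mem_autGroup hP.1 hα).extend_centralizer
        (H96.sat_receptive_of_fullyNormalized hS hF hP)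
      exact ((ih _ g (lt_of_le_of_ne le_sup_left fun h => hc (le_sup_right.trans h.ge)) hg).mono
        le_sup_left).congr e
    obtain ⟨g, hg, hgP⟩ := SetLike.exists_of_lt (H96.lt_normalizerIn hS hlt)
    obtain ⟨k, hk⟩ := H96.exists_pow_eq_one_of_isPGroup hS hg.1
    obtain ⟨m, h1, h2⟩ := exists_pow_not_mem_pow_mem hk hgP
    have hle : agZ p n S ≤ agZ p n P :=
      agZ_le_agZ hP.1 ((H96.centralizerIn_anti hP.1).trans hc)
    refine mor_of_frattini_step hS hF hP ih (V := agZ p n P)
      (fun β _ x hx => HomOn.mem_agZ (homOn_ext β) (img_ext β) hx) (pow_mem hg m) h1 agZ_le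
      (mem_centralizer_agZ_of_class hp.out hP.1 hcl (pow_mem hg m) h2) (fun χ hχ hfix => ?_) hα
    refine (hE _ _).2 ⟨mor_of_mem_autGroup hP.1 hχ, fun x _ => ⟨fun h => ?_, fun h => ?_⟩⟩
    · rwa [ext_injective χ (hfix _ (hle h))] at h
    · rwa [hfix x (hle h)]
  exact H96.sat_isNormal_of_abelian hS hF (stronglyClosed_iff.2 ⟨agZ_le, fun P f hf x hx hV =>
    (((hE P f).1 (hf.of_sub key)).2 x hx).2 hV⟩)
    fun x hx y hy => (agZ_le_center hy).2 x (agZ_le hx)

end fusion

end Cfsg.Agent.H99
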