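import Cfsg.Agent.H56.SpDefs
import Cfsg.Agent.H16.IvSk
import Cfsg.Agent.H64.CyCls

/-! Project CY, chapter SP: the sizes of proper subspaces. -/

set_option autoImplicit false

namespace Cfsg.Agent.H99.SpSz

open Subgroup MulAction Cfsg.Agent.H11.Cy Cfsg.Agent.H56.Sp Cfsg.Agent.H64.CyCls
open Cfsg.Agent.H45.Iv (Fx Sub Ms)

theorem sz : SzStmt := by
  intro res _ G _ _ Ω _ _ p A h hy l2 Φ sΦ nΦ nt
  have k := Cfsg.Agent.H16.IvSk.sk G Ω p A h hy.mc.ep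
  have hpres : ∀ g ∈ Ms A Φ, ∀ z ∈ Φ, g • z ∈ Φ := k.inv Φ sΦ
  have hAX : ∀ z ∈ Φ, A z ≤ Ms A Φ := fun z hz => Cfsg.Agent.H16.IvSk.A_le hz
  obtain ⟨Y, _, _, _, π, B, hs, hact, hB, hSt⟩ := res G Ω p A h (Ms A Φ) Φ hpres hAX (l2 Φ sΦ) nt
  obtain ⟨x, hx, y, hy', hxy⟩ := nt
  have hFX : Fl A x y ≤ Ms A Φ := sup_le (hAX x hx) (hAX y hy')
  have hlt : Nat.card Y < Nat.card G := by
    refine lt_of_le_of_lt (Nat.card_le_card_of_surjective π hs) ?_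
    refine lt_of_le_of_ne (Ms A Φ).card_le_card_group fun e => nΦ ?_
    have et : Ms A Φ = ⊤ := eq_top_of_card_eq _ e
    refine Set.eq_univ_of_forall fun w => ?_
    by_cases e1 : w = x
    · exact e1 ▸ hx
    obtain ⟨g, -, -, g2⟩ := h.two x trivial y trivial x trivial w trivial hxy (Ne.symm e1)
    exact g2 ▸ hpres g (et ▸ mem_top g) y hy'
  let ρ : Fl A x y →* Y := π.comp (inclusion hFX)
  have hρ : ∀ (f : Fl A x y) (z : Φ), ((ρ f • z : Φ) : Ω) = (f : G) • (z : Ω) :=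
    fun f z => hact _ z
  have hrg : ∀ K : Subgroup Y, B ⟨x, hx⟩ ≤ K → B ⟨y, hy'⟩ ≤ K → ∀ f, ρ f ∈ K := fun K h1 h2 f => by
    have : Fl A x y ≤ (K.comap ρ).map (Fl A x y).subtype := sup_le
      (fun a ha => ⟨⟨a, mem_sup_left ha⟩, h1 (hB _ ▸ ⟨⟨a, hAX x hx ha⟩, ha, rfl⟩), rfl⟩)
      (fun a ha => ⟨⟨a, mem_sup_right ha⟩, h2 (hB _ ▸ ⟨⟨a, hAX y hy' ha⟩, ha, rfl⟩), rfl⟩)
    obtain ⟨f', h3, e⟩ := this f.2
    exact (Subtype.ext e : f' = f) ▸ h3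
  rcases hy.mc.ih Y Φ p B hSt hlt with ⟨V, hV, ht, hr⟩ | ⟨M, hM, -, hBM, -, hc⟩
  · left
    obtain ⟨v, hv⟩ := ht.exists_smul_eq ⟨x, hx⟩ ⟨y, hy'⟩
    have h1 := hrg (V ⊔ B ⟨x, hx⟩) le_sup_right (by
      rw [← hv]
      change B ((v : Y) • _) ≤ _
      rw [acj hSt]
      exact H83.cj_le_of_mem le_sup_right (mem_sup_left v.2))
    have lf := hy.lf x y hxy
    obtain ⟨z, hz⟩ := lf.ex
    have fz := hy.fz x y hxy z hz
    obtain ⟨u, hu, b, hb, e'⟩ := mem_sup_of_normal_left.1 (h1 ⟨z, hz.1⟩)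
    have zx : z • x = x := by
      have : x ∈ Fx Ω z := fz ▸ lf.mem.1
      exact this
    have ux : u • (⟨x, hx⟩ : Φ) = ⟨x, hx⟩ := by
      have h2 : ρ ⟨z, hz.1⟩ • (⟨x, hx⟩ : Φ) = ⟨x, hx⟩ := Subtype.ext ((hρ _ _).trans zx)
      rwa [← e', mul_smul, hSt.fix _ b hb] at h2
    have u1 : u = 1 := congrArg Subtype.val (mem_bot.1 ((hr ⟨x, hx⟩).le
      (show (⟨u, hu⟩ : V) ∈ stabilizer V (⟨x, hx⟩ : Φ) from ux)))
    rw [u1, one_mul] at e'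
    have b2 : b * b = 1 := by
      rw [e', ← map_mul, show (⟨z, hz.1⟩ * ⟨z, hz.1⟩ : Fl A x y) = 1 from Subtype.ext hz.2.2, map_one]
    have b1 : b = 1 := by
      have h3 := pw hSt _ b hb
      obtain ⟨m, hm⟩ := h.pp.odd_of_ne_two hy.mc.p2
      rwa [hm, pow_succ, pow_mul, sq, b2, one_pow, one_mul] at h3
    have le : Φ ⊆ Ln A x y := fun w hw => by
      rw [← fz]
      have h4 := hρ ⟨z, hz.1⟩ ⟨w, hw⟩
      rw [← e', b1, one_smul] at h4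
      exact h4.symm
    rw [Set.Subset.antisymm le (sΦ x hx y hy' hxy), lf.ln]
  rcases hc with ⟨-, hn, -⟩ | ⟨hn, -⟩ | ⟨h3, hn, -⟩
  · left
    rwa [Nat.card_coe_set_eq] at hn
  · right
    rwa [Nat.card_coe_set_eq] at hn
  · right
    rw [Nat.card_coe_set_eq] at hn
    rw [hn, h3]; norm_num

end Cfsg.Agent.H99.SpSz
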