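import Mathlib
import Cfsg.Agent.H85.EndField
import Cfsg.Agent.H82.SecMod
import Cfsg.Agent.H54.Glaub

/-!
A cyclic torus, transitive on the nonzero vectors of a line, in a failure of factorization module.
-/

set_option autoImplicit false

namespace Cfsg.Agent.H99

open Subgroup
open scoped commutatorElement

section Module

variable {H W : Type*} [Group H] [AddCommGroup W] [DistribMulAction H W]

/-- a rank one configuration: the subgroup `D` of `W` with the root group `A` and its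
stabilizer `M` -/
structure RankOne (D : AddSubgroup W) (A M : Subgroup H) : Prop where
  A_le : A ≤ M
  fix : ∀ a ∈ A, ∀ d ∈ D, a • d = d
  cm : ∀ a ∈ A, ∀ w : W, a • w - w ∈ D
  inter : ∀ h : H, h ∉ M → ∀ d ∈ D, h • d ∈ D → d = 0
  surj : ∀ w : W, w ∉ D → ∀ d ∈ D, ∃ a ∈ A, a • w - w = d
  inj : ∀ w : W, w ∉ D → ∀ a ∈ A, a • w = w → ∀ w' : W, a • w' = w'
  sup : ∀ g : H, g ∉ M → ∀ w : W, ∃ d ∈ D, ∃ d' ∈ D, w = d + g • d'

namespace RankOne

variable {D : AddSubgroup W} {A M : Subgroup H}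

theorem not_mem (o : RankOne D A M) {g : H} (hg : g ∉ M) {d : W} (hd : d ∈ D) (h0 : d ≠ 0) :
    g • d ∉ D := fun h => h0 (o.inter g hg d hd h)

theorem smul_mem (o : RankOne D A M) {g : H} (hg : g ∉ M) {h : H} (hh : h ∈ M) {d : W}
    (hd : d ∈ D) : h • d ∈ D := by
  by_contra hy
  obtain ⟨d₁, hd₁, d₂, hd₂, e⟩ := o.sup g hg (h • d)
  have h2 : d₂ ≠ 0 := by
    rintro rfl
    rw [smul_zero, add_zero] at e
    exact hy (e ▸ hd₁)
  obtain ⟨a, ha, e'⟩ := o.surj _ (o.not_mem hg hd₂ h2) d₁ hd₁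
  have e2 : h • d = a • g • d₂ := by rw [e, ← e']; abel
  have e3 : (g⁻¹ * a⁻¹ * h) • d = d₂ := by
    rw [mul_smul, mul_smul, e2, inv_smul_smul, inv_smul_smul]
  have h3 : g⁻¹ * a⁻¹ * h ∉ M := fun h' => hg (by
    have := M.mul_mem (M.mul_mem h' (M.inv_mem hh)) (o.A_le ha)
    rw [mul_inv_cancel_right, inv_mul_cancel_right] at this
    exact (M.inv_mem_iff).1 this)
  have := o.inter _ h3 d hd (e3 ▸ hd₂)
  rw [this, smul_zero] at hy
  exact hy D.zero_mem

/-- the map `d ↦ (a - 1) g d` -/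
def nm (o : RankOne D A M) (g : H) (a : A) : AddMonoid.End D :=
  AddMonoidHom.mk' (fun d => ⟨(a : H) • g • (d : W) - g • (d : W), o.cm a a.2 _⟩) fun d d' =>
    Subtype.ext (by simp only [AddSubgroup.coe_add, smul_add]; abel)

theorem nm_apply (o : RankOne D A M) (g : H) (a : A) (d : D) :
    ((o.nm g a d : D) : W) = (a : H) • g • (d : W) - g • (d : W) := rfl

theorem nm_mul (o : RankOne D A M) (g : H) (a b : A) : o.nm g (a * b) = o.nm g a + o.nm g b := by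
  ext d
  have h1 := o.fix a a.2 _ (o.cm b b.2 (g • (d : W)))
  rw [smul_sub] at h1
  change ((a * b : A) : H) • g • (d : W) - g • (d : W) =
    ((a : H) • g • (d : W) - g • (d : W)) + ((b : H) • g • (d : W) - g • (d : W))
  rw [Subgroup.coe_mul, mul_smul, ← h1]
  abel

theorem nm_one (o : RankOne D A M) (g : H) : o.nm g 1 = 0 := by
  ext d
  change ((1 : A) : H) • g • (d : W) - g • (d : W) = 0
  rw [OneMemClass.coe_one, one_smul, sub_self]

theorem nm_inv (o : RankOne D A M) (g : H) (a : A) : o.nm g a⁻¹ = -o.nm g a := by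
  rw [eq_neg_iff_add_eq_zero, ← o.nm_mul, inv_mul_cancel, o.nm_one]

theorem nm_ne_zero (o : RankOne D A M) {g : H} (hg : g ∉ M) {a : A} (ha : o.nm g a ≠ 0) {d : D}
    (hd : d ≠ 0) : o.nm g a d ≠ 0 := by
  intro h
  have h1 : (a : H) • g • (d : W) = g • (d : W) := sub_eq_zero.1 (congrArg Subtype.val h)
  have h2 := o.inj _ (o.not_mem hg d.2 fun h' => hd (Subtype.ext h')) a a.2 h1
  refine ha ?_
  ext d'
  change (a : H) • g • (d' : W) - g • (d' : W) = 0
  rw [h2, sub_self]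

theorem exists_nm (o : RankOne D A M) {g : H} (hg : g ∉ M) {d : D} (hd : d ≠ 0) (d' : D) :
    ∃ a : A, o.nm g a d = d' := by
  obtain ⟨a, ha, e⟩ := o.surj _ (o.not_mem hg d.2 fun h' => hd (Subtype.ext h')) d' d'.2
  exact ⟨⟨a, ha⟩, Subtype.ext e⟩

theorem exists_inv (o : RankOne D A M) {g : H} (hg : g ∉ M) {a : A} (ha : o.nm g a ≠ 0) :
    ∃ h ∈ M, ∃ a' : A, (∀ d : D, h • (d : W) = o.nm g a d) ∧ o.nm g⁻¹ a' * o.nm g a = 1 := by
  have hg' : g⁻¹ ∉ M := fun h => hg ((M.inv_mem_iff).1 h)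
  obtain ⟨d₁, hd₁⟩ : ∃ d₁ : D, d₁ ≠ 0 := by
    by_contra hc
    push Not at hc
    exact ha (by ext d; rw [hc d, map_zero, map_zero])
  have h1 := o.nm_ne_zero hg ha hd₁
  obtain ⟨a', ha'⟩ := o.exists_nm hg' h1 d₁
  set h : H := g * (a' : H)⁻¹ * g⁻¹ * a * g with hh
  have key : ∀ d d'' : D, h • (d : W) = d'' ↔
      (a : H) • g • (d : W) = d'' + g • ((o.nm g⁻¹ a' d'' : D) : W) := by
    intro d d''
    rw [nm_apply, smul_sub, smul_inv_smul, add_sub_cancel, hh]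
    simp only [mul_smul]
    rw [smul_eq_iff_eq_inv_smul, inv_smul_eq_iff, inv_smul_eq_iff]
  have hM : h ∈ M := by
    by_contra hM
    refine hd₁ (Subtype.ext (o.inter h hM d₁ d₁.2 ?_))
    rw [(key d₁ (o.nm g a d₁)).2 (by rw [ha', nm_apply, sub_add_cancel])]
    exact (o.nm g a d₁).2
  have key2 : ∀ d : D, h • (d : W) = o.nm g a d ∧ o.nm g⁻¹ a' (o.nm g a d) = d := by
    intro d
    set d'' : D := ⟨h • (d : W), o.smul_mem hg hM d.2⟩ with hd''
    have e1 := (key d d'').1 rfl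
    have e2 : g • ((d - o.nm g⁻¹ a' d'' : D) : W) = (d'' - o.nm g a d : D) := by
      rw [AddSubgroup.coe_sub, AddSubgroup.coe_sub, smul_sub, nm_apply o g a, e1]
      abel
    have e3 : d - o.nm g⁻¹ a' d'' = 0 :=
      Subtype.ext (o.inter g hg _ (d - o.nm g⁻¹ a' d'').2 (e2 ▸ (d'' - o.nm g a d).2))
    rw [e3, ZeroMemClass.coe_zero, smul_zero] at e2
    have e4 : d'' = o.nm g a d := sub_eq_zero.1 (Subtype.ext e2.symm)
    refine ⟨congrArg Subtype.val e4, ?_⟩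
    rw [← e4]
    exact (sub_eq_zero.1 e3).symm
  exact ⟨h, hM, a', fun d => (key2 d).1, by ext d; exact congrArg Subtype.val (key2 d).2⟩

/-- the stabilizer of the line contains a cyclic group transitive on the nonzero vectors -/
theorem exists_torus [Finite W] {p : ℕ} [Fact p.Prime] (hp : ∀ w : W, p • w = 0)
    (o : RankOne D A M) {g : H} (hg : g ∉ M) (hD : D ≠ ⊥) :
    ∃ t ∈ M, ∀ n : ℕ, ∀ d ∈ D, ∀ d' ∈ D, d ≠ 0 → d' ≠ 0 → ∃ j : ℕ, (t ^ p ^ n) ^ j • d = d' := by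
  classical
  have hg' : g⁻¹ ∉ M := fun h => hg ((M.inv_mem_iff).1 h)
  haveI : Nontrivial D := (AddSubgroup.nontrivial_iff_ne_bot D).2 hD
  have hDF : ∀ f f' : AddMonoid.End D, f * f' = 1 → f' * f = 1 := by
    intro f f' h
    have h1 : Function.LeftInverse f f' := fun x => DFunLike.congr_fun h x
    have h2 : Function.RightInverse f f' :=
      Function.rightInverse_of_injective_of_leftInverse
        (Finite.injective_iff_surjective.2 h1.surjective) h1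
    ext x
    exact congrArg Subtype.val (h2 x)
  obtain ⟨d₀, hd₀⟩ := exists_ne (0 : D)
  obtain ⟨a₀, ha₀⟩ := o.exists_nm hg hd₀ d₀
  have ha₀' : o.nm g a₀ ≠ 0 := fun h => hd₀ (by rw [← ha₀, h]; rfl)
  obtain ⟨h₀, hh₀, b₀, hact₀, hb₀⟩ := o.exists_inv hg ha₀'
  set e := o.nm g a₀ with he
  set e' := o.nm g⁻¹ b₀ with he'
  have hb₀' : e * e' = 1 := hDF _ _ hb₀
  let Φ : AddSubgroup (AddMonoid.End D) :=
    { carrier := {f | ∃ a : A, o.nm g a * e' = f}
      zero_mem' := ⟨1, by rw [o.nm_one, zero_mul]⟩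
      add_mem' := by
        rintro _ _ ⟨a, rfl⟩ ⟨b, rfl⟩
        exact ⟨a * b, by rw [o.nm_mul, add_mul]⟩
      neg_mem' := by
        rintro _ ⟨a, rfl⟩
        exact ⟨a⁻¹, eq_neg_of_add_eq_zero_left (by
          rw [← add_mul, ← o.nm_mul, inv_mul_cancel, o.nm_one, zero_mul])⟩ }
  let Ψ : AddSubgroup (AddMonoid.End D) :=
    { carrier := {f | ∃ a : A, e * o.nm g⁻¹ a = f}
      zero_mem' := ⟨1, by rw [o.nm_one, mul_zero]⟩
      add_mem' := by
        rintro _ _ ⟨a, rfl⟩ ⟨b, rfl⟩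
        exact ⟨a * b, by rw [o.nm_mul, mul_add]⟩
      neg_mem' := by
        rintro _ ⟨a, rfl⟩
        exact ⟨a⁻¹, eq_neg_of_add_eq_zero_left (by
          rw [← mul_add, ← o.nm_mul, inv_mul_cancel, o.nm_one, mul_zero])⟩ }
  have hpD : ∀ x : D, p • x = 0 := fun x => Subtype.ext (hp x)
  obtain ⟨-, F, _, _, ι, hι, hmem⟩ := H85.exists_field_of_inv (Φ := Φ) (Ψ := Ψ) hpD ⟨a₀, hb₀'⟩
    (by
      rintro _ ⟨a, rfl⟩ h0
      obtain ⟨-, -, a', -, h1⟩ := o.exists_inv hg (a := a) fun h => h0 (by rw [h, zero_mul])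
      have h2 : e * o.nm g⁻¹ a' * (o.nm g a * e') = 1 := by
        rw [mul_assoc, ← mul_assoc _ _ e', h1, one_mul, hb₀']
      exact ⟨_, ⟨a', rfl⟩, hDF _ _ h2, h2⟩)
    (by
      rintro _ ⟨a, rfl⟩ h0
      obtain ⟨-, -, a', -, h1⟩ := o.exists_inv hg' (a := a) fun h => h0 (by rw [h, mul_zero])
      rw [inv_inv] at h1
      have h2 : o.nm g a' * e' * (e * o.nm g⁻¹ a) = 1 := by
        rw [mul_assoc, ← mul_assoc e', hb₀, one_mul, h1]
      exact ⟨_, ⟨a', rfl⟩, hDF _ _ h2, h2⟩)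
  have hchar : (p : F) = 0 := hι (by
    rw [map_natCast, map_zero]
    ext x
    exact congrArg Subtype.val (hpD x))
  haveI : CharP F p := (CharP.charP_iff_prime_eq_zero Fact.out).2 hchar
  obtain ⟨ω, hω⟩ := IsCyclic.exists_monoid_generator (α := Fˣ)
  obtain ⟨a₁, ha₁⟩ := (hmem (ι ω)).2 ⟨ω, rfl⟩
  have ha₁' : o.nm g a₁ ≠ 0 := fun h => ω.ne_zero (hι (by rw [← ha₁, h, zero_mul, map_zero]))
  obtain ⟨h₁, hh₁, -, hact₁, -⟩ := o.exists_inv hg ha₁'
  have hact : ∀ d : D, (h₁ * h₀⁻¹) • (d : W) = ι ω d := by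
    intro d
    have e1 : h₀⁻¹ • (d : W) = e' d := by
      rw [inv_smul_eq_iff, hact₀]
      exact (congrArg Subtype.val (DFunLike.congr_fun hb₀' d)).symm
    rw [mul_smul, e1, hact₁, ← ha₁]
    rfl
  have hpow : ∀ (k : ℕ) (d : D), (h₁ * h₀⁻¹) ^ k • (d : W) = ι (ω ^ k) d := by
    intro k
    induction k with
    | zero => intro d; rw [pow_zero, pow_zero, one_smul, map_one]; rfl
    | succ k ih => intro d; rw [pow_succ, mul_smul, hact, ih, pow_succ, map_mul]; rfl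
  refine ⟨h₁ * h₀⁻¹, M.mul_mem hh₁ (M.inv_mem hh₀), fun n d hd d' hd' h0 h0' => ?_⟩
  have h1 : e' ⟨d, hd⟩ ≠ 0 := fun h => h0 (by
    have := DFunLike.congr_fun hb₀' ⟨d, hd⟩
    change e (e' ⟨d, hd⟩) = ⟨d, hd⟩ at this
    rw [h, map_zero] at this
    exact (congrArg Subtype.val this).symm)
  obtain ⟨a, ha⟩ := o.exists_nm hg h1 ⟨d', hd'⟩
  obtain ⟨s, hs⟩ := (hmem _).1 (⟨a, rfl⟩ : o.nm g a * e' ∈ Φ)
  have hsd : ι s ⟨d, hd⟩ = ⟨d', hd'⟩ := by rw [hs]; exact ha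
  obtain ⟨s', rfl⟩ := (Finite.surjective_of_injective (iterateFrobenius F p n).injective) s
  have hs0 : s' ≠ 0 := by
    rintro rfl
    rw [map_zero, map_zero] at hsd
    exact h0' (congrArg Subtype.val hsd).symm
  obtain ⟨j, hj⟩ := hω (Units.mk0 s' hs0)
  refine ⟨j, ?_⟩
  have hj' : (ω : F) ^ j = s' := by
    have := congrArg Units.val hj
    simpa using this
  rw [← pow_mul]
  refine (hpow _ ⟨d, hd⟩).trans ?_
  rw [mul_comm, pow_mul, hj', ← iterateFrobenius_def, hsd]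

end RankOne

end Module

section Grp

open Cfsg.Agent.H85 Cfsg.Agent.H54

variable {G : Type*} [Group G] [Finite G] {p e : ℕ} [Fact p.Prime]

/-- the torus in a failure of factorization configuration -/
theorem ffOut_exists_torus {H S V M A : Subgroup G} (o : FFOut p e H S V M A) (hSH : S ≤ H)
    (hSM : S ≤ M) (hV : IsMulCommutative V) (hHV : H ≤ normalizer (V : Set G))
    (hQ : pCoreOf p H ≤ centralizer (V : Set G)) (hM : ¬ H ≤ M) :
    ∃ t ∈ H, t ∈ M ∧ ∀ n : ℕ, ∀ x ∈ V ⊓ centralizer (A : Set G),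
      ∀ y ∈ V ⊓ centralizer (A : Set G), x ∉ centralizer (H : Set G) →
      y ∉ centralizer (H : Set G) → ∃ j : ℕ,
        ((t ^ p ^ n) ^ j * x * ((t ^ p ^ n) ^ j)⁻¹)⁻¹ * y ∈ centralizer (H : Set G) := by
  set Z := V ⊓ centralizer (H : Set G) with hZ
  set D := V ⊓ centralizer (A : Set G) with hD
  have hAH : A ≤ H := o.mem.1.trans hSH
  have hZD : Z ≤ D := inf_le_inf_left V (centralizer_le hAH)
  have hHZ : H ≤ normalizer (Z : Set G) :=
    (le_centralizer_iff.1 (inf_le_right : Z ≤ _)).trans (centralizer_le_normalizer _)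
  have hVV : ⁅V, V⁆ ≤ Z := by
    rw [commutator_eq_bot_iff_le_centralizer.2 (H51.isMulCommutative_iff_le_centralizer.1 hV)]
    exact bot_le
  obtain ⟨W, _, _, θ, s⟩ := H82.exists_secMap (G := H) (inf_le_left : Z ≤ V) hHV hHZ hVV
  haveI : Finite W := s.finite
  have hmem : ∀ x ∈ V, θ x ∈ s.img D ↔ x ∈ D := fun x hx => by
    conv_rhs => rw [← s.pre_img hZD inf_le_left, s.mem_pre]
    exact ⟨fun h => ⟨hx, h⟩, fun h => h.2⟩
  have r : RankOne (s.img D) (A.subgroupOf H) (M.subgroupOf H) := by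
    refine ⟨fun a ha => hSM (o.mem.1 ha), ?_, ?_, ?_, ?_, ?_, ?_⟩
    · rintro a ha _ ⟨u, hu, huV, rfl⟩
      rw [s.smul_eq_iff' a huV, commutatorElement_eq_one_iff_mul_comm.2 (hu.2 a ha)]
      exact Z.one_mem
    · intro a ha w
      obtain ⟨v, hv, rfl⟩ := s.surj w
      rw [← s.map_commutator a hv, hmem _ (s.commutator_mem a.2 hv)]
      refine ⟨s.commutator_mem a.2 hv, ?_⟩
      rw [← commutatorElement_inv]
      exact Subgroup.inv_mem _ (commutator_eq_bot_iff_le_centralizer.1 o.quad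
        (commutator_mem_commutator hv ha))
    · rintro h hh _ ⟨u, hu, huV, rfl⟩ h1
      rw [← s.conj h u huV, hmem _ (s.conj_mem h.2 huV)] at h1
      exact (s.ker u huV).2 ⟨huV, o.inter h h.2 hh u hu h1.2⟩
    · rintro w hw _ ⟨u, hu, huV, rfl⟩
      obtain ⟨v, hv, rfl⟩ := s.surj w
      obtain ⟨a, ha, h1⟩ := o.surj v hv (fun h => hw ((hmem v hv).2 ⟨hv, h⟩)) u⁻¹ (D.inv_mem hu)
      refine ⟨⟨a, hAH ha⟩, ha, ?_⟩
      have hc : ⁅v, a⁆ ∈ V := s.commutator_mem' (hAH ha) hv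
      have h2 := (s.eq_iff hc (V.inv_mem huV)).2 ⟨V.mul_mem (V.inv_mem hc) (V.inv_mem huV), h1⟩
      have h3 := s.map_commutator' ⟨a, hAH ha⟩ hv
      rw [s.map_inv huV] at h2
      rw [← neg_sub, ← h3, h2, neg_neg]
    · intro w hw a ha h1 w'
      obtain ⟨v, hv, rfl⟩ := s.surj w
      obtain ⟨v', hv', rfl⟩ := s.surj w'
      rw [s.smul_eq_iff a hv] at h1
      have h2 := o.inj v hv (fun h => hw ((hmem v hv).2 ⟨hv, h⟩)) a ha h1.2
      rw [s.smul_eq_iff a hv', commutatorElement_eq_one_iff_mul_comm.2 (hQ h2 v' hv')]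
      exact Z.one_mem
    · intro g hg w
      obtain ⟨v, hv, rfl⟩ := s.surj w
      have hgD : cj (g : G) D ≤ V := (cj_mono _ inf_le_left).trans
        (cj_eq_of_mem_normalizer (hHV g.2)).le
      rw [← o.sup g g.2 hg] at hv
      obtain ⟨d, hd, _, ⟨d', hd', rfl⟩, rfl⟩ := (mem_sup_of_le_normalizer
        (H53.le_normalizer_of_le_comm hV hgD inf_le_left)).1 hv
      refine ⟨θ d, s.mem_img_of_mem hd hd.1, θ d', s.mem_img_of_mem hd' hd'.1, ?_⟩
      rw [← s.conj g d' hd'.1]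
      exact s.map_mul d hd.1 _ (s.conj_mem g.2 hd'.1)
  obtain ⟨g, hg, hgM⟩ := SetLike.not_le_iff_exists.1 hM
  obtain ⟨x₀, hx₀, hx₀Z⟩ := SetLike.not_le_iff_exists.1 o.ne
  obtain ⟨t, ht, htor⟩ := r.exists_torus (p := p) (fun w => by
      obtain ⟨v, hv, rfl⟩ := s.surj w
      rw [← s.map_pow hv, s.ker _ (V.pow_mem hv p)]
      exact ⟨V.pow_mem hv p, o.pow v hv⟩) (g := ⟨g, hg⟩) hgM (fun h => hx₀Z (by
      have := s.mem_img_of_mem hx₀ hx₀.1
      rw [h, AddSubgroup.mem_bot, s.ker _ hx₀.1] at this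
      exact this.2))
  refine ⟨t, t.2, ht, fun n x hx y hy hxZ hyZ => ?_⟩
  obtain ⟨j, hj⟩ := htor n _ (s.mem_img_of_mem hx hx.1) _ (s.mem_img_of_mem hy hy.1)
    (fun h => hxZ ((s.ker _ hx.1).1 h).2) (fun h => hyZ ((s.ker _ hy.1).1 h).2)
  rw [← s.conj _ x hx.1, s.eq_iff (s.conj_mem (SetLike.coe_mem _) hx.1) hy.1] at hj
  exact ⟨j, by simpa using hj.2⟩

/-- `le_of_noFF`, keeping track of `O_p(H)` -/
theorem le_of_noFF' (he : p ∣ e) {M : Subgroup G}
    (H : Subgroup G) : ∀ S, IsSyl p S H → CharIn p H →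
      H ⊓ normalizer ((thompsonSubgroupOf e S : Subgroup G) : Set G) ≤ M →
      H ⊓ centralizer ((S ⊓ centralizer (S : Set G) : Subgroup G) : Set G) ≤ M →
      (∀ K T A : Subgroup G, K ≤ H → T ≤ S → pCoreOf p H ≤ T → UHyp p e K T (K ⊓ M) →
        CharIn p K → ¬ FFOut p e K T (zMod p e K) (K ⊓ M) A) → H ≤ M := by
  induction H using WellFoundedLT.induction with
  | ind H ih =>
  intro S hS hch hJ hZ hno
  by_contra hHM
  have u : UHyp p e H S (H ⊓ M) := by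
    refine ⟨hS, inf_le_left, fun h => hHM (h.trans inf_le_right), le_inf inf_le_left hJ,
      fun K T hK hTS hQT hT _ hKJ => le_inf hK.le (ih K hK T hT
        (hch.of_le hK.le (hQT.trans hT.le)) (hKJ.trans inf_le_right) (le_trans ?_ hZ)
        fun K' T' A' h1 h2 h3 => hno K' T' A' (h1.trans hK.le) (h2.trans hTS)
          ((pCoreOf_le_of_le hK.le (hQT.trans hT.le)).trans h3))⟩
    refine inf_le_inf hK.le (centralizer_le ?_)
    exact le_inf (((hch.center_le hS).trans inf_le_left).trans hQT)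
      (inf_le_right.trans (centralizer_le hTS))
  obtain ⟨A, o⟩ := u.exists_ffOut (zMod_le p e H) (le_normalizer_zMod p e H) (zMod_ea p e H)
    (u.centralizer_zMod_le he hch (le_inf inf_le_left hZ))
  exact hno H S A le_rfl le_rfl hS.pCoreOf_le u hch o

/-- Glauberman's theorem on central subgroups normalized by `N(J(S))` in characteristic `p` -/
theorem le_normalizer_or_torus {H S T : Subgroup G} (hS : IsSyl p S H) (hch : CharIn p H)
    (hT : T ≤ S ⊓ centralizer (S : Set G))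
    (hJ : H ⊓ normalizer ((thompsonSubgroupOf 0 S : Subgroup G) : Set G) ≤ normalizer (T : Set G)) :
    H ≤ normalizer (T : Set G) ∨ ∃ t ∈ H, t ∈ normalizer (T : Set G) ∧ (orderOf t).Coprime p ∧
      ∃ Z : Subgroup G, ¬ T ≤ Z ∧ (∀ z ∈ Z, t * z * t⁻¹ = z) ∧ (∀ x ∈ T, x ^ p ∈ Z) ∧
        ∀ x ∈ T, ∀ y ∈ T, x ∉ Z → y ∉ Z → ∃ j : ℕ, (t ^ j * x * (t ^ j)⁻¹)⁻¹ * y ∈ Z := by
  by_contra hcon
  rw [not_or] at hcon
  refine hcon.1 (le_of_noFF' (dvd_zero p) H S hS hch hJ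
    (inf_le_right.trans ((centralizer_le hT).trans (centralizer_le_normalizer _)))
    fun K T₀ A hK hT₀ hQ u hchK o => hcon.2 ?_)
  have hTT : T ≤ T₀ ⊓ centralizer (T₀ : Set G) :=
    le_inf (((hT.trans (hch.center_le hS)).trans inf_le_left).trans hQ)
      ((hT.trans inf_le_right).trans (centralizer_le hT₀))
  have hV : zMod p 0 K = pCoreOf p K ⊓ centralizer ((pCoreOf p K : Subgroup G) : Set G) :=
    H51.omegaOne_zero _
  have hTV : T ≤ zMod p 0 K := hV ▸ hTT.trans (hchK.center_le u.syl)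
  have hTD : T ≤ zMod p 0 K ⊓ centralizer (A : Set G) :=
    le_inf hTV ((hTT.trans inf_le_right).trans (centralizer_le o.mem.1))
  obtain ⟨t, htK, htM, htor⟩ := ffOut_exists_torus o u.syl.le u.S_le_M (zMod_ea p 0 K).1
    (le_normalizer_zMod p 0 K) (le_centralizer_iff.1 ((zMod_le p 0 K).trans inf_le_right))
    u.not_le
  obtain ⟨n, m, hm, hn⟩ := Nat.exists_eq_pow_mul_and_not_dvd (orderOf_pos t).ne' p
    (Fact.out : p.Prime).ne_one
  refine ⟨t ^ p ^ n, hK (K.pow_mem htK _), Subgroup.pow_mem _ htM.2 _, ?_,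
    centralizer (K : Set G), fun h => u.not_le (le_inf le_rfl
      ((le_centralizer_iff.1 h).trans (centralizer_le_normalizer _))), fun z hz => ?_,
    fun x hx => o.pow x (hTV hx), fun x hx y hy => htor n x (hTD hx) y (hTD hy)⟩
  · refine Nat.Coprime.coprime_dvd_left (k := m) (orderOf_dvd_of_pow_eq_one ?_)
      ((Nat.Prime.coprime_iff_not_dvd Fact.out).2 hm).symm
    rw [← pow_mul, ← hn, pow_orderOf_eq_one]
  · rw [hz _ (K.pow_mem htK _), mul_inv_cancel_right]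

end Grp

/-- the coprime action step -/
theorem torus_transitive {T : Type*} [Group T] [Finite T] {p : ℕ} [Fact p.Prime] (hp : p ≠ 2)
    (hT : IsPGroup p T) (hc : IsMulCommutative T) (α : MulAut T) (hα : (orderOf α).Coprime p)
    (Z : Subgroup T) (hZ : Z ≠ ⊤) (hfix : ∀ z ∈ Z, α z = z) (hpow : ∀ x, x ^ p ∈ Z)
    (htr : ∀ x y, x ∉ Z → y ∉ Z → ∃ j : ℕ, ((α ^ j) x)⁻¹ * y ∈ Z) :
    zpowers α ≠ ⊥ ∧ ∀ a b : T,
      a ∈ Subgroup.closure {y : T | ∃ ψ ∈ zpowers α, ∃ t : T, y = ψ t * t⁻¹} →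
      b ∈ Subgroup.closure {y : T | ∃ ψ ∈ zpowers α, ∃ t : T, y = ψ t * t⁻¹} → a ≠ 1 → b ≠ 1 →
      ∃ ψ ∈ zpowers α, ψ a = b := by
  classical
  letI : CommGroup T := { (inferInstance : Group T) with mul_comm := hc.is_comm.comm }
  haveI : Finite (MulAut T) := Finite.of_injective _ (DFunLike.coe_injective (F := MulAut T))
  haveI := Fintype.ofFinite (zpowers α)
  set Y := Subgroup.closure {y : T | ∃ ψ ∈ zpowers α, ∃ t : T, y = ψ t * t⁻¹} with hY
  have hfix' : ∀ ψ ∈ zpowers α, ∀ z ∈ Z, ψ z = z := by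
    intro ψ hψ z hz
    have : zpowers α ≤ MulAction.stabilizer (MulAut T) z := zpowers_le.2 (hfix z hz)
    exact this hψ
  let N : T →* T := MonoidHom.mk' (fun x => ∏ ψ : zpowers α, (ψ : MulAut T) x) fun x y => by
    simp only [map_mul, Finset.prod_mul_distrib]
  have hN : ∀ ψ ∈ zpowers α, ∀ x, N (ψ x) = N x := fun ψ hψ x =>
    Fintype.prod_equiv (Equiv.mulRight (⟨ψ, hψ⟩ : zpowers α)) _ _ fun _ => rfl
  have hYN : Y ≤ N.ker := by
    rw [hY, closure_le]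
    rintro _ ⟨ψ, hψ, t, rfl⟩
    change N _ = 1
    rw [map_mul, map_inv, hN ψ hψ, mul_inv_cancel]
  have hYZ : ∀ y ∈ Y, y ∈ Z → y = 1 := by
    intro y hy hz
    have h1 : N y = y ^ orderOf α := by
      change ∏ ψ : zpowers α, (ψ : MulAut T) y = _
      rw [Finset.prod_congr rfl fun (ψ : zpowers α) _ => hfix' ψ ψ.2 y hz, Finset.prod_const,
        Finset.card_univ, ← Nat.card_eq_fintype_card, Nat.card_zpowers]
    have h2 : y ^ orderOf α = 1 := h1 ▸ hYN hy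
    obtain ⟨k, hk⟩ := hT y
    rw [← orderOf_eq_one_iff]
    exact Nat.eq_one_of_dvd_coprimes (hα.pow_right k) (orderOf_dvd_of_pow_eq_one h2)
      (orderOf_dvd_of_pow_eq_one hk)
  refine ⟨fun h => ?_, fun a b ha hb ha1 hb1 => ?_⟩
  · obtain ⟨x, hx⟩ : ∃ x, x ∉ Z := by
      by_contra h'
      push Not at h'
      exact hZ (eq_top_iff.2 fun x _ => h' x)
    obtain ⟨j, hj⟩ := htr x x⁻¹ hx fun h' => hx ((Z.inv_mem_iff).1 h')
    rw [zpowers_eq_bot.1 h, one_pow, MulAut.one_apply, ← _root_.mul_inv_rev, Z.inv_mem_iff,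
      ← sq] at hj
    obtain ⟨k, hk⟩ := (Fact.out : p.Prime).odd_of_ne_two hp
    have := hpow x
    rw [hk, pow_succ, pow_mul] at this
    exact hx ((Z.mul_mem_cancel_left (Z.pow_mem hj k)).1 this)
  · obtain ⟨j, hj⟩ := htr a b (fun h => ha1 (hYZ a ha h)) (fun h => hb1 (hYZ b hb h))
    have h1 : (α ^ j) a ∈ Y := by
      have : (α ^ j) a = (α ^ j) a * a⁻¹ * a := by rw [inv_mul_cancel_right]
      rw [this]
      exact Y.mul_mem (subset_closure ⟨_, npow_mem_zpowers α j, a, rfl⟩) ha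
    exact ⟨α ^ j, npow_mem_zpowers α j,
      inv_mul_eq_one.1 (hYZ _ (Y.mul_mem (Y.inv_mem h1) hb) hj)⟩

end Cfsg.Agent.H99
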